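import Cfsg.Agent.H26.MinFinal

/-! Counting lemmas for the minimal index of orthogonal groups. -/

namespace H26

open QuadraticMap H56 H60 H58 Module Submodule

variable {F : Type*} [Field F] [Fintype F]

theorem card_qOdd_eq (m : ℕ) (c : F) : Nat.card {v // qOdd m F v = c} =
    Fintype.card F ^ m * Nat.card {x : F // x ^ 2 = c} +
      (Fintype.card F ^ m - 1) * Fintype.card F ^ (m - 1) * Fintype.card F := by
  have h := card_qPlus_add (F := F) m (fun z : F => z ^ 2 - c)
  have e : {v // qOdd m F v = c} ≃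
      {p : (Fin m ⊕ Fin m → F) × F // qPlus m F p.1 + (p.2 ^ 2 - c) = 0} :=
    Equiv.subtypeEquiv ((Equiv.sumArrowEquivProdArrow _ _ _).trans ((Equiv.prodComm _ _).trans
      (Equiv.prodCongr (Equiv.refl _) (Equiv.funUnique Unit F))))
      (fun p => by
        rw [qOdd, qOddc_apply', one_mul, add_comm, ← add_sub_assoc, sub_eq_zero]; rfl)
  rw [Nat.card_congr e, h, Nat.card_eq_fintype_card (α := F)]
  simp only [sub_eq_zero]

theorem card_qMinus_ge (m : ℕ) {a b : F}
    (hab : ∀ z₁ z₂ : F, z₁ ^ 2 + a * z₁ * z₂ + b * z₂ ^ 2 = 0 → z₁ = 0 ∧ z₂ = 0) (c : F) :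
    Fintype.card F ^ m + (Fintype.card F ^ m - 1) * Fintype.card F ^ (m - 1) * Fintype.card F ^ 2
      ≤ Nat.card {v // qMinus m F a b v = c} := by
  have h := card_qPlus_add (F := F) m (fun w => qBin F a b w - c)
  have e : {v // qMinus m F a b v = c} ≃
      {p : (Fin m ⊕ Fin m → F) × (Fin 2 → F) // qPlus m F p.1 + (qBin F a b p.2 - c) = 0} :=
    Equiv.subtypeEquiv (Equiv.sumArrowEquivProdArrow _ _ _) (fun p => by
      rw [← add_sub_assoc, sub_eq_zero]; exact Iff.rfl)
  have h1 : Nonempty {w // qBin F a b w - c = 0} := by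
    obtain ⟨x, y, z, h0, h2⟩ := exists_singular_comb
      ((qBin F a b).prod ((-c) • (QuadraticMap.sq : QuadraticForm F F)))
      (![1, 0], 0) (![0, 1], 0) (0, 1)
    simp [qBin_apply] at h2
    have hz : z ≠ 0 := by
      rintro rfl
      obtain ⟨rfl, rfl⟩ := hab x y (by linear_combination h2)
      simp at h0
    refine ⟨⟨![x / z, y / z], ?_⟩⟩
    simp only [qBin_apply, Matrix.cons_val_zero, Matrix.cons_val_one]
    field_simp
    linear_combination h2
  have h2 : 1 ≤ Nat.card {w // qBin F a b w - c = 0} := Nat.card_pos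
  rw [Nat.card_congr e, h]
  simp only [Nat.card_eq_fintype_card, Fintype.card_fun, Fintype.card_fin] at h2 ⊢
  nlinarith [Nat.mul_le_mul_left (Fintype.card F ^ m) h2]

variable {V : Type*} [AddCommGroup V] [Module F V] [FiniteDimensional F V] {Q : QuadraticForm F V}

theorem min_sing (hQ : Q.polarBilin.Nondegenerate) (h7 : 7 ≤ finrank F V) {T : ℕ}
    (hT : T + 1 = Nat.card {v // Q v = 0})
    (hb : T ≤ (Fintype.card F - 1) * ((Fintype.card F + 2) * Fintype.card F ^ (finrank F V - 3)))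
    (hc : ∀ c, c ≠ 0 →
      Nat.card {c : F // c * c = 1} * T ≤ (Fintype.card F - 1) * Nat.card {v // Q v = c})
    (hsol : finrank F V = 8 → IsPlus Q → T ≤ (Fintype.card F - 1) *
      ((Fintype.card F + 1) * (Fintype.card F ^ 2 + 1) * (Fintype.card F ^ 3 + 1)) ∧
      4 ≤ Fintype.card F) :
    (∀ M : Subgroup (O Q), ¬ EG Q ≤ M → T / (Fintype.card F - 1) ≤ M.relIndex (EG Q)) ∧
      ∃ z, (Pst Q z).relIndex (EG Q) = T / (Fintype.card F - 1) := by
  have hq : 0 < Fintype.card F - 1 := by have : 1 < Fintype.card F := Fintype.one_lt_card; omega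
  have hs : ∀ z, z ≠ 0 → Q z = 0 → (Pst Q z).relIndex (EG Q) = T / (Fintype.card F - 1) := by
    intro z h0 hz
    have := relIndex_Pst_sing hQ (by omega) h0 hz
    rw [← hT, Nat.add_right_cancel_iff] at this
    rw [← this, Nat.mul_div_cancel_left _ hq]
  refine ⟨min_relIndex hQ h7 (Nat.div_le_of_le_mul hb) (fun z h0 => ?_)
    fun h8 hp => ⟨Nat.div_le_of_le_mul (hsol h8 hp).1, Or.inr (hsol h8 hp).2⟩, ?_⟩
  · by_cases hz : Q z = 0
    · exact (hs z h0 hz).ge
    · have h1 := hc _ hz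
      rw [← relIndex_Pst_ne hQ (by omega) hz, mul_left_comm] at h1
      exact Nat.div_le_of_le_mul (Nat.le_of_mul_le_mul_left h1 card_sq_one.2.2.1)
  · obtain ⟨z, -, h0, hz⟩ := exists_sing (Q := Q) ⊤ (by rw [finrank_top]; omega)
    exact ⟨z, hs z h0 hz⟩

end H26
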