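import Cfsg.Agent.H20.C3Spec

/-! C3 tower (row S5227), job N1: the automizer of `E₁` contains a standard element. -/

set_option autoImplicit false
set_option linter.unusedSectionVars false
set_option linter.unusedSimpArgs false

namespace H26.C3

open Subgroup H20.C3
open H90.RF (Au Lg cm)

/-- Two involutions whose product has odd order are conjugate by a power of the product. -/
theorem inv_cj {G : Type*} [Group G] {t t' : G} (h : t * t = 1) (h' : t' * t' = 1) {m : ℕ}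
    (e : (t * t') ^ (2 * m + 1) = 1) : (t * t') ^ (m + 1) * t' * ((t * t') ^ (m + 1))⁻¹ = t := by
  have i : t⁻¹ = t := inv_eq_of_mul_eq_one_right h
  have i' : t'⁻¹ = t' := inv_eq_of_mul_eq_one_right h'
  have c : t' * (t * t')⁻¹ * t'⁻¹ = t * t' := by rw [mul_inv_rev, i, i', ← mul_assoc, h', one_mul]
  have c2 : t' * ((t * t') ^ (m + 1))⁻¹ = (t * t') ^ (m + 1) * t' := by
    rw [← inv_pow, ← mul_inv_eq_iff_eq_mul, ← conj_pow, c]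
  rw [mul_assoc, c2, ← mul_assoc, ← pow_add, show m + 1 + (m + 1) = 2 * m + 1 + 1 by ring, pow_succ, e,
    one_mul, mul_assoc, h', mul_one]

theorem pow_cj {X : Subgroup Co} {r : Equiv.Perm Co} {s : Co} (hs : s ∈ X)
    (h : ∀ u ∈ X, r u = s * u * s⁻¹) (k : ℕ) : ∀ u ∈ X, (r ^ k) u = s ^ k * u * (s ^ k)⁻¹ := by
  induction k with
  | zero => intro u _; simp
  | succ k ih =>
    intro u hu
    rw [pow_succ, Equiv.Perm.mul_apply, h u hu, ih _ (mul_mem (mul_mem hs hu) (inv_mem hs)), pow_succ]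
    group

/-- Two involutions of an automizer that differ by an inner automorphism. -/
theorem exists_cj {X : Subgroup Co} {Y : Subgroup (Equiv.Perm Co)} (L : Lg X Y) {t t' : Equiv.Perm Co}
    (ht : t ∈ Y) (ht' : t' ∈ Y) (h : t * t = 1) (h' : t' * t' = 1)
    (e : ∃ s ∈ X, ∀ u ∈ X, (t * t') u = s * u * s⁻¹) :
    ∃ j ∈ Y, j * t' * j⁻¹ = t ∧ (∃ s ∈ X, ∀ u ∈ X, j u = s * u * s⁻¹) ∧
      ∀ w, Commute w t → Commute w t' → Commute w j := by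
  obtain ⟨s, hs, e⟩ := e
  refine ⟨(t * t') ^ (9841 + 1), pow_mem (mul_mem ht ht') _, inv_cj h h' ?_,
    ⟨_, pow_mem hs _, pow_cj hs e _⟩, fun w a b => (a.mul_right b).pow_right _⟩
  refine L.ext (pow_mem (mul_mem ht ht') _) (one_mem _) fun u hu => ?_
  rw [pow_cj hs e _ u hu, show 2 * 9841 + 1 = 3 ^ 9 by norm_num, ← card_Co, pow_card_eq_one']
  simp

theorem mem_of_one {K : Subgroup Co} {x : F3 → Co} (h0 : x 0 = 1) (h2 : x (-1) = (x 1)⁻¹)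
    (h : x 1 ∈ K) (t : F3) : x t ∈ K := by
  rcases tri t with rfl | rfl | rfl
  exacts [h0 ▸ one_mem K, h, h2 ▸ inv_mem h]

theorem cm_mem {K : Subgroup Co} {s m : Co} (hs : s ∈ K) (hm : m ∈ K) : cm s m ∈ K :=
  mul_mem (inv_mem hm) (mul_mem (mul_mem hs hm) (inv_mem hs))

/-- generators of `E₁` -/
theorem gen1 {K : Subgroup Co} (hb : xb 1 ∈ K) (hd : xd 1 ∈ K) (hc : xc 1 ∈ K) : sE1 ≤ K := by
  have hg : xg 1 ∈ K := (show (cm (xb 1) (cm (xb 1) (xc 1)))⁻¹ = xg 1 by decide) ▸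
    inv_mem (cm_mem hb (cm_mem hb hc))
  have hz : xz 1 ∈ K := (show (cm (xd 1) (cm (xd 1) (xc 1)))⁻¹ = xz 1 by decide) ▸
    inv_mem (cm_mem hd (cm_mem hd hc))
  have he : xe 1 ∈ K := (show cm (xb 1) (xc 1) * (xg 1)⁻¹ = xe 1 by decide) ▸
    mul_mem (cm_mem hb hc) (inv_mem hg)
  have hf : xf 1 ∈ K := (show cm (xd 1) (xc 1) * (xz 1)⁻¹ = xf 1 by decide) ▸
    mul_mem (cm_mem hd hc) (inv_mem hz)
  have hh : xh 1 ∈ K := (show cm (xb 1) (xf 1) = xh 1 by decide) ▸ cm_mem hb hf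
  intro u hu
  have e : u = xc u.c * xe u.e * xf u.f * xg u.g * xh u.h * xz u.z * xb u.b * xd u.d := by
    ext <;> simp [xb, xc, xd, xe, xf, xg, xh, xz, mem_sE1.1 hu]
  rw [e]
  exact mul_mem (mul_mem (mul_mem (mul_mem (mul_mem (mul_mem (mul_mem
    (mem_of_one (x := xc) rfl (by decide) hc _) (mem_of_one (x := xe) rfl (by decide) he _))
    (mem_of_one (x := xf) rfl (by decide) hf _)) (mem_of_one (x := xg) rfl (by decide) hg _))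
    (mem_of_one (x := xh) rfl (by decide) hh _)) (mem_of_one (x := xz) rfl (by decide) hz _))
    (mem_of_one (x := xb) rfl (by decide) hb _)) (mem_of_one (x := xd) rfl (by decide) hd _)

theorem ext1 {β γ : Co → Co} (a : Au sE1 β) (a' : Au sE1 γ) (hb : β (xb 1) = γ (xb 1))
    (hd : β (xd 1) = γ (xd 1)) (hc : β (xc 1) = γ (xc 1)) : ∀ u ∈ sE1, β u = γ u := fun _ hu =>
  (gen1 (K :=
    { carrier := {u | u ∈ sE1 ∧ β u = γ u}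
      one_mem' := ⟨one_mem _, a.one.trans a'.one.symm⟩
      mul_mem' := fun x y => ⟨mul_mem x.1 y.1, by rw [a.mul _ x.1 _ y.1, a'.mul _ x.1 _ y.1, x.2, y.2]⟩
      inv_mem' := fun x => ⟨inv_mem x.1, by rw [a.inv x.1, a'.inv x.1, x.2]⟩ })
    ⟨rfl, hb⟩ ⟨rfl, hd⟩ ⟨rfl, hc⟩ hu).2

/-- the candidates -/
def nuG (γ ζ : F3) (u : Co) : Co :=
  ⟨0, -u.d, u.b, u.c, -u.f, u.e, u.z + ζ * u.c, -u.h, u.g + γ * u.c⟩

theorem au_nuG (γ ζ : F3) : Au sE1 (nuG γ ζ) :=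
  Au.of_inj (fun _ _ => rfl)
    (fun u hu w hw => by ext <;> simp [nuG, mem_sE1.1 hu, mem_sE1.1 hw] <;> ring) fun u hu w hw e => by
      simp only [nuG, Co.mk.injEq, neg_inj, true_and] at e
      obtain ⟨e1, e2, e3, e4, e5, e6, e7, e8⟩ := e
      rw [e3, add_left_inj] at e6 e8
      ext <;> simp [*, mem_sE1.1 hu, mem_sE1.1 hw]

/-- `n` is congruent to `n₁` -/
def Tp (n : Co → Co) : Prop :=
  (∀ u ∈ sE1, (n u).b = -u.d ∧ (n u).d = u.b) ∧ ∀ u ∈ sA, (n u).c = u.c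

theorem sd_mem (δ : DD) {u : Co} (hu : u ∈ sE1) : sd δ u ∈ sE1 := by simp [mem_sE1, sd, mem_sE1.1 hu]

theorem Tp.cj {n j : Equiv.Perm Co} (a : Au sE1 n) (h : Tp n)
    (e : ∃ s ∈ sE1, ∀ u ∈ sE1, j u = s * u * s⁻¹) : Tp ⇑(j * n) := by
  obtain ⟨s, hs, e⟩ := e
  refine ⟨fun u hu => ?_, fun u hu => ?_⟩
  · rw [Equiv.Perm.mul_apply, e _ (a.mem u hu), ← (h.1 u hu).1, ← (h.1 u hu).2]
    simp [mem_sE1.1 hs, mem_sE1.1 (a.mem u hu)]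
  · rw [Equiv.Perm.mul_apply, e _ (a.mem u hu.1), ← h.2 u hu]
    simp

variable {Y0 Y1 Y2 Y3 YA : Subgroup (Equiv.Perm Co)}

theorem sq_one (L : Lg sE1 Y1) {t : Equiv.Perm Co} {δ : DD} (ht : t ∈ Y1) (e : ∀ u ∈ sE1, t u = sd δ u) :
    t * t = 1 := L.ext (mul_mem ht ht) (one_mem _) fun u hu => by
  rw [Equiv.Perm.mul_apply, e u hu, e _ (sd_mem δ hu), sd_sd_self]; rfl

theorem step (T : Tri Y0 Y1 Y2 Y3 YA) {n t t' : Equiv.Perm Co} {x y x' y' : F3ˣ} (hn : n ∈ Y1) (h : Tp n)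
    (ht : t ∈ Y1) (e : ∀ u ∈ sE1, t u = sd (x, y, 1) u) (ht' : t' ∈ Y1)
    (e' : ∀ u ∈ sE1, t' u = sd (x', y', 1) u) (h1 : (y : F3) * (x' * y') = 1) (h2 : (x * y : F3) * y' = 1) :
    ∃ j ∈ Y1, j * n * t' * (j * n)⁻¹ = t ∧ Tp ⇑(j * n) ∧
      ∀ w, Commute w t → Commute w (n * t' * n⁻¹) → Commute w j := by
  have a := T.l1.au n hn
  have m := mul_mem (mul_mem hn ht') (inv_mem hn)
  have k : ∀ v ∈ sE1, (t * (n * t' * n⁻¹)) (n v) = sd (x, y, 1) (n (sd (x', y', 1) v)) := fun v hv => by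
    simp only [Equiv.Perm.mul_apply, Equiv.Perm.coe_inv, Equiv.symm_apply_apply]
    rw [e' v hv, e _ (a.mem _ (sd_mem _ hv))]
  obtain ⟨j, hj, j1, j2, j3⟩ := exists_cj T.l1 ht m (sq_one T.l1 ht e)
    (by rw [conj_mul, sq_one T.l1 ht' e', mul_one, mul_inv_cancel])
    (T.rad1 _ (mul_mem ht m) (fun u hu => by
      obtain ⟨v, hv, rfl⟩ := a.sur u hu
      obtain ⟨b1, b2⟩ := h.1 _ (sd_mem (x', y', 1) hv)
      obtain ⟨b3, b4⟩ := h.1 v hv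
      rw [k v hv, b3, b4]
      simp only [sd] at b1 b2 ⊢
      rw [b1, b2]
      exact ⟨by linear_combination -v.d * h1, by linear_combination v.b * h2⟩) fun u hu => by
      obtain ⟨v, hv, rfl⟩ := a.sur u hu.1
      obtain ⟨b3, b4⟩ := h.1 v hv
      have vA : v ∈ sA := ⟨hv, b4.symm.trans hu.2.2, neg_eq_zero.1 (b3.symm.trans hu.2.1)⟩
      have := h.2 (sd (x', y', 1) v) (by simp [mem_sA, sd, vA.1, vA.2.1, vA.2.2])
      rw [k v hv, h.2 v vA]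
      simpa [sd] using this)
  exact ⟨j, hj, by rw [← j1]; group, h.cj a j2, j3⟩

theorem shp : ∀ c e f g h z : F3, sd (1, -1, 1) ⟨0, 0, 1, c, e, f, g, h, z⟩ = (⟨0, 0, 1, c, e, f, g, h, z⟩ : Co)⁻¹ →
    sd (-1, -1, 1) ⟨0, 0, 1, c, e, f, g, h, z⟩ = ⟨0, 0, 1, c, e, f, g, h, z⟩ →
    xc f * ⟨0, 0, 1, c, e, f, g, h, z⟩ * (xc f)⁻¹ = xd 1 ∧ c = 0 ∧ e = 0 ∧ g = 0 ∧ h = 0 ∧ z = f := by
  decide +kernel

theorem shq : ∀ c e f g h z : F3,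
    sd (1, -1, 1) ⟨0, -1, 0, c, e, f, g, h, z⟩ = (⟨0, -1, 0, c, e, f, g, h, z⟩ : Co)⁻¹ →
    sd (-1, -1, 1) ⟨0, -1, 0, c, e, f, g, h, z⟩ = (⟨0, -1, 0, c, e, f, g, h, z⟩ : Co)⁻¹ → ∀ t : F3,
    1 = cm (⟨0, 0, 1, 0, 0, t, 0, 0, t⟩ : Co) ⟨0, -1, 0, c, e, f, g, h, z⟩ →
    xc t * ⟨0, -1, 0, c, e, f, g, h, z⟩ * (xc t)⁻¹ = xb (-1) := by
  decide +kernel

theorem shr : ∀ e f g h z : F3,
    sd (1, -1, 1) ⟨0, 0, 0, 1, e, f, g, h, z⟩ = ⟨0, 0, 0, 1, e, f, g, h, z⟩ →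
    sd (-1, -1, 1) ⟨0, 0, 0, 1, e, f, g, h, z⟩ = ⟨0, 0, 0, 1, e, f, g, h, z⟩ → ∀ t : F3,
    xc t * ⟨0, 0, 0, 1, e, f, g, h, z⟩ * (xc t)⁻¹ = nuG z g (xc 1) := by
  decide +kernel

theorem jobN1 : JobN1 := by
  rintro - Y0 Y1 Y2 Y3 YA T ⟨y1, hy1, f1⟩ ⟨y2, hy2, f2⟩ ⟨n0, hn0, g0⟩
  obtain ⟨T1, m1, e1⟩ := T.res1 y1 hy1
  obtain ⟨T2, m2, e2⟩ := T.res1 y2 hy2
  replace e1 : ∀ u ∈ sE1, T1 u = sd (1, -1, 1) u := fun u hu => (e1 u hu).trans (f1 u trivial)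
  replace e2 : ∀ u ∈ sE1, T2 u = sd (-1, 1, 1) u := fun u hu => (e2 u hu).trans (f2 u trivial)
  have e3 : ∀ u ∈ sE1, (T1 * T2) u = sd (-1, -1, 1) u := fun u hu => by
    rw [Equiv.Perm.mul_apply, e2 u hu, e1 _ (sd_mem _ hu), sd_sd]; rfl
  have c12 : Commute T1 T2 := T.l1.ext (mul_mem m1 m2) (mul_mem m2 m1) fun u hu => by
    rw [e3 u hu, Equiv.Perm.mul_apply, e1 u hu, e2 _ (sd_mem _ hu), sd_sd]; rfl
  obtain ⟨j, hj, j1, j2, -⟩ := step T hn0 g0 m1 e1 m1 e1 (by decide) (by decide)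
  have c1 : Commute T1 (j * n0) := (mul_inv_eq_iff_eq_mul.1 j1).symm
  obtain ⟨j', hj', j1', g, j3⟩ := step T (mul_mem hj hn0) j2 (mul_mem m1 m2) e3 m2 e2 (by decide) (by decide)
  have c1' : Commute T1 (j' * (j * n0)) :=
    (j3 T1 ((Commute.refl T1).mul_right c12) ((c1.mul_right c12).mul_right c1.inv_right)).mul_right c1
  have hn := mul_mem hj' (mul_mem hj hn0)
  generalize j' * (j * n0) = n at *
  have a := T.l1.au n hn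
  have k1 : ∀ u ∈ sE1, sd (1, -1, 1) (n u) = n (sd (1, -1, 1) u) := fun u hu => by
    rw [← e1 u hu, ← e1 _ (a.mem u hu)]; exact DFunLike.congr_fun c1'.eq u
  have k2 : ∀ u ∈ sE1, sd (-1, -1, 1) (n u) = n (sd (-1, 1, 1) u) := fun u hu => by
    rw [← e2 u hu, ← e3 _ (a.mem u hu)]
    exact DFunLike.congr_fun (mul_inv_eq_iff_eq_mul.1 j1').symm u
  have p1 := k1 (xb 1) rfl
  have p2 := k2 (xb 1) rfl
  have q1 := k1 (xd 1) rfl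
  have q2 := k2 (xd 1) rfl
  have r1 := k1 (xc 1) rfl
  have r2 := k2 (xc 1) rfl
  rw [show sd (1, -1, 1) (xb 1) = (xb 1)⁻¹ by decide, a.inv rfl] at p1
  rw [show sd (-1, 1, 1) (xb 1) = xb 1 by decide] at p2
  rw [show sd (1, -1, 1) (xd 1) = (xd 1)⁻¹ by decide, a.inv rfl] at q1
  rw [show sd (-1, 1, 1) (xd 1) = (xd 1)⁻¹ by decide, a.inv rfl] at q2
  rw [show sd (1, -1, 1) (xc 1) = xc 1 by decide] at r1
  rw [show sd (-1, 1, 1) (xc 1) = xc 1 by decide] at r2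
  have pq := a.cm (c := xb 1) (d := xd 1) rfl rfl
  rw [show cm (xb 1) (xd 1) = 1 by decide, a.one] at pq
  have p0 := a.mem (xb 1) rfl
  have q0 := a.mem (xd 1) rfl
  have r0 := a.mem (xc 1) rfl
  obtain ⟨p3, p4⟩ := g.1 (xb 1) rfl
  obtain ⟨q3, q4⟩ := g.1 (xd 1) rfl
  obtain ⟨r3, r4⟩ := g.1 (xc 1) rfl
  have r5 := g.2 (xc 1) ⟨rfl, rfl, rfl⟩
  have key : ∃ t γ ζ, xc t * n (xb 1) * (xc t)⁻¹ = nuG γ ζ (xb 1) ∧
      xc t * n (xd 1) * (xc t)⁻¹ = nuG γ ζ (xd 1) ∧ xc t * n (xc 1) * (xc t)⁻¹ = nuG γ ζ (xc 1) := by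
    generalize n (xb 1) = p, n (xd 1) = q, n (xc 1) = r at *
    obtain ⟨_, _, _, pc, pe, pf, pg, ph, pz⟩ := p
    obtain ⟨_, _, _, qc, qe, qf, qg, qh, qz⟩ := q
    obtain ⟨_, _, _, _, re, rf, rg, rh, rz⟩ := r
    simp only [mem_sE1, xb, xc, xd, neg_zero] at p0 q0 r0 p3 p4 q3 q4 r3 r4 r5
    subst p0 q0 r0 p3 p4 q3 q4 r3 r4 r5
    obtain ⟨s1, rfl, rfl, rfl, rfl, rfl⟩ := shp _ _ _ _ _ _ p1 p2
    refine ⟨_, rz, rg, s1.trans ?_, (shq _ _ _ _ _ _ q1 q2 _ pq).trans ?_, shr _ _ _ _ _ r1 r2 _⟩ <;>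
      simp [nuG, xb, xd]
  obtain ⟨t, γ, ζ, s1, s2, s3⟩ := key
  obtain ⟨y, hy, f⟩ := T.inn (xc t)
  obtain ⟨C, mC, eC⟩ := T.res1 y hy
  replace eC : ∀ u ∈ sE1, C u = xc t * u * (xc t)⁻¹ := fun u hu => (eC u hu).trans (f u trivial)
  have hm := mul_mem mC hn
  have ev := ext1 (T.l1.au _ hm) (au_nuG γ ζ) ((eC _ p0).trans s1) ((eC _ q0).trans s2) ((eC _ r0).trans s3)
  generalize C * n = m at hm ev
  have ev2 : ∀ u ∈ sE1, (m * m * T1) u = nuG γ ζ (nuG γ ζ (sd (1, -1, 1) u)) := fun u hu => by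
    rw [Equiv.Perm.mul_apply, Equiv.Perm.mul_apply, e1 u hu, ev _ (sd_mem _ hu), ev _ rfl]
  obtain ⟨s, hs, es⟩ := T.rad1 _ (mul_mem (mul_mem hm hm) m1)
    (fun u hu => by rw [ev2 u hu]; simp [nuG, sd]) fun u hu => by rw [ev2 u hu.1]; simp [nuG, sd]
  have e4 := (ev2 (xc 1) rfl).symm.trans (es (xc 1) rfl)
  have e5 := congrArg Co.e e4
  have e6 := congrArg Co.g e4
  simp [nuG, sd, xc, mem_sE1.1 hs] at e5 e6
  refine ⟨γ, m, hm, fun u hu => (ev u hu).trans ?_⟩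
  have : ζ = -γ := by linear_combination e6 - s.b * e5
  rw [this]
  ext <;> simp [nuG, Co.nu1, sub_eq_add_neg]

end H26.C3
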