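import Cfsg.Agent.H56.CkSpec
import Cfsg.Agent.S0806

/-! CKS (S2193), slot `Quo`: `SL_(d+1)(q)` on `q^(d+1)` points. -/

set_option autoImplicit false

namespace H26.CKQ

open Module MulAction H26.ML H62
open scoped MatrixGroups

section

variable {F W : Type} [Field F] [Fintype F] [AddCommGroup W] [Module F W] [FiniteDimensional F W]

omit [Fintype F] in
theorem idx_two (h3 : 3 ≤ finrank F W) (M : Subgroup (W ≃ₗ[F] W)) :
    M.relIndex (SLg F W) ≠ 2 := by
  intro h2
  have key : ∀ φ u, φ u = 0 → HasTv M φ u := fun φ u hu => by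
    refine hasTv_of_forall hu fun t ht => ?_
    have hz : finrank F (F ∙ u) ≤ 1 := by simpa using finrank_span_le_card ({u} : Set W)
    obtain ⟨w, -, hw, hφ⟩ := exists_mem_notMem_ker [φ] (W := ⊤) (Z := F ∙ u)
      (by simp only [finrank_top, List.length_singleton]; omega)
    have hφ : φ w = 0 := hφ φ (by simp)
    obtain ⟨θ, h1, h0⟩ := exists_dual_pair hw
    obtain ⟨a, ha, ea⟩ := exists_tv hφ
    obtain ⟨b, hb, eb⟩ := exists_tv h0
    have e : (⟨a, ha⟩ * ⟨t, mem_SLg_of_tv hu ht⟩ * ⟨b, hb⟩ : SLg F W) = ⟨b, hb⟩ * ⟨a, ha⟩ := by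
      refine Subtype.ext (LinearEquiv.ext fun x => ?_)
      simp only [Subgroup.coe_mul, LinearEquiv.mul_apply, ea, eb, ht, map_add, map_smul, hu,
        h1]
      module
    have h := (Subgroup.mul_mem_iff_of_index_two h2 (a := ⟨b, hb⟩) (b := ⟨a, ha⟩))
    rw [← e, Subgroup.mul_mem_iff_of_index_two h2, Subgroup.mul_mem_iff_of_index_two h2] at h
    have : (⟨t, mem_SLg_of_tv hu ht⟩ : SLg F W) ∈ M.subgroupOf (SLg F W) := by tauto
    exact this
  rw [Subgroup.relIndex_eq_one.2 fun g hg => mem_of_det_eq_one key g (mem_SLg.1 hg)] at h2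
  omega

theorem idx_q {d : ℕ} (hd : finrank F W = d) (h2 : 2 ≤ d) (M : Subgroup (W ≃ₗ[F] W))
    (hM : M.relIndex (SLg F W) = Fintype.card F) : d = 2 ∧ (Fintype.card F = 2 ∨ (2 : F) ≠ 0) := by
  have hq : 1 < Fintype.card F := Fintype.one_lt_card
  have hne : ¬ SLg F W ≤ M := fun h => by rw [Subgroup.relIndex_eq_one.2 h] at hM; omega
  rcases h2.eq_or_lt with rfl | h3
  · refine ⟨rfl, ?_⟩
    by_contra hc
    push Not at hc
    have hp : CharP F 2 := CharTwo.of_one_ne_zero_of_two_eq_zero one_ne_zero hc.2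
    have hev := FiniteField.even_card_iff_char_two.1 (ringChar.eq F 2)
    let f : SL(2, F) →* W ≃ₗ[F] W := SpecialLinearGroup.toLinearEquiv.comp
      (Matrix.SpecialLinearGroup.toLin_equiv (finBasisOfFinrankEq F W hd)).toMonoidHom
    have hr : f.range = SLg F W := by
      ext g
      constructor
      · rintro ⟨A, rfl⟩
        exact (Matrix.SpecialLinearGroup.toLin_equiv (finBasisOfFinrankEq F W hd) A).2
      · intro hg
        obtain ⟨A, hA⟩ := (Matrix.SpecialLinearGroup.toLin_equiv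
          (finBasisOfFinrankEq F W hd)).surjective ⟨g, hg⟩
        exact ⟨A, congrArg Subtype.val hA⟩
    have hi : (M.comap f).index = Fintype.card F := by rw [Subgroup.index_comap, hr, hM]
    have hi' : ((M.comap f).map (QuotientGroup.mk' (Subgroup.center SL(2, F)))).index =
        Fintype.card F := by
      rw [Subgroup.index_map_eq _ (QuotientGroup.mk'_surjective _), hi]
      intro g hg
      rw [QuotientGroup.ker_mk'] at hg
      obtain ⟨r, hr1, hr2⟩ := Matrix.SpecialLinearGroup.mem_center_iff.1 hg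
      have : r = 1 := by
        have := CharTwo.two_eq_zero (R := F)
        rw [Fintype.card_fin] at hr1
        have h' : (r - 1) ^ 2 = 0 := by grind
        exact sub_eq_zero.1 (pow_eq_zero_iff two_ne_zero |>.1 h')
      have : g = 1 := Subtype.ext (by rw [← hr2, this, map_one]; rfl)
      rw [this]
      exact one_mem _
    have := (Cfsg.Agent.S0806.result (F := F) rfl (by
      simp only [Finset.mem_insert, Finset.mem_singleton]; omega)).1
      ((M.comap f).map (QuotientGroup.mk' (Subgroup.center SL(2, F)))) fun h => by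
        rw [h, Subgroup.index_top] at hi'; omega
    omega
  · exfalso
    by_cases hq2 : Fintype.card F = 2
    · exact idx_two (by omega) M (hM.trans hq2)
    obtain ⟨e, rfl⟩ : ∃ e, d = e + 1 := ⟨d - 1, by omega⟩
    obtain ⟨T, hT⟩ := Nat.sub_one_dvd_pow_sub_one (Fintype.card F) e
    have h1 : 1 ≤ Fintype.card F ^ e := Nat.one_le_pow _ _ (by omega)
    have := min_relIndex (T := T) hd (by omega) (by omega) (by omega) M hne
    have h4 : Fintype.card F ^ 1 < Fintype.card F ^ e := Nat.pow_lt_pow_right hq (by omega)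
    rw [pow_one] at h4
    omega

end

section

variable {F V : Type} [Field F] [AddCommGroup V] [Module F V] (x : V)

/-- The action of the stabiliser of `x` on the quotient by `x`. -/
noncomputable def rho : stabilizer (SLg F V) x →* ((V ⧸ F ∙ x) ≃ₗ[F] (V ⧸ F ∙ x)) :=
  MonoidHom.mk' (fun g => Submodule.Quotient.equiv _ _ g.1.1 (by
    rw [Submodule.map_span, Set.image_singleton]
    exact congrArg (fun y => F ∙ y) g.2)) fun g h => LinearEquiv.ext fun v =>
      Submodule.Quotient.induction_on _ v fun _ => rfl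

theorem rho_mk (g : stabilizer (SLg F V) x) (v : V) :
    rho x g (Submodule.Quotient.mk v) = Submodule.Quotient.mk (g.1.1 v) := rfl

variable [FiniteDimensional F V] {x}

theorem range_rho : (rho (F := F) x).range = SLg F (V ⧸ F ∙ x) := by
  refine le_antisymm ?_ fun g hg => mem_of_det_eq_one (fun φ u hu => ?_) g (mem_SLg.1 hg)
  · rintro _ ⟨g, rfl⟩
    have hg : g.1.1 x = x := g.2
    have he : (F ∙ x) ≤ (F ∙ x).comap (g.1.1 : V →ₗ[F] V) :=
      (Submodule.span_singleton_le_iff_mem _ _).2 (by simp [hg])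
    have h := LinearMap.det_eq_det_mul_det (F ∙ x) (g.1.1 : V →ₗ[F] V) he
    have h1 : (g.1.1 : V →ₗ[F] V).restrict he = LinearMap.id := by
      ext ⟨v, hv⟩
      obtain ⟨c, rfl⟩ := Submodule.mem_span_singleton.1 hv
      simp [hg]
    rw [mem_SLg.1 g.1.2, h1, LinearMap.det_id, one_mul] at h
    exact mem_SLg.2 h.symm
  · obtain ⟨u, rfl⟩ := Submodule.Quotient.mk_surjective _ u
    obtain ⟨t, ht, et⟩ := exists_tv (φ := φ ∘ₗ (F ∙ x).mkQ) (u := u) hu
    have h0 : (Submodule.Quotient.mk x : V ⧸ F ∙ x) = 0 :=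
      (Submodule.Quotient.mk_eq_zero _).2 (Submodule.mem_span_singleton_self x)
    refine ⟨_, ⟨⟨⟨t, ht⟩, (et x).trans (by simp [h0])⟩, rfl⟩, fun v => ?_⟩
    obtain ⟨v, rfl⟩ := Submodule.Quotient.mk_surjective _ v
    rw [rho_mk]
    simp [et]

omit [FiniteDimensional F V] in
theorem mem_Ez (hx : x ≠ 0) {g : stabilizer (SLg F V) x} (hg : g ∈ (rho (F := F) x).ker) :
    g.1.1 ∈ Ez F x := by
  obtain ⟨θ, hθ⟩ := exists_dual_of_ne_zero (F := F) hx
  have hx' : g.1.1 x = x := g.2
  refine ⟨θ ∘ₗ ((g.1.1 : V →ₗ[F] V) - LinearMap.id), by simp [hx'], fun v => ?_⟩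
  have h : (Submodule.Quotient.mk (g.1.1 v) : V ⧸ F ∙ x) = Submodule.Quotient.mk v := by
    rw [← rho_mk, MonoidHom.mem_ker.1 hg]; rfl
  obtain ⟨c, hc⟩ := Submodule.mem_span_singleton.1 ((Submodule.Quotient.eq _).1 h)
  have h2 : (θ ∘ₗ ((g.1.1 : V →ₗ[F] V) - LinearMap.id)) v = c := by
    change θ (g.1.1 v - v) = c
    rw [← hc, map_smul, hθ, smul_eq_mul, mul_one]
  rw [h2, hc, add_sub_cancel]

theorem card_ker [Fintype F] (hx : x ≠ 0) {d : ℕ} (hd : finrank F V = d + 1) :
    Nat.card (rho (F := F) x).ker = Fintype.card F ^ d := by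
  have : Finite V := Module.finite_of_finite F
  have e : (rho (F := F) x).ker.map ((SLg F V).subtype.comp (Subgroup.subtype _)) = Ez F x := by
    refine le_antisymm ?_ ?_
    · rintro _ ⟨g, hg, rfl⟩
      exact mem_Ez hx hg
    · rintro t ⟨φ, h0, ht⟩
      refine ⟨⟨⟨t, mem_SLg_of_tv h0 ht⟩, (ht x).trans (by simp [h0])⟩,
        MonoidHom.mem_ker.2 (LinearEquiv.ext fun v => ?_), rfl⟩
      obtain ⟨v, rfl⟩ := Submodule.Quotient.mk_surjective _ v
      rw [rho_mk]
      refine (Submodule.Quotient.eq _).2 ?_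
      change t v - v ∈ _
      rw [ht, add_sub_cancel_left]
      exact Submodule.smul_mem _ _ (Submodule.mem_span_singleton_self x)
  rw [← Subgroup.card_map_of_injective (f := (SLg F V).subtype.comp (Subgroup.subtype _))
    ((Subgroup.subtype_injective _).comp (Subgroup.subtype_injective _)), e]
  refine le_antisymm ?_ (card_Ez hx hd)
  have := card_inf_le (⊤ : Subgroup (V ≃ₗ[F] V)) x
  rwa [inf_top_eq, card_Yz_full (M := ⊤) hx hd fun φ h =>
    hasTv_of_forall h fun _ _ => Subgroup.mem_top _] at this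

end

theorem jobQuo : H56.CK.JobQuo := by
  intro F V Ω _ _ _ _ _ _ _ d hd h2 hT hV hn
  have : Finite V := Module.finite_of_finite F
  have : Finite (V ≃ₗ[F] V) := Finite.of_injective _ DFunLike.coe_injective
  have : Nontrivial V := Module.nontrivial_of_finrank_eq_succ hd
  obtain ⟨x, hx⟩ := exists_ne (0 : V)
  have hq : 0 < Fintype.card F := Fintype.card_pos
  obtain ⟨ω⟩ : Nonempty Ω := (Nat.card_pos_iff.1 (by rw [hn]; positivity)).1
  have : IsPretransitive (stabilizer (SLg F V) x) Ω := ⟨fun a b => by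
    obtain ⟨g, h1, h⟩ := hV x a b
    exact ⟨⟨g, h1⟩, h⟩⟩
  set K := stabilizer (stabilizer (SLg F V) x) ω
  have h1 := K.card_mul_index
  rw [index_stabilizer_of_transitive, hn] at h1
  have h3 := (rho (F := F) x).ker.card_mul_index
  rw [Subgroup.index_ker, card_ker hx hd, range_rho] at h3
  have h4 : Nat.card (K.map (rho x)) = Nat.card K := by
    rw [← Subgroup.relIndex_ker, ← Subgroup.inf_relIndex_right, ← Subgroup.relIndex_bot_left]
    congr 1
    refine (Subgroup.eq_bot_iff_forall _).2 fun g hg => ?_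
    obtain ⟨φ, h0, ht⟩ := mem_Ez hx hg.1
    exact Subtype.ext (hT g.1 φ x h0 ht ω hg.2)
  have hle : K.map (rho x) ≤ SLg F (V ⧸ F ∙ x) :=
    (Subgroup.map_le_range _ _).trans range_rho.le
  have h5 := ((K.map (rho x)).subgroupOf (SLg F (V ⧸ F ∙ x))).card_mul_index
  rw [Nat.card_congr (Subgroup.subgroupOfEquivOfLe hle).toEquiv, h4] at h5
  have hd' : finrank F (V ⧸ F ∙ x) = d := by
    have := Submodule.finrank_quotient_add_finrank (F ∙ x)
    rw [finrank_span_singleton hx] at this
    omega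
  refine idx_q hd' h2 (K.map (rho x)) ?_
  have hK : 0 < Nat.card K := Nat.card_pos
  refine Nat.eq_of_mul_eq_mul_left (mul_pos (pow_pos hq d) hK) ?_
  rw [mul_assoc, Subgroup.relIndex, h5, h3, ← h1]
  ring

end H26.CKQ
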