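import Cfsg.Agent.H66.CKOSpec

/-! CKS (S2193), slot `U2`: in the unitary case no transvection fixes a point. -/

set_option autoImplicit false

namespace H26.CKU

open Module MulAction H59 H66.CK

section

variable {F V Ω : Type} [Field F] [AddCommGroup V] [Module F V] {σ : F →+* F}
  {B : V →ₛₗ[σ] V →ₗ[F] F} [MulAction (sisom B) Ω]

/-- The number of transvections with centre `x` that fix `a`. -/
noncomputable def rho (B : V →ₛₗ[σ] V →ₗ[F] F) [MulAction (sisom B) Ω] (x : V) (a : Ω) : ℕ :=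
  Nat.card (axisGrp B x ⊓ St (sisom B) a : Subgroup _)

theorem rho_conj (g : sisom B) {x y : V} (a : Ω)
    (h : ∀ t, g.1 * t * g.1⁻¹ ∈ axisGrp B y ↔ t ∈ axisGrp B x) : rho B x a = rho B y (g • a) :=
  Nat.card_congr ((MulAut.conj g.1).toEquiv.subtypeEquiv fun t =>
    (and_congr (h t) (conj_mem_St g)).symm)

theorem rho_eq [FiniteDimensional F V] (h : IsHerm B) {x : V} (h0 : x ≠ 0) (hx : B x x = 0)
    (a : Ω) : Nat.card {c : F // c + σ c = 0 ∧ ∃ g ∈ St (sisom B) a,
      ∀ v, g v = v + (c * B x v) • x} = rho B x a := by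
  refine Nat.card_eq_of_bijective (fun c => ⟨c.2.2.choose,
    (h.mem_axisGrp_isotropic hx).2 ⟨c.1, c.2.1, c.2.2.choose_spec.2⟩, c.2.2.choose_spec.1⟩)
    ⟨fun c d e => ?_, fun g => ?_⟩
  · obtain ⟨f, hf, -⟩ := h.exists_partner hx h0
    have e' : c.2.2.choose = d.2.2.choose := congrArg Subtype.val e
    have h1 := c.2.2.choose_spec.2 f
    rw [e', d.2.2.choose_spec.2 f, hf, mul_one, mul_one, add_right_inj] at h1
    exact Subtype.ext (smul_left_injective F h0 h1).symm
  · obtain ⟨c, hc, hg⟩ := (h.mem_axisGrp_isotropic hx).1 g.2.1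
    refine ⟨⟨c, hc, g.1, g.2.2, hg⟩, Subtype.ext (LinearEquiv.ext fun v => ?_)⟩
    exact ((⟨g.1, g.2.2, hg⟩ : ∃ k ∈ St (sisom B) a,
      ∀ v, k v = v + (c * B x v) • x).choose_spec.2 v).trans (hg v).symm

/-- The elements of the stabiliser of `a` acting trivially on the orthogonal of `r` and `u`. -/
def WW (B : V →ₛₗ[σ] V →ₗ[F] F) [MulAction (sisom B) Ω] {r u : V} (h1 : B r r = 0)
    (h2 : B r u = 0) (h3 : B u r = 0) (h4 : B u u = 0) (a : Ω) : AddSubgroup (F × F × F) where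
  carrier := {z | ∃ g ∈ St (sisom B) a, ∀ v, g v = v + (z.1 * B r v + z.2.1 * B u v) • r +
    (-σ z.2.1 * B r v + z.2.2 * B u v) • u}
  zero_mem' := ⟨1, one_mem _, fun v => by simp⟩
  add_mem' := by
    rintro z w ⟨g, hg, eg⟩ ⟨k, hk, ek⟩
    refine ⟨g * k, mul_mem hg hk, fun v => ?_⟩
    rw [LinearEquiv.mul_apply, eg, ek]
    simp only [map_add, map_smul, h1, h2, h3, h4, Prod.fst_add, Prod.snd_add]
    module
  neg_mem' := by
    rintro z ⟨g, hg, eg⟩
    refine ⟨g⁻¹, inv_mem hg, fun v => ?_⟩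
    rw [LinearEquiv.coe_inv, LinearEquiv.symm_apply_eq, eg]
    simp only [map_add, map_smul, map_neg, h1, h2, h3, h4, Prod.fst_neg, Prod.snd_neg]
    module

variable [Fintype F] [FiniteDimensional F V] {p : ℕ} [Fact p.Prime] [CharP F p]

theorem rho_pt (h : IsHerm B) (hV : 2 ≤ finrank F V) (hL : LB p (sisom B) Ω) {x : V} (h0 : x ≠ 0)
    (hx : B x x = 0) (a b : Ω) : rho B x a = rho B x b := by
  obtain ⟨U, -, hU⟩ := h.exists_sylow_center (p := p) hV h0 hx
  obtain ⟨g, hg, rfl⟩ := hL.bt U a b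
  have key : ∀ k ∈ Subgroup.normalizer ((U : Subgroup (sisom B)) : Set (sisom B)),
      ∀ t ∈ axisGrp B x, k.1 * t * k.1⁻¹ ∈ axisGrp B x := fun k hk t ht => by
    obtain ⟨t1, t2⟩ := (hU ⟨t, axisGrp_le_sisom hx ht⟩).2 ht
    refine (hU (k * ⟨t, axisGrp_le_sisom hx ht⟩ * k⁻¹)).1
      ⟨(Subgroup.mem_normalizer_iff.1 hk _).1 t1, fun y hy => ?_⟩
    have := t2 _ ((Subgroup.mem_normalizer_iff''.1 hk y).1 hy)
    calc _ = k * (⟨t, axisGrp_le_sisom hx ht⟩ * (k⁻¹ * y * k)) * k⁻¹ := by group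
      _ = _ := by rw [this]; group
  refine rho_conj g a fun t => ⟨fun ht => ?_, key g hg t⟩
  simpa [mul_assoc] using key g⁻¹ (inv_mem hg) _ ht

theorem rho_vec (h : IsHerm B) (hV : 3 ≤ finrank F V) (hL : LB p (sisom B) Ω) {x y : V}
    (h0 : x ≠ 0) (hx : B x x = 0) (h0' : y ≠ 0) (hy : B y y = 0) (a : Ω) :
    rho B y a = rho B x a := by
  obtain ⟨f, hf, hf'⟩ := h.exists_partner hx h0
  obtain ⟨f', hf1, hf2⟩ := h.exists_partner hy h0'
  obtain ⟨g, hg, rfl, -⟩ := h.exists_sisom_hyp hV hx (hf'.trans hf2.symm) hy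
    (hf ▸ one_ne_zero) (hf.trans hf1.symm)
  rw [rho_conj ⟨g, hg⟩ a fun t => conj_mem_axisGrp_iff (p := x) hg.1]
  exact rho_pt h (by omega) hL h0' hy _ _

end

theorem jobU2 : JobU2 := by
  intro ov p _ F V Ω _ _ _ _ _ _ q hF B _ _ h hV hL a r hr g hg hga
  by_cases h0 : r = 0
  · obtain ⟨-, c, hc⟩ := hg
    exact LinearEquiv.ext fun v => by simp [hc, h0]
  obtain ⟨f, hf, -⟩ := h.exists_partner hr h0
  obtain ⟨u, hu, hu0, huu⟩ := h.exists_isotropic_mem (W := perp B (Submodule.span F {r, f})) (by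
    have := h.finrank_add_finrank_perp (Submodule.span F {r, f})
    rw [h.finrank_span_hyp hr (hf ▸ one_ne_zero)] at this
    omega)
  obtain ⟨hru, hfu⟩ := mem_perp_pair.1 hu
  have hur : B u r = 0 := h.eq_zero_comm.1 hru
  have hfr : B f r = 1 := by rw [← h.symm, hf, map_one]
  have hov := ov F q hF (WW B hr hru hur huu a) (rho B r a) fun s t hst => by
    have hx0 : s • r + t • u ≠ 0 := fun e => by
      have hs : s = 0 := by simpa [hfr, hfu] using congrArg (B f) e
      exact hst ⟨hs, by simpa [hs, hu0] using e⟩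
    have hx : B (s • r + t • u) (s • r + t • u) = 0 := by simp [hr, hru, hur, huu]
    rw [← rho_vec h (by omega) hL h0 hr hx0 hx, ← rho_eq h hx0 hx]
    refine Nat.card_congr (Equiv.subtypeEquivRight fun c => and_congr_right fun hc =>
      exists_congr fun k => and_congr_right fun _ => forall_congr' fun v => Eq.congr_right ?_)
    have hc' : frob hF c = -c := eq_neg_of_add_eq_zero_right hc
    simp only [map_mul, hc', h.invol, map_add, LinearMap.add_apply, form_smul_left]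
    module
  have : Finite V := Module.finite_of_finite F
  have : Finite (V ≃ₗ[F] V) := Finite.of_injective _ DFunLike.coe_injective
  rcases hov with h1 | h1
  · exact Subgroup.mem_bot.1 (Subgroup.eq_bot_of_card_eq _ h1 ▸ Subgroup.mem_inf.2 ⟨hg, hga⟩)
  have hall : ∀ b : Ω, g ∈ St (sisom B) b := fun b => by
    rw [rho_pt h (by omega) hL h0 hr a b, ← rho_eq h h0 hr] at h1
    obtain ⟨c, hc, eg⟩ := (h.mem_axisGrp_isotropic hr).1 hg
    have hb := (Function.Injective.bijective_of_nat_card_le (f := fun c : {c : F //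
      c + frob hF c = 0 ∧ ∃ g ∈ St (sisom B) b, ∀ v, g v = v + (c * B r v) • r} =>
        (⟨c.1, c.2.1⟩ : {c : F // c + frob hF c = 0}))
      (fun c d e => Subtype.ext (Subtype.mk.inj e))
      ((H26.MU.card_trace_zero hF).trans h1.symm).le).2
    obtain ⟨⟨d, hd, k, hk, ek⟩, e⟩ := hb ⟨c, hc⟩
    obtain rfl : d = c := Subtype.mk.inj e
    rwa [show g = k from LinearEquiv.ext fun v => (eg v).trans (ek v).symm]
  obtain ⟨c, hc⟩ := (h.mem_center_sisom_iff (by omega) ⟨g, axisGrp_le_sisom hr hg⟩).1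
    (hL.ker _ fun b => coe_mem_St.1 (hall b))
  have h2 : c • r = (1 : F) • r := by
    rw [← hc r, one_smul]
    exact axisGrp_apply_of_perp hg hr
  exact LinearEquiv.ext fun v => by
    rw [hc v, smul_left_injective F h0 h2, one_smul]; rfl

end H26.CKU
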