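import Cfsg.Agent.H48.DP1Spec
import Cfsg.Agent.H93.U33M
import Cfsg.Agent.H65.PhanWeak

/-! S3275, chapter (1), slot `UM0`: the matrix model of `U₃(3)`. -/

set_option autoImplicit false

namespace H26.DPU

open Subgroup Cfsg H48.DP H93
open H55 (F9)

universe u

abbrev X : Type := SU 3 F9 3
abbrev M3 : Type := Matrix (Fin 3) (Fin 3) F9

def mA : X := su33 !![⟨2, 0⟩, 0, 0; 0, ⟨0, 2⟩, 0; 0, 0, ⟨0, 2⟩]
  (by rw [Matrix.det_fin_three]; decide +kernel) (by decide +kernel)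
def mB : X := su33 !![⟨0, 2⟩, 0, 0; 0, ⟨2, 0⟩, 0; 0, 0, ⟨0, 2⟩]
  (by rw [Matrix.det_fin_three]; decide +kernel) (by decide +kernel)
def mU : X := su33 !![⟨1, 2⟩, ⟨1, 1⟩, 0; ⟨2, 1⟩, ⟨1, 1⟩, 0; 0, 0, 1]
  (by rw [Matrix.det_fin_three]; decide +kernel) (by decide +kernel)
def mAi : X := su33 !![⟨2, 0⟩, 0, 0; 0, ⟨0, 1⟩, 0; 0, 0, ⟨0, 1⟩]
  (by rw [Matrix.det_fin_three]; decide +kernel) (by decide +kernel)
def mBi : X := su33 !![⟨0, 1⟩, 0, 0; 0, ⟨2, 0⟩, 0; 0, 0, ⟨0, 1⟩]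
  (by rw [Matrix.det_fin_three]; decide +kernel) (by decide +kernel)
def mUi : X := su33 !![⟨1, 1⟩, ⟨2, 2⟩, 0; ⟨1, 2⟩, ⟨1, 2⟩, 0; 0, 0, 1]
  (by rw [Matrix.det_fin_three]; decide +kernel) (by decide +kernel)

theorem mA_inv : mA⁻¹ = mAi := inv_eq_of_mul_eq_one_right (su33_ext (by decide +kernel))
theorem mB_inv : mB⁻¹ = mBi := inv_eq_of_mul_eq_one_right (su33_ext (by decide +kernel))
theorem mU_inv : mU⁻¹ = mUi := inv_eq_of_mul_eq_one_right (su33_ext (by decide +kernel))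

/-- `z` -/
def zM : M3 := !![⟨2, 0⟩, 0, 0; 0, ⟨2, 0⟩, 0; 0, 0, 1]

theorem z_val : (mA ^ 2 * mB ^ 2).1.1 = zM := by
  simp only [pow_succ, pow_zero]; decide +kernel
theorem a_val : (mA ^ 2).1.1 = !![1, 0, 0; 0, ⟨2, 0⟩, 0; 0, 0, ⟨2, 0⟩] := by
  simp only [pow_succ, pow_zero]; decide +kernel
theorem b_val : (mB ^ 2).1.1 = !![⟨2, 0⟩, 0, 0; 0, 1, 0; 0, 0, ⟨2, 0⟩] := by
  simp only [pow_succ, pow_zero]; decide +kernel

theorem unit (g : X) : g.1.1.transpose * g.1.1.map (fun a => a ^ 3) = 1 :=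
  (H55.mem_SU_iff_transpose_mul (H59.frob card_F9' : F9 →+* F9) (fun _ => rfl) _).mp g.2

theorem val_mul (g h : X) : (g * h).1.1 = g.1.1 * h.1.1 := rfl

theorem neg_fix : ∀ a : F9, a * ⟨2, 0⟩ = a → a = 0 := by decide +kernel
theorem neg_fix' : ∀ a : F9, a = ⟨2, 0⟩ * a → a = 0 := by decide +kernel

theorem diag_all : ∀ d e f : F9, d * d ^ 3 = 1 → e * e ^ 3 = 1 → d * e * f = 1 → ∃ i j : Fin 4,
    (!![d, 0, 0; 0, e, 0; 0, 0, f] : M3) = mA.1.1 ^ i.val * mB.1.1 ^ j.val := by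
  decide +kernel

theorem pow_val (g : X) (n : ℕ) : (g ^ n).1.1 = g.1.1 ^ n := rfl

theorem cV (l : X) (h1 : Commute l (mA ^ 2)) (h2 : Commute l (mB ^ 2)) :
    l ∈ closure ({mA, mB} : Set X) := by
  have s := fun i j => congrFun (congrFun (congrArg (fun g : X => g.1.1) h1.eq) i) j
  have t := fun i j => congrFun (congrFun (congrArg (fun g : X => g.1.1) h2.eq) i) j
  simp only [val_mul, a_val, b_val, Matrix.mul_apply, Fin.sum_univ_three] at s t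
  have e01 : l.1.1 0 1 = 0 := neg_fix _ (by simpa using s 0 1)
  have e02 : l.1.1 0 2 = 0 := neg_fix _ (by simpa using s 0 2)
  have e10 : l.1.1 1 0 = 0 := neg_fix' _ (by simpa using s 1 0)
  have e20 : l.1.1 2 0 = 0 := neg_fix' _ (by simpa using s 2 0)
  have e12 : l.1.1 1 2 = 0 := neg_fix _ (by simpa using t 1 2)
  have e21 : l.1.1 2 1 = 0 := neg_fix' _ (by simpa using t 2 1)
  have u := fun i j => congrFun (congrFun (unit l) i) j
  simp only [Matrix.mul_apply, Fin.sum_univ_three, Matrix.transpose_apply, Matrix.map_apply] at u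
  have h4 := l.1.2
  rw [Matrix.det_fin_three] at h4
  obtain ⟨i, j, h⟩ := diag_all (l.1.1 0 0) (l.1.1 1 1) (l.1.1 2 2) (by simpa [e10, e20] using u 0 0)
    (by simpa [e01, e21] using u 1 1) (by simpa [e01, e02, e12] using h4)
  rw [show l = mA ^ i.val * mB ^ j.val from su33_ext (by
    rw [val_mul, pow_val, pow_val, ← h, ← e01, Matrix.eta_fin_three l.1.1]
    simp [e01, e02, e10, e20, e12, e21])]
  exact mul_mem (pow_mem (subset_closure (by simp)) _) (pow_mem (subset_closure (by simp)) _)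

/-- The elements of `C(z)`. -/
def bm (p r f : F9) : M3 := !![p, -(r ^ 3 * f ^ 3), 0; r, p ^ 3 * f ^ 3, 0; 0, 0, f]

/-- The parameters. -/
def U2 (t : F9 × F9 × F9) : Prop := t.1 * t.1 ^ 3 + t.2.1 * t.2.1 ^ 3 = 1 ∧ t.2.2 * t.2.2 ^ 3 = 1

instance : DecidablePred U2 := fun _ => by unfold U2; infer_instance

theorem card_U2 : (Finset.univ.filter U2).card = 96 := by decide +kernel

theorem form {l : X} (h : l ∈ C1 (mA ^ 2 * mB ^ 2)) : U2 (l.1.1 0 0, l.1.1 1 0, l.1.1 2 2) ∧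
    l.1.1 = bm (l.1.1 0 0) (l.1.1 1 0) (l.1.1 2 2) := by
  have s := fun i j => congrFun (congrFun (congrArg (fun g : X => g.1.1)
    (h _ (Set.mem_singleton _)).symm) i) j
  simp only [val_mul l, val_mul _ l, z_val, zM, Matrix.mul_apply, Fin.sum_univ_three] at s
  have e02 : l.1.1 0 2 = 0 := neg_fix' _ (by simpa using s 0 2)
  have e12 : l.1.1 1 2 = 0 := neg_fix' _ (by simpa using s 1 2)
  have e20 : l.1.1 2 0 = 0 := neg_fix _ (by simpa using s 2 0)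
  have e21 : l.1.1 2 1 = 0 := neg_fix _ (by simpa using s 2 1)
  have u := fun i j => congrFun (congrFun (unit l) i) j
  simp only [Matrix.mul_apply, Fin.sum_univ_three, Matrix.transpose_apply, Matrix.map_apply] at u
  have u0 : l.1.1 0 0 * l.1.1 0 0 ^ 3 + l.1.1 1 0 * l.1.1 1 0 ^ 3 = 1 := by simpa [e20] using u 0 0
  have u1 : l.1.1 0 1 * l.1.1 0 0 ^ 3 + l.1.1 1 1 * l.1.1 1 0 ^ 3 = 0 := by simpa [e20] using u 1 0
  have u2 : l.1.1 2 2 * l.1.1 2 2 ^ 3 = 1 := by simpa [e02, e12] using u 2 2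
  have d := l.1.2
  rw [Matrix.det_fin_three] at d
  simp only [e02, e12, mul_zero, zero_mul, sub_zero, add_zero] at d
  refine ⟨⟨u0, u2⟩, (Matrix.eta_fin_three _).trans ?_⟩
  generalize l.1.1 0 0 = p, l.1.1 0 1 = q, l.1.1 1 0 = r, l.1.1 1 1 = s, l.1.1 2 2 = f at *
  have k1 : q = -(r ^ 3 * f ^ 3) := by
    linear_combination (-q) * u0 + p * u1 - r ^ 3 * f ^ 3 * d + r ^ 3 * (p * s - q * r) * u2
  have k2 : s = p ^ 3 * f ^ 3 := by
    linear_combination (-s) * u0 + r * u1 + p ^ 3 * f ^ 3 * d - p ^ 3 * (p * s - q * r) * u2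
  rw [bm, ← k1, ← k2, e02, e12, e20, e21]

theorem bm_ok : ∀ p r : F9, p * p ^ 3 + r * r ^ 3 = 1 → ∀ f : F9, f * f ^ 3 = 1 →
    (bm p r f).transpose * (bm p r f).map (fun a => a ^ 3) = 1 := by
  decide +kernel

theorem cz : Nat.card (C1 (mA ^ 2 * mB ^ 2)) = 96 := by
  rw [← card_U2, ← Fintype.card_subtype, ← Nat.card_eq_fintype_card]
  refine Nat.card_congr (Equiv.ofBijective (fun l => ⟨_, (form l.2).1⟩) ⟨fun l m h => ?_, ?_⟩)
  · simp only [Subtype.mk.injEq, Prod.mk.injEq] at h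
    exact Subtype.ext (su33_ext (by rw [(form l.2).2, (form m.2).2, h.1, h.2.1, h.2.2]))
  · rintro ⟨⟨p, r, f⟩, h1, h2⟩
    refine ⟨⟨su33 _ ?_ (bm_ok p r h1 f h2), ?_⟩, rfl⟩
    · rw [Matrix.det_fin_three, bm]
      simp only at h1 h2
      simp
      linear_combination h1 + (p * p ^ 3 + r * r ^ 3) * h2
    · rintro _ rfl
      refine su33_ext ?_
      rw [val_mul _ (su33 _ _ _), val_mul (su33 _ _ _), z_val]
      simp [su33, bm, zM, mul_comm]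

/-- `SU₃(3) = PSU₃(3)` -/
noncomputable def eq : PSU 3 F9 3 ≃* X :=
  (QuotientGroup.quotientMulEquivOfEq (card_eq_one.1 (by
    rw [H59.card_center_SU card_F9' (by norm_num)]; rfl))).trans QuotientGroup.quotientBot

theorem cardX : Nat.card X = 6048 := by
  rw [← Nat.card_congr eq.toEquiv]
  simpa using H85.card_PSU_three card_F9'

/-- Conjugators for the involutions of `C(z)`. -/
def tab : List X := [
  su33 !![⟨0, 0⟩, ⟨2, 2⟩, ⟨2, 1⟩; ⟨0, 0⟩, ⟨1, 2⟩, ⟨1, 1⟩; ⟨0, 1⟩, ⟨0, 0⟩, ⟨0, 0⟩]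
    (by rw [Matrix.det_fin_three]; decide +kernel) (by decide +kernel),
  su33 !![⟨0, 2⟩, ⟨0, 2⟩, ⟨2, 1⟩; ⟨0, 1⟩, ⟨0, 1⟩, ⟨2, 1⟩; ⟨2, 1⟩, ⟨1, 2⟩, ⟨0, 0⟩]
    (by rw [Matrix.det_fin_three]; decide +kernel) (by decide +kernel),
  su33 !![⟨0, 0⟩, ⟨0, 0⟩, ⟨0, 1⟩; ⟨2, 2⟩, ⟨1, 2⟩, ⟨0, 0⟩; ⟨2, 1⟩, ⟨1, 1⟩, ⟨0, 0⟩]
    (by rw [Matrix.det_fin_three]; decide +kernel) (by decide +kernel),
  su33 !![⟨1, 0⟩, ⟨0, 0⟩, ⟨0, 0⟩; ⟨0, 0⟩, ⟨0, 0⟩, ⟨1, 0⟩; ⟨0, 0⟩, ⟨2, 0⟩, ⟨0, 0⟩]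
    (by rw [Matrix.det_fin_three]; decide +kernel) (by decide +kernel),
  su33 !![⟨0, 0⟩, ⟨0, 0⟩, ⟨0, 2⟩; ⟨1, 1⟩, ⟨1, 2⟩, ⟨0, 0⟩; ⟨1, 2⟩, ⟨1, 1⟩, ⟨0, 0⟩]
    (by rw [Matrix.det_fin_three]; decide +kernel) (by decide +kernel),
  su33 !![⟨1, 2⟩, ⟨2, 1⟩, ⟨0, 0⟩; ⟨0, 0⟩, ⟨0, 0⟩, ⟨2, 0⟩; ⟨1, 1⟩, ⟨1, 1⟩, ⟨0, 0⟩]
    (by rw [Matrix.det_fin_three]; decide +kernel) (by decide +kernel),
  su33 !![⟨2, 2⟩, ⟨1, 1⟩, ⟨0, 0⟩; ⟨1, 2⟩, ⟨1, 2⟩, ⟨0, 0⟩; ⟨0, 0⟩, ⟨0, 0⟩, ⟨2, 0⟩]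
    (by rw [Matrix.det_fin_three]; decide +kernel) (by decide +kernel)]

theorem inv_all : ∀ p r : F9, p * p ^ 3 + r * r ^ 3 = 1 → ∀ f : F9, f * f ^ 3 = 1 →
    bm p r f * bm p r f = 1 → bm p r f = 1 ∨ ∃ g ∈ tab, g.1.1 * bm p r f = zM * g.1.1 := by
  decide +kernel

theorem conj_into {G : Type*} [Group G] [Finite G] {C : Subgroup G} (hC : ¬ 2 ∣ C.index) {l : G}
    (h : orderOf l = 2) : ∃ g : G, g * l * g⁻¹ ∈ C := by
  obtain ⟨Q, hQ⟩ := (IsPGroup.of_card (p := 2) (n := 1) (G := zpowers l)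
    (by rw [Nat.card_zpowers, h]; rfl)).exists_le_sylow
  obtain ⟨P⟩ : Nonempty (Sylow 2 C) := inferInstance
  have i2 : ¬ 2 ∣ (P.1.map C.subtype).index := by
    rw [index_map_subtype, Nat.prime_two.dvd_mul]
    rintro (k | k)
    exacts [P.not_dvd_index k, hC k]
  obtain ⟨g, hg⟩ := MulAction.exists_smul_eq G Q ((P.2.map _).toSylow i2)
  refine ⟨g, map_subtype_le P.1 ?_⟩
  change _ ∈ ((P.2.map _).toSylow i2).1
  rw [← hg]
  exact smul_mem_pointwise_smul l (MulAut.conj g) _ (hQ (mem_zpowers l))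

theorem one_cz {l : X} (m : l ∈ C1 (mA ^ 2 * mB ^ 2)) (o : orderOf l = 2) :
    ∃ w : X, w * l = mA ^ 2 * mB ^ 2 * w := by
  obtain ⟨⟨u1, u2⟩, e⟩ := form m
  have h2 : l.1.1 * l.1.1 = 1 := by rw [← val_mul, ← pow_two, ← o, pow_orderOf_eq_one]; rfl
  rw [e] at h2
  rcases inv_all _ _ u1 _ u2 h2 with k | ⟨w, -, k⟩
  · rw [show l = 1 from su33_ext (e.trans k), orderOf_one] at o
    omega
  · rw [← e, ← z_val] at k
    exact ⟨w, su33_ext k⟩

theorem one_class (l : X) (h : orderOf l = 2) : ∃ g : X, g * l * g⁻¹ = mA ^ 2 * mB ^ 2 := by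
  have i1 := (C1 (mA ^ 2 * mB ^ 2)).card_mul_index
  rw [cz, cardX] at i1
  obtain ⟨g, m⟩ := conj_into (C := C1 (mA ^ 2 * mB ^ 2)) (by omega) h
  obtain ⟨w, k⟩ := one_cz m (((MulAut.conj g).orderOf_eq l).trans h)
  exact ⟨w * g, by rw [mul_inv_rev, ← mul_assoc, mul_inv_eq_iff_eq_mul, ← k]; simp only [mul_assoc]⟩

theorem gen : (⊤ : Subgroup X) ≤ C1 (mA ^ 2 * mB ^ 2) ⊔ C1 (mA ^ 2) := by
  rw [← H65.Phan.gen3 card_F9' (by norm_num)]
  refine sup_le_sup ?_ ?_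
  · rintro _ ⟨g, rfl⟩ _ rfl
    refine su33_ext ?_
    rw [val_mul _ (H65.Phan.b0 _ g), val_mul (H65.Phan.b0 _ g), z_val, zM,
      show (H65.Phan.b0 card_F9' g).1.1 = _ from H65.Phan.mat_b0 card_F9' g]
    simp [mul_comm]
  · rintro _ ⟨g, rfl⟩ _ rfl
    refine su33_ext ?_
    rw [val_mul _ (H65.Phan.b1 _ g), val_mul (H65.Phan.b1 _ g), a_val,
      show (H65.Phan.b1 card_F9' g).1.1 = _ from H65.Phan.mat_b1 card_F9' g]
    simp [mul_comm]

theorem ind4 : ∀ i j : Fin 4, mA.1.1 ^ i.val * mB.1.1 ^ j.val = 1 → i = 0 ∧ j = 0 := by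
  decide +kernel

theorem model : UM0 (⊤ : Subgroup X) mA mB mT mG mU := by
  have a4 : mA ^ 4 = 1 := su33_ext (by simp only [pow_succ, pow_zero]; decide +kernel)
  have b4 : mB ^ 4 = 1 := su33_ext (by simp only [pow_succ, pow_zero]; decide +kernel)
  have : IsSimpleGroup (PSU 3 F9 3) := H59.isSimpleGroup_PSU card_F9' le_rfl (by simp)
  refine ⟨trivial, trivial, trivial, trivial, trivial, a4, b4, ?_, ?_, ?_, ?_, ?_, ?_, ?_, ?_, ?_,
    ?_, ?_, fun i j h => ?_, ?_, (topEquiv.trans eq.symm).isSimpleGroup,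
    fun l _ h => (one_class l h).imp fun g hg => ⟨trivial, hg⟩, fun l _ => cV l,
    by rw [top_inf_eq, cz], by simpa using gen⟩
  iterate 11
    (try simp only [Commute, SemiconjBy, mul_inv_rev, mA_inv, mB_inv, mU_inv, mG_inv, mT_inv,
      pow_succ, pow_zero])
    exact su33_ext (by decide +kernel)
  · have k : ∀ (g : X) (n : ℤ), g ^ 4 = 1 → g ^ n = g ^ (n % 4).toNat := fun g n hg => by
      rw [← zpow_natCast, Int.toNat_of_nonneg (by omega)]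
      exact (zpow_eq_zpow_emod n (n := 4) (by exact_mod_cast hg))
    rw [k _ _ a4, k _ _ b4] at h
    obtain ⟨h1, h2⟩ := ind4 ⟨(i % 4).toNat, by omega⟩ ⟨(j % 4).toNat, by omega⟩
      (congrArg (fun g : X => g.1.1) h)
    simp only [Fin.ext_iff, Fin.val_zero] at h1 h2
    omega
  · rw [card_top, cardX]

theorem map {G H : Type*} [Group G] [Group H] {a b s x y : G} (h : UM0 ⊤ a b s x y) (f : G →* H)
    (hf : Function.Injective f) : UM0 f.range (f a) (f b) (f s) (f x) (f y) := by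
  have c : ∀ g : G, f.range ⊓ C1 (f g) = (C1 g).map f := fun g => by
    ext w
    constructor
    · rintro ⟨⟨w, rfl⟩, h⟩
      refine ⟨w, ?_, rfl⟩
      rintro _ rfl
      exact hf (by simpa using h _ rfl)
    · rintro ⟨w, h, rfl⟩
      refine ⟨⟨w, rfl⟩, ?_⟩
      rintro _ rfl
      simpa using congrArg f (h _ rfl)
  have ez : f a ^ 2 * f b ^ 2 = f (a ^ 2 * b ^ 2) := by simp
  have := h.simple
  refine ⟨⟨a, rfl⟩, ⟨b, rfl⟩, ⟨s, rfl⟩, ⟨x, rfl⟩, ⟨y, rfl⟩, by simpa using congrArg f h.a4,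
    by simpa using congrArg f h.b4, by simpa using congrArg f h.ab, by simpa using congrArg f h.s2,
    by simpa using congrArg f h.sa, by simpa using congrArg f h.x3, by simpa using congrArg f h.xa,
    by simpa using congrArg f h.xb, by simpa using congrArg f h.sx, by simpa using congrArg f h.y3,
    by simpa using h.yc.map f, by simpa using congrArg f h.y1, by simpa using congrArg f h.y2,
    fun i j e => h.ind i j (hf (by simpa using e)), ?_,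
    ((MonoidHom.ofInjective hf).symm.trans topEquiv.symm).isSimpleGroup, ?_, ?_, ?_, ?_⟩
  · rw [MonoidHom.range_eq_map, card_map_of_injective hf, h.card]
  · rintro _ ⟨l, rfl⟩ e
    obtain ⟨g, -, hg⟩ := h.one l trivial (by rwa [orderOf_injective f hf] at e)
    exact ⟨f g, ⟨g, rfl⟩, by simpa using congrArg f hg⟩
  · rintro _ ⟨l, rfl⟩ e1 e2
    have := mem_map_of_mem f (h.cV l trivial (hf (by simpa using e1.eq)) (hf (by simpa using e2.eq)))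
    rwa [MonoidHom.map_closure, Set.image_pair] at this
  · rw [ez, c, card_map_of_injective hf, ← h.cz, top_inf_eq]
  · rw [ez, ← map_pow, c, c, ← Subgroup.map_sup, MonoidHom.range_eq_map]
    exact map_mono (by simpa using h.gen)

theorem jobUM0 : JobUM0.{u} := by
  rintro G _ _ L ⟨F, _, _, c, ⟨e⟩⟩
  let φ : X ≃* L := (eq.symm.trans (H55.psuCongr (FiniteField.ringEquivOfCardEq
    (H55.card_F9.trans c.symm)) 3 3)).trans e.symm
  have := map model (L.subtype.comp φ.toMonoidHom) (L.subtype_injective.comp φ.injective)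
  rw [show (L.subtype.comp φ.toMonoidHom).range = L by
    rw [MonoidHom.range_comp, MonoidHom.range_eq_top_of_surjective _ φ.surjective,
      ← MonoidHom.range_eq_map, range_subtype]] at this
  exact ⟨_, _, _, _, _, this⟩

end H26.DPU
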