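import Cfsg.Agent.H48.DP1Spec

/-! S3275, chapter (1), slot `UQ1`: the normaliser of `E = ⟨t, a², b²⟩`. -/

set_option autoImplicit false
set_option linter.unusedSectionVars false

namespace H26.DPQ

open Subgroup Cfsg H48.DP H98

universe u

variable {G : Type*} [Group G]

theorem mem_four {A B g : G} (hA : A * A = 1) (hB : B * B = 1) (c : Commute A B)
    (h : g ∈ closure ({A, B} : Set G)) : g = 1 ∨ g = A ∨ g = B ∨ g = A * B := by
  have e1 : A * (A * B) = B := by rw [← mul_assoc, hA, one_mul]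
  have e2 : B * (A * B) = A := by rw [c.eq, ← mul_assoc, hB, one_mul]
  have e3 : B * A = A * B := c.eq.symm
  refine closure_induction_left (p := fun g _ => g = 1 ∨ g = A ∨ g = B ∨ g = A * B) (.inl rfl)
    (fun x hx y _ hy => ?_) (fun x hx y _ hy => ?_) h
  · rcases hx with rfl | rfl <;> rcases hy with rfl | rfl | rfl | rfl <;> simp [*]
  · rcases hx with rfl | rfl
    · rw [inv_eq_of_mul_eq_one_right hA]; rcases hy with rfl | rfl | rfl | rfl <;> simp [*]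
    · rw [inv_eq_of_mul_eq_one_right hB]; rcases hy with rfl | rfl | rfl | rfl <;> simp [*]

theorem mem_ab {a b g : G} (c : Commute a b) (h : g ∈ closure ({a, b} : Set G)) :
    ∃ i j : ℤ, g = a ^ i * b ^ j := by
  induction h using closure_induction with
  | mem x hx =>
    rcases hx with rfl | rfl
    exacts [⟨1, 0, by simp⟩, ⟨0, 1, by simp⟩]
  | one => exact ⟨0, 0, by simp⟩
  | mul x y _ _ hx hy =>
    obtain ⟨i, j, rfl⟩ := hx
    obtain ⟨k, l, rfl⟩ := hy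
    exact ⟨i + k, j + l, by
      rw [zpow_add, zpow_add, (c.zpow_zpow k j).mul_mul_mul_comm]⟩
  | inv x _ hx =>
    obtain ⟨i, j, rfl⟩ := hx
    exact ⟨-i, -j, by rw [mul_inv_rev, zpow_neg, zpow_neg, (c.zpow_zpow i j).inv_inv.eq]⟩

theorem mem_Ce_cl {S : Set G} {g : G} : g ∈ Ce (closure S) ↔ ∀ v ∈ S, v * g = g * v := by
  rw [Ce, centralizer_closure]; rfl

variable {L : Subgroup G} {a b s x y r t : G} (h : US L a b s x y r t)
include h

theorem cab : Commute a b := h.ab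
theorem cAB : Commute (a ^ 2) (b ^ 2) := (cab h).pow_pow 2 2
theorem A2 : a ^ 2 * a ^ 2 = 1 := by rw [← pow_add, h.a4]
theorem B2 : b ^ 2 * b ^ 2 = 1 := by rw [← pow_add, h.b4]
theorem Z2 : a ^ 2 * b ^ 2 * (a ^ 2 * b ^ 2) = 1 := by
  rw [(cAB h).symm.mul_mul_mul_comm, A2 h, B2 h, one_mul]
theorem AL : a ^ 2 ∈ L := pow_mem h.aL 2
theorem BL : b ^ 2 ∈ L := pow_mem h.bL 2
theorem T2 : t * t = 1 := by rw [← pow_two, ← h.t2, pow_orderOf_eq_one]
theorem tR : t ∈ zpowers r := by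
  rcases h.tr with e | e <;> rw [e]
  exacts [mem_zpowers r, pow_mem (mem_zpowers r) 2]
theorem cR {k l : G} (hk : k ∈ zpowers r) (hl : l ∈ L) : Commute l k :=
  (zpowers_le.2 h.rc : zpowers r ≤ Ce L) hk l hl
theorem cT {l : G} (hl : l ∈ L) : Commute l t := cR h (tR h) hl
theorem HL : Hs a b ≤ L := (closure_le _).2 (by rintro _ (rfl | rfl); exacts [h.aL, h.bL])
theorem VL : V0 a b ≤ L := (closure_le _).2 (by rintro _ (rfl | rfl); exacts [AL h, BL h])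
theorem neA : a ^ 2 ≠ 1 := fun e => by
  have := (h.ind 2 0 (by simpa [zpow_ofNat] using e)).1
  omega
theorem neB : b ^ 2 ≠ 1 := fun e => by
  have := (h.ind 0 2 (by simpa [zpow_ofNat] using e)).2
  omega
theorem neZ : a ^ 2 * b ^ 2 ≠ 1 := fun e => by
  have := (h.ind 2 2 (by simpa [zpow_ofNat] using e)).2
  omega

omit h in
theorem AV : a ^ 2 ∈ V0 a b := subset_closure (by simp)
omit h in
theorem BV : b ^ 2 ∈ V0 a b := subset_closure (by simp)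
omit h in
theorem VE : V0 a b ≤ Es a b t := closure_mono (Set.subset_insert _ _)
omit h in
theorem tE : t ∈ Es a b t := subset_closure (by simp)

theorem memV {g : G} (hg : g ∈ V0 a b) : g = 1 ∨ g = a ^ 2 ∨ g = b ^ 2 ∨ g = a ^ 2 * b ^ 2 :=
  mem_four (A2 h) (B2 h) (cAB h) hg

theorem sqV {g : G} (hg : g ∈ V0 a b) : g * g = 1 := by
  rcases memV h hg with rfl | rfl | rfl | rfl
  exacts [mul_one _, A2 h, B2 h, Z2 h]

theorem memE {g : G} (hg : g ∈ Es a b t) : ∃ v ∈ V0 a b, g = v ∨ g = t * v := by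
  induction hg using closure_induction with
  | mem x hx =>
    rcases hx with rfl | rfl | rfl
    exacts [⟨1, one_mem _, .inr (mul_one _).symm⟩, ⟨_, AV, .inl rfl⟩, ⟨_, BV, .inl rfl⟩]
  | one => exact ⟨1, one_mem _, .inl rfl⟩
  | mul x y _ _ hx hy =>
    obtain ⟨v, hv, hx⟩ := hx
    obtain ⟨w, hw, hy⟩ := hy
    have c := (cT h (VL h hv)).eq
    refine ⟨v * w, mul_mem hv hw, ?_⟩
    rcases hx with rfl | rfl <;> rcases hy with rfl | rfl
    · exact .inl rfl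
    · exact .inr (by rw [← mul_assoc, c, mul_assoc])
    · exact .inr (mul_assoc _ _ _)
    · exact .inl (by rw [← c, mul_assoc, ← mul_assoc t, T2 h, one_mul])
  | inv x _ hx =>
    obtain ⟨v, hv, rfl | rfl⟩ := hx
    · exact ⟨_, inv_mem hv, .inl rfl⟩
    · exact ⟨_, inv_mem hv, .inr (by
        rw [mul_inv_rev, inv_eq_of_mul_eq_one_right (T2 h), (cT h (VL h (inv_mem hv))).eq])⟩

theorem memY {g : G} (hg : g ∈ Ys a b r) : ∃ l ∈ Hs a b, ∃ k ∈ zpowers r, g = l * k := by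
  induction hg using closure_induction with
  | mem x hx =>
    rcases hx with rfl | rfl | rfl
    exacts [⟨x, subset_closure (by simp), 1, one_mem _, by simp⟩,
      ⟨x, subset_closure (by simp), 1, one_mem _, by simp⟩, ⟨1, one_mem _, x, mem_zpowers x, by simp⟩]
  | one => exact ⟨1, one_mem _, 1, one_mem _, by simp⟩
  | mul x y _ _ hx hy =>
    obtain ⟨l, hl, k, hk, rfl⟩ := hx
    obtain ⟨l', hl', k', hk', rfl⟩ := hy
    exact ⟨_, mul_mem hl hl', _, mul_mem hk hk', (cR h hk (HL h hl')).symm.mul_mul_mul_comm _ _⟩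
  | inv x _ hx =>
    obtain ⟨l, hl, k, hk, rfl⟩ := hx
    exact ⟨_, inv_mem hl, _, inv_mem hk, by
      rw [mul_inv_rev, (cR h (inv_mem hk) (HL h (inv_mem hl))).eq]⟩

omit h in
theorem HY : Hs a b ≤ Ys a b r := closure_mono (by
  rintro _ (rfl | rfl) <;> simp)
omit h in
theorem RY : zpowers r ≤ Ys a b r := zpowers_le.2 (subset_closure (by simp))

theorem abY : Ys a b r ≤ Ce (Ys a b r) := (closure_le _).2 fun g hg => mem_Ce_cl.2 fun v hv => by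
  have c1 := (cR h (mem_zpowers r) h.aL).eq
  have c2 := (cR h (mem_zpowers r) h.bL).eq
  have c3 := h.ab
  rcases hg with rfl | rfl | rfl <;> rcases hv with rfl | rfl | rfl <;> simp [*]

theorem inv2 {l k : G} (hl : l ∈ L) (hk : k ∈ zpowers r) (e : l * k * (l * k) = 1) :
    l * l = 1 ∧ (k = 1 ∨ k = t) := by
  rw [(cR h hk hl).symm.mul_mul_mul_comm] at e
  have h1 : l * l = 1 := by
    have : l * l ∈ L ⊓ Ce L := ⟨mul_mem hl hl, by
      rw [eq_inv_of_mul_eq_one_left e]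
      exact fun w hw => (cR h (inv_mem (mul_mem hk hk)) hw).eq⟩
    rwa [h.cen, mem_bot] at this
  rw [h1, one_mul] at e
  refine ⟨h1, ?_⟩
  have k1 : k ∈ zpowers t := by
    rcases h.tr with e1 | e1
    · rwa [e1]
    · obtain ⟨m, rfl⟩ := hk
      have : t ^ m = 1 := by rw [e1, ← e, ← zpow_natCast, ← zpow_mul, ← zpow_add]; congr 1; omega
      have := orderOf_dvd_iff_zpow_eq_one.2 this
      rw [h.t2] at this
      obtain ⟨n, rfl⟩ := this
      exact ⟨n, by simp only [e1, zpow_mul, zpow_natCast]⟩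
  have := mem_four (T2 h) (T2 h) (Commute.refl t) (g := k) (by
    rwa [Set.pair_eq_singleton, ← zpowers_eq_closure])
  rw [T2 h] at this
  tauto

theorem fus {l : G} (hl : l ∈ L) (e : l * l = 1) : ∃ g, g * t * g⁻¹ = t * l := by
  by_cases h1 : l = 1
  · exact ⟨1, by simp [h1]⟩
  obtain ⟨g, hg, e1⟩ := h.one l hl (orderOf_eq_prime (by rwa [pow_two]) h1)
  obtain ⟨w, e2⟩ := h.tz
  refine ⟨g⁻¹ * w, ?_⟩
  calc g⁻¹ * w * t * (g⁻¹ * w)⁻¹ = g⁻¹ * (w * t * w⁻¹) * g := by group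
    _ = g⁻¹ * t * g * l := by rw [e2, ← e1]; group
    _ = t * l := by rw [(cT h (inv_mem hg)).eq]; group

/-- A conjugate of an involution of `L` that centralises `t` lies in `L`. -/
theorem inL {l g : G} (hl : l ∈ L) (e : l * l = 1) (c : Commute (g * l * g⁻¹) t) :
    g * l * g⁻¹ ∈ L := by
  obtain ⟨m, hm, k, hk, e1⟩ := h.ct _ c
  obtain ⟨e2, rfl | rfl⟩ := inv2 h hm hk (by rw [← e1, conj_mul, e]; simp)
  · rwa [e1, mul_one]
  · obtain ⟨w, e3⟩ := fus h hm e2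
    refine absurd ?_ (h.nz (g⁻¹ * w))
    rwa [show g⁻¹ * w * k * (g⁻¹ * w)⁻¹ = g⁻¹ * (w * k * w⁻¹) * g by group, e3,
      ← (cT h hm).eq, ← e1, show g⁻¹ * (g * l * g⁻¹) * g = l by group]

theorem cE : Ce (Es a b t) = Ys a b r := by
  refine le_antisymm (fun g hg => ?_) ((closure_le _).2 fun g hg => mem_Ce_cl.2 fun v hv =>
    abY h (subset_closure hg) v ?_)
  · rw [mem_Ce_cl] at hg
    obtain ⟨l, hl, k, hk, rfl⟩ := h.ct g (hg t (by simp)).symm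
    have c : ∀ v ∈ L, v * (l * k) = l * k * v → Commute l v := fun v hv e => by
      rw [mul_assoc, ← (cR h hk hv).eq, ← mul_assoc, ← mul_assoc] at e
      exact (mul_right_cancel e).symm
    exact mul_mem (HY (h.cV l hl (c _ (AL h) (hg _ (by simp))) (c _ (BL h) (hg _ (by simp)))))
      (RY hk)
  · rcases hv with rfl | rfl | rfl
    exacts [RY (tR h), pow_mem (subset_closure (by simp)) 2, pow_mem (subset_closure (by simp)) 2]

theorem sqH {l : G} (hl : l ∈ Hs a b) : l * l ∈ V0 a b := by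
  obtain ⟨i, j, rfl⟩ := mem_ab (cab h) hl
  rw [((cab h).zpow_zpow i j).symm.mul_mul_mul_comm, ← (Commute.refl a).mul_zpow, ← pow_two,
    ← (Commute.refl b).mul_zpow, ← pow_two]
  exact mul_mem (zpow_mem AV i) (zpow_mem BV j)

theorem om (c : G) (hc : c ∈ Ys a b r) (e : c * c = 1) : c ∈ Es a b t := by
  obtain ⟨l, hl, k, hk, rfl⟩ := memY h hc
  obtain ⟨e1, e2⟩ := inv2 h (HL h hl) hk e
  refine mul_mem (VE ?_) (by rcases e2 with rfl | rfl; exacts [one_mem _, tE])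
  obtain ⟨i, j, rfl⟩ := mem_ab (cab h) hl
  rw [((cab h).zpow_zpow i j).symm.mul_mul_mul_comm, ← zpow_add, ← zpow_add] at e1
  obtain ⟨e3, e4⟩ := h.ind _ _ e1
  obtain ⟨i, rfl⟩ : 2 ∣ i := by omega
  obtain ⟨j, rfl⟩ : 2 ∣ j := by omega
  rw [zpow_mul, zpow_mul, zpow_ofNat, zpow_ofNat]
  exact mul_mem (zpow_mem AV i) (zpow_mem BV j)

theorem xA : x * a ^ 2 * x⁻¹ = b ^ 2 := by rw [← conj_pow, h.xa]
theorem xB : x * b ^ 2 * x⁻¹ = a ^ 2 * b ^ 2 := by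
  rw [← conj_pow, h.xb, inv_pow, (cab h).mul_pow, inv_eq_of_mul_eq_one_right (Z2 h)]
theorem xZ : x * (a ^ 2 * b ^ 2) * x⁻¹ = a ^ 2 := by
  rw [← conj_mul, xA h, xB h, (cAB h).eq, ← mul_assoc, B2 h, one_mul]
theorem sA : s * a ^ 2 * s⁻¹ = b ^ 2 := by rw [← conj_pow, h.sa]
theorem sB : s * b ^ 2 * s⁻¹ = a ^ 2 := by
  rw [← sA h, ← mul_assoc, ← mul_assoc, h.s2, one_mul, mul_assoc, ← mul_inv_rev, h.s2, inv_one,
    mul_one]
theorem sZ : s * (a ^ 2 * b ^ 2) * s⁻¹ = a ^ 2 * b ^ 2 := by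
  rw [← conj_mul, sA h, sB h, (cAB h).eq]

variable [Finite G]

omit h in
theorem norE {g : G} (h1 : g * t * g⁻¹ ∈ Es a b t) (h2 : g * a ^ 2 * g⁻¹ ∈ V0 a b)
    (h3 : g * b ^ 2 * g⁻¹ ∈ V0 a b) : g ∈ No (Es a b t) := mem_normalizer_of_cj_le (by
  rw [cj, MonoidHom.map_closure, closure_le]
  rintro _ ⟨_, rfl | rfl | rfl, rfl⟩
  exacts [h1, VE h2, VE h3])

omit h in
theorem memQ {g : G} (h1 : g * t * g⁻¹ ∈ Es a b t) (h2 : Commute g (a ^ 2))
    (h3 : Commute g (b ^ 2)) : g ∈ Qs a b t :=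
  ⟨norE h1 (by rw [h2.mul_inv_cancel]; exact AV) (by rw [h3.mul_inv_cancel]; exact BV),
    mem_Ce_cl.2 (by rintro _ (rfl | rfl); exacts [h2.eq.symm, h3.eq.symm])⟩

theorem nt {n : G} (hn : n ∈ No (Es a b t)) : n * t * n⁻¹ * t ∈ V0 a b := by
  obtain ⟨v, hv, e | e⟩ := memE h (conj_mem_of_mem_normalizer hn tE)
  · exact absurd (e ▸ VL h hv) (h.nz n)
  · rwa [e, ← (cT h (VL h hv)).eq, mul_assoc, T2 h, mul_one]

theorem nv {n v : G} (hn : n ∈ No (Es a b t)) (hv : v ∈ V0 a b) : n * v * n⁻¹ ∈ V0 a b := by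
  obtain ⟨w, hw, e | e⟩ := memE h (conj_mem_of_mem_normalizer hn (VE hv))
  · rwa [e]
  · obtain ⟨g, hg⟩ := fus h (VL h hw) (sqV h hw)
    refine absurd ?_ (h.nz (n⁻¹ * g))
    rw [show n⁻¹ * g * t * (n⁻¹ * g)⁻¹ = n⁻¹ * (g * t * g⁻¹) * n by group, hg, ← e,
      show n⁻¹ * (n * v * n⁻¹) * n = v by group]
    exact VL h hv

theorem nE (n : G) (hn : n ∈ No (Es a b t)) : n * t * n⁻¹ * t ∈ V0 a b ∧
    ∃ w ∈ closure ({x, s} : Set G), n * w⁻¹ ∈ Qs a b t := by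
  refine ⟨nt h hn, ?_⟩
  have hx : x ∈ closure ({x, s} : Set G) := subset_closure (by simp)
  have hs : s ∈ closure ({x, s} : Set G) := subset_closure (by simp)
  have le : closure ({x, s} : Set G) ≤ No (Es a b t) := (closure_le _).2 (by
    rintro _ (rfl | rfl)
    · exact norE (by rw [(cT h h.xL).mul_inv_cancel]; exact tE) (by rw [xA h]; exact BV)
        (by rw [xB h]; exact mul_mem AV BV)
    · exact norE (by rw [(cT h h.sL).mul_inv_cancel]; exact tE) (by rw [sA h]; exact BV)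
        (by rw [sB h]; exact AV))
  suffices k : ∃ w ∈ closure ({x, s} : Set G), w * a ^ 2 * w⁻¹ = n⁻¹ * a ^ 2 * n⁻¹⁻¹ ∧
      w * b ^ 2 * w⁻¹ = n⁻¹ * b ^ 2 * n⁻¹⁻¹ by
    obtain ⟨w, hw, k1, k2⟩ := k
    have c : ∀ v, w * v * w⁻¹ = n⁻¹ * v * n⁻¹⁻¹ → v * (n * w) = n * w * v := fun v e => by
      calc v * (n * w) = n * (n⁻¹ * v * n⁻¹⁻¹) * w := by group
        _ = n * w * v := by rw [← e]; group
    refine ⟨w⁻¹, inv_mem hw, by rw [inv_inv]; exact mul_mem hn (le hw), ?_⟩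
    rw [inv_inv]
    exact mem_Ce_cl.2 (by rintro _ (rfl | rfl); exacts [c _ k1, c _ k2])
  have h1 := memV h (nv h (inv_mem hn) AV)
  have h2 := memV h (nv h (inv_mem hn) BV)
  have n1 : n⁻¹ * a ^ 2 * n⁻¹⁻¹ ≠ 1 := fun e => neA h (conj_eq_one_iff.1 e)
  have n2 : n⁻¹ * b ^ 2 * n⁻¹⁻¹ ≠ 1 := fun e => neB h (conj_eq_one_iff.1 e)
  have n3 : n⁻¹ * a ^ 2 * n⁻¹⁻¹ ≠ n⁻¹ * b ^ 2 * n⁻¹⁻¹ := fun e =>
    neZ h (by rw [mul_left_cancel (mul_right_cancel e), B2 h])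
  generalize n⁻¹ * a ^ 2 * n⁻¹⁻¹ = p, n⁻¹ * b ^ 2 * n⁻¹⁻¹ = q at *
  have m : ∀ f g v : G, f * g * v * (f * g)⁻¹ = f * (g * v * g⁻¹) * f⁻¹ := fun f g v => by group
  rcases h1 with rfl | rfl | rfl | rfl <;> rcases h2 with rfl | rfl | rfl | rfl <;>
    try contradiction
  · exact ⟨1, one_mem _, by simp, by simp⟩
  · exact ⟨s * x, mul_mem hs hx, by rw [m, xA h, sB h], by rw [m, xB h, sZ h]⟩
  · exact ⟨s, hs, sA h, sB h⟩
  · exact ⟨x, hx, xA h, xB h⟩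
  · exact ⟨x * x, mul_mem hx hx, by rw [m, xA h, xB h], by rw [m, xB h, xZ h]⟩
  · exact ⟨x * s, mul_mem hx hs, by rw [m, sA h, xB h], by rw [m, sB h, xA h]⟩

theorem ex : ∃ q ∈ Qs a b t, q * t * q⁻¹ = t * a ^ 2 := by
  obtain ⟨g, hg⟩ := h.tz
  have ZL := mul_mem (AL h) (BL h)
  have cz : Commute (a ^ 2) (a ^ 2 * b ^ 2) := (Commute.refl _).mul_right (cAB h)
  have k : ∀ v ∈ L, v * v = 1 → Commute v (a ^ 2 * b ^ 2) → g⁻¹ * v * g⁻¹⁻¹ ∈ L := fun v hv e c => by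
    refine inL h hv e ?_
    have := ((cT h hv).mul_right c).map (MulAut.conj g⁻¹)
    rwa [← hg, MulAut.conj_apply, MulAut.conj_apply,
      show g⁻¹ * (g * t * g⁻¹) * g⁻¹⁻¹ = t by group] at this
  have o : ∀ f v : G, v * v = 1 → v ≠ 1 → orderOf (f * v * f⁻¹) = 2 := fun f v e n =>
    ((MulAut.conj f).orderOf_eq v).trans (orderOf_eq_prime (by rwa [pow_two]) n)
  obtain ⟨m, hm, e1⟩ := h.one _ (k _ ZL (Z2 h) (Commute.refl _)) (o _ _ (Z2 h) (neZ h))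
  have e2 : m * g⁻¹ * (a ^ 2 * b ^ 2) * (m * g⁻¹)⁻¹ = a ^ 2 * b ^ 2 := Eq.trans (by group) e1
  have e3 : m * g⁻¹ * a ^ 2 * (m * g⁻¹)⁻¹ = m * (g⁻¹ * a ^ 2 * g⁻¹⁻¹) * m⁻¹ := by group
  obtain ⟨m', hm', c1, e4⟩ := h.two (m * g⁻¹ * a ^ 2 * (m * g⁻¹)⁻¹)
    (by rw [e3]; exact mul_mem (mul_mem hm (k _ (AL h) (A2 h) cz)) (inv_mem hm))
    (o _ _ (A2 h) (neA h)) (by
      have := cz.map (MulAut.conj (m * g⁻¹))
      rwa [MulAut.conj_apply, MulAut.conj_apply, e2] at this) fun e => neB h (by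
      rw [← e2] at e
      exact left_eq_mul.1 (mul_left_cancel (mul_right_cancel e)))
  have c2 : Commute (m' * (m * g⁻¹)) (a ^ 2 * b ^ 2) :=
    c1.mul_left (mul_inv_eq_iff_eq_mul.1 e2)
  have c3 : Commute (m' * (m * g⁻¹)) (a ^ 2) := mul_inv_eq_iff_eq_mul.1 (Eq.trans (by group) e4)
  have e5 : (m' * (m * g⁻¹))⁻¹ * t * (m' * (m * g⁻¹)) = t * (a ^ 2 * b ^ 2) := by
    rw [← hg, ← mul_assoc m', mul_inv_rev, inv_inv, mul_assoc g, (cT h (inv_mem (mul_mem hm' hm))).eq]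
    group
  generalize m' * (m * g⁻¹) = q at c2 c3 e5
  have e6 : x * q⁻¹ * x⁻¹ * t * (x * q⁻¹ * x⁻¹)⁻¹ = t * a ^ 2 := by
    calc x * q⁻¹ * x⁻¹ * t * (x * q⁻¹ * x⁻¹)⁻¹ = x * (q⁻¹ * (x⁻¹ * t * x) * q) * x⁻¹ := by group
      _ = x * t * x⁻¹ * (x * (a ^ 2 * b ^ 2) * x⁻¹) := by
        rw [(cT h (inv_mem h.xL)).eq, inv_mul_cancel_right, e5]; group
      _ = t * a ^ 2 := by rw [(cT h h.xL).mul_inv_cancel, xZ h]
  refine ⟨_, memQ (by rw [e6]; exact mul_mem tE (VE AV)) ?_ ?_, e6⟩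
  · have := c2.inv_left.map (MulAut.conj x)
    rwa [MulAut.conj_apply, MulAut.conj_apply, xZ h] at this
  · have := c3.inv_left.map (MulAut.conj x)
    rwa [MulAut.conj_apply, MulAut.conj_apply, xA h] at this

theorem nH (q : G) (hq : q ∈ Qs a b t) (l : G) (hl : l ∈ Hs a b) :
    q * l * q⁻¹ * l⁻¹ ∈ V0 a b := by
  have v1 := nt h hq.1
  have cv : ∀ v ∈ V0 a b, q * v * q⁻¹ = v := fun v hv => by
    rw [← hq.2 v hv, mul_inv_cancel_right]
  obtain ⟨v, e⟩ : ∃ v, v = q * t * q⁻¹ * t := ⟨_, rfl⟩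
  rw [← e] at v1
  have e1 : q * t * q⁻¹ = v * t := by rw [e, mul_assoc _ t t, T2 h, mul_one]
  have inY : ∀ g ∈ Qs a b t, g * t * g⁻¹ = t → g ∈ Ys a b r := fun g hg k => by
    rw [← cE h, mem_Ce_cl]
    rintro _ (rfl | rfl | rfl)
    exacts [(mul_inv_eq_iff_eq_mul.1 k).symm, hg.2 _ AV, hg.2 _ BV]
  have q2 : q * q ∈ Ys a b r := inY _ (mul_mem hq hq) (by
    rw [show q * q * t * (q * q)⁻¹ = q * (q * t * q⁻¹) * q⁻¹ by group, e1, ← conj_mul, cv v v1, e1,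
      ← mul_assoc, sqV h v1, one_mul])
  have lY : l ∈ Ys a b r := HY hl
  have l' : q * l * q⁻¹ ∈ Ys a b r := by
    rw [← cE h] at lY ⊢
    intro w hw
    have := lY _ (conj_mem_of_mem_normalizer (inv_mem hq.1) hw)
    calc w * (q * l * q⁻¹) = q * (q⁻¹ * w * q⁻¹⁻¹ * l) * q⁻¹ := by group
      _ = q * l * q⁻¹ * w := by rw [this]; group
  have c : Commute (q * l * q⁻¹) l⁻¹ := abY h (inv_mem lY) _ l'
  have d2 : q * l * q⁻¹ * l⁻¹ * (q * l * q⁻¹ * l⁻¹) = 1 := by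
    rw [c.symm.mul_mul_mul_comm, conj_mul, cv _ (sqH h hl), ← mul_inv_rev, mul_inv_cancel]
  obtain ⟨w, hw, e2 | e2⟩ := memE h (om h _ (mul_mem l' (inv_mem lY)) d2)
  · rwa [e2]
  have e3 : q * (q * l * q⁻¹ * l⁻¹) * q⁻¹ = q * l * q⁻¹ * l⁻¹ := by
    calc q * (q * l * q⁻¹ * l⁻¹) * q⁻¹ = q * q * l * (q * q)⁻¹ * (q * l * q⁻¹)⁻¹ := by group
      _ = (q * l * q⁻¹ * l⁻¹)⁻¹ := by rw [abY h lY _ q2]; group
      _ = _ := inv_eq_of_mul_eq_one_right d2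
  rw [e2, ← conj_mul, cv w hw] at e3
  rw [abY h lY _ (inY q hq (mul_right_cancel e3))]
  simp

omit h in
theorem jobUQ1 : JobUQ1.{u} := fun _ _ _ _ _ _ _ _ _ _ _ h =>
  ⟨h, cE h, om h, nE h, ex h, nH h⟩

end H26.DPQ
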