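import Cfsg.Agent.H26.MinGeo

/-! A lower bound for invariant families of totally singular subspaces of half the dimension. -/

namespace H26

open QuadraticMap H56 H60 Module Submodule Finset

variable {F V : Type*} [Field F] [AddCommGroup V] [Module F V] {Q : QuadraticForm F V}

theorem img_inf (g : O Q) (A B : Submodule F V) : img g (A ⊓ B) = img g A ⊓ img g B := by
  ext w; simp [mem_img]

theorem img_sup (g : O Q) (A B : Submodule F V) : img g (A ⊔ B) = img g A ⊔ img g B :=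
  Submodule.map_sup _ _ _

theorem img_ort (g : O Q) (a : V) : img g (ort Q a) = ort Q (g a) := by
  ext w; simp [mem_img, O.polar_apply_left]

theorem img_span_singleton (g : O Q) (a : V) : img g (span F {a}) = span F {g a} := by
  rw [img, Submodule.map_span, Set.image_singleton]; rfl

theorem ts_img (g : O Q) {D : Submodule F V} (h : ∀ w ∈ D, Q w = 0) : ∀ w ∈ img g D, Q w = 0 :=
  fun w hw => by rw [← O.map_Q g⁻¹]; exact h _ (mem_img.1 hw)

theorem img_le {U D : Submodule F V} {g : O Q} (hg : g ∈ sstab Q (U : Set V)) (h : D ≤ U) :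
    img g D ≤ U := (img_eq_iff.2 hg) ▸ img_mono g h

variable [FiniteDimensional F V]

theorem finrank_inf_ort {W : Submodule F V} {a w : V} (hw : w ∈ W) (h : polar Q a w ≠ 0) :
    finrank F ↥(W ⊓ ort Q a) + 1 = finrank F W := by
  have h1 := finrank_le_inf_ort (Q := Q) W a
  have h2 : W ⊓ ort Q a < W := lt_of_le_of_ne inf_le_left fun he =>
    h (mem_ort.1 (show w ∈ W ⊓ ort Q a by rw [he]; exact hw).2)
  have := finrank_lt_finrank_of_lt h2
  omega

theorem finrank_sup_singleton {W : Submodule F V} {x : V} (hx : x ∉ W) :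
    finrank F ↥(W ⊔ span F {x}) = finrank F W + 1 := by
  have a := finrank_sup_le W (span F {x})
  have b := finrank_span_singleton_le (F := F) x
  have c : W < W ⊔ span F {x} := lt_of_le_of_ne le_sup_left fun he =>
    hx (he ▸ mem_sup_right (mem_span_singleton_self x))
  have := finrank_lt_finrank_of_lt c
  omega

/-- The projection of a subspace to the complement of a hyperbolic pair. -/
def prj (Q : QuadraticForm F V) (x x' : V) (D : Submodule F V) : Submodule F V :=
  ((D ⊓ ort Q x) ⊔ span F {x}) ⊓ ort Q x'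

omit [FiniteDimensional F V] in
theorem img_prj {x x' : V} {g : O Q} (hx : g x = x) (hx' : g x' = x') (D : Submodule F V) :
    img g (prj Q x x' D) = prj Q x x' (img g D) := by
  simp only [prj, img_inf, img_sup, img_ort, img_span_singleton, hx, hx']

omit [FiniteDimensional F V] in
theorem prj_eich {x x' v : V} (hx : Q x = 0) (hv : polar Q x v = 0) (D : Submodule F V) :
    prj Q x x' (img (eich Q x v) D) = prj Q x x' D := by
  have key : ∀ v D, polar Q x v = 0 →
      (img (eich Q x v) D ⊓ ort Q x) ⊔ span F {x} ≤ (D ⊓ ort Q x) ⊔ span F {x} := by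
    intro v D hv
    refine sup_le ?_ le_sup_right
    rintro w ⟨hw, hw'⟩
    have h1 := mem_img.1 hw
    rw [← eich_neg, eich_apply_of_orth hx (by simp [hv]) (mem_ort.1 hw')] at h1
    have : w = (w + polar Q (-v) w • x) + (-polar Q (-v) w) • x := by module
    rw [this]
    exact add_mem_sup ⟨h1, mem_ort.2 (by simp [mem_ort.1 hw', pself hx])⟩
      (smul_mem _ _ (mem_span_singleton_self x))
  unfold prj
  congr 1
  refine le_antisymm (key v D hv) ?_
  have := key (-v) (img (eich Q x v) D) (by simp [hv])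
  rwa [← img_mul, eich_neg, inv_mul_cancel, img_one] at this

variable [Fintype F]

/-- An invariant family of totally singular `k`-spaces of `U`. -/
structure TSFam (Q : QuadraticForm F V) (U : Submodule F V) (k : ℕ)
    (𝒪 : Finset (Submodule F V)) : Prop where
  le : ∀ D ∈ 𝒪, D ≤ U
  ts : ∀ D ∈ 𝒪, ∀ w ∈ D, Q w = 0
  rk : ∀ D ∈ 𝒪, finrank F D = k
  cl : ∀ D ∈ 𝒪, ∀ u ∈ U, ∀ v ∈ U, img (eich Q u v) D ∈ 𝒪

theorem TSFam.card_ge (k : ℕ) : ∀ {U : Submodule F V} {𝒪 : Finset (Submodule F V)},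
    Nondeg Q U → 2 * (k + 1) ≤ finrank F U → TSFam Q U (k + 1) 𝒪 → 𝒪.Nonempty →
      ∏ i ∈ range k, (Fintype.card F ^ (i + 1) + 1) ≤ #𝒪 := by
  classical
  induction k with
  | zero => intro U 𝒪 _ _ _ h; simpa using h
  | succ k ih =>
  intro U 𝒪 hU hk h ⟨D0, hD0⟩
  obtain ⟨x, hx, hx0⟩ := (Submodule.ne_bot_iff D0).1 (by
    rintro rfl; simpa using h.rk _ hD0)
  have hQx := h.ts _ hD0 x hx
  have hxU := h.le _ hD0 hx
  obtain ⟨x', hx', hQx', hxx⟩ := hU.exists_partner hxU hx0 hQx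
  have hx'x : polar Q x' x = 1 := by rw [polar_comm, hxx]
  have hU' := hU.inf_ort_pair hxU hx' hQx hQx' hxx
  have hk' : 2 * (k + 1) ≤ finrank F ↥(U ⊓ ort Q x ⊓ ort Q x') := by
    have a := finrank_le_inf_ort (Q := Q) U x
    have b := finrank_le_inf_ort (Q := Q) (U ⊓ ort Q x) x'
    omega
  have hfam : ∀ p : Submodule F V → Prop, (∀ D ∈ 𝒪, p D →
      finrank F ↥((D ⊓ ort Q x) ⊔ span F {x}) = k + 2) →
      (∀ g : O Q, g x = x → ∀ D, p D → p (img g D)) →
      TSFam Q (U ⊓ ort Q x ⊓ ort Q x') (k + 1) ((𝒪.filter p).image (prj Q x x')) := by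
    intro p hp hp'
    refine ⟨?_, ?_, ?_, ?_⟩ <;> intro D' hD' <;> obtain ⟨D, hD, rfl⟩ := mem_image.1 hD' <;>
      obtain ⟨hD, hpD⟩ := mem_filter.1 hD
    · refine inf_le_inf_right _ (sup_le (inf_le_inf_right _ (h.le D hD)) ?_)
      exact (span_singleton_le_iff_mem _ _).2 ⟨hxU, mem_ort.2 (pself hQx)⟩
    · rintro w ⟨hw, -⟩
      obtain ⟨a, ha, b, hb, rfl⟩ := Submodule.mem_sup.1 hw
      obtain ⟨c, rfl⟩ := mem_span_singleton.1 hb
      simp [Q_add, Q_smul, hQx, h.ts D hD a ha.1, mem_ort'.1 ha.2]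
    · have := finrank_inf_ort (Q := Q) (W := (D ⊓ ort Q x) ⊔ span F {x}) (a := x')
        (mem_sup_right (mem_span_singleton_self x)) (by simp [hx'x])
      rw [hp D hD hpD] at this
      exact Nat.succ_injective this
    · intro u hu v hv
      have a : eich Q u v x = x := eich_apply_of_orth_orth (mem_ort'.1 hu.1.2) (mem_ort'.1 hv.1.2)
      have b : eich Q u v x' = x' := eich_apply_of_orth_orth (mem_ort'.1 hu.2) (mem_ort'.1 hv.2)
      rw [img_prj a b]
      exact mem_image_of_mem _ (mem_filter.2 ⟨h.cl D hD u hu.1.1 v hv.1.1, hp' _ a D hpD⟩)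
  have hin : ∀ D ∈ 𝒪, x ∈ D → (D ⊓ ort Q x) ⊔ span F {x} = D := by
    intro D hD hxD
    rw [inf_eq_left.2 fun w hw => mem_ort.2 (polar_eq_zero_of_ts (h.ts D hD) x hxD w hw),
      sup_eq_left.2 ((span_singleton_le_iff_mem _ _).2 hxD)]
  have h1 := ih hU' hk' (hfam (x ∈ ·) (fun D hD hxD => by rw [hin D hD hxD, h.rk D hD])
    (fun g hg D hD => by rw [← hg]; exact apply_mem_img.2 hD))
    ⟨_, mem_image_of_mem _ (mem_filter.2 ⟨hD0, hx⟩)⟩
  have hout : ∀ D ∈ 𝒪, (∃ w ∈ D, polar Q x w ≠ 0) → x ∉ D := by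
    rintro D hD ⟨w, hw, hxw⟩ hxD
    exact hxw (polar_eq_zero_of_ts (h.ts D hD) x hxD w hw)
  obtain ⟨z, hz, hQz⟩ := hU'.exists_Q_ne (by intro hb; rw [hb, finrank_bot] at hk'; omega)
  have h2 := ih hU' hk' (hfam (fun D => ∃ w ∈ D, polar Q x w ≠ 0) (fun D hD hw => by
      obtain ⟨w, hw, hxw⟩ := hw
      rw [finrank_sup_singleton (W := D ⊓ ort Q x) fun hm => hout D hD ⟨w, hw, hxw⟩ hm.1, finrank_inf_ort hw hxw,
        h.rk D hD])
    (fun g hg D ⟨w, hw, hxw⟩ => ⟨g w, apply_mem_img.2 hw, by rwa [← hg, O.map_polar]⟩))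
    ⟨_, mem_image_of_mem _ (mem_filter.2 ⟨h.cl D0 hD0 x' hx' z hz.1.1, _, apply_mem_img.2 hx, by
      rw [eich_apply hQx' (mem_ort.1 hz.2), hx'x]
      simp [pself hQx, mem_ort.1 hz.1.2, mem_ort'.1 hz.1.2, hxx, hQz]⟩)⟩
  have h3 := card_mul_le_fib (𝒪.filter fun D => ∃ w ∈ D, polar Q x w ≠ 0)
    ((𝒪.filter fun D => ∃ w ∈ D, polar Q x w ≠ 0).image (prj Q x x')) (prj Q x x')
    (Fintype.card F ^ (k + 1)) 1 fun D' hD' => by
      obtain ⟨D, hD, rfl⟩ := mem_image.1 hD'
      obtain ⟨hD, w, hw, hxw⟩ := mem_filter.1 hD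
      have hw1 : polar Q x ((polar Q x w)⁻¹ • w) = 1 := by simp [hxw]
      have := eich_count (U := U) (D.smul_mem _ hw) hw1 (fun v => img (eich Q x v) D)
        ((𝒪.filter fun D => ∃ w ∈ D, polar Q x w ≠ 0).filter (prj Q x x' · = prj Q x x' D))
        (fun v hv hxv => mem_filter.2 ⟨mem_filter.2 ⟨h.cl D hD x hxU v hv, _, apply_mem_img.2 hw, by
          nth_rewrite 1 [← eich_apply_self hQx hxv]
          rwa [O.map_polar]⟩, prj_eich hQx hxv D⟩)
        (fun v _ v' _ hxv hxv' he => by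
          refine mem_sup_of_eich_mem hQx (by simp [hxv, hxv']) (D.smul_mem _ hw) hw1 ?_
          have h1 : eich Q x v ((polar Q x w)⁻¹ • w) ∈ img (eich Q x v') D :=
            he ▸ apply_mem_img.2 (D.smul_mem _ hw)
          rwa [mem_img, ← eich_neg, ← O.mul_apply, ← eich_add hQx (by simp [hxv']) hxv,
            neg_add_eq_sub] at h1)
      rw [h.rk D hD] at this
      have h4 : Fintype.card F ^ (k + 1) * Fintype.card F ^ (k + 1 + 1) ≤
          Fintype.card F ^ (finrank F U - 1) := by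
        rw [← pow_add]; exact Nat.pow_le_pow_right Fintype.card_pos (by omega)
      rw [mul_one]
      exact Nat.le_of_mul_le_mul_right (h4.trans this) (pow_pos Fintype.card_pos _)
  have h4 : #(𝒪.filter (x ∈ ·)) + #(𝒪.filter fun D => ∃ w ∈ D, polar Q x w ≠ 0) ≤ #𝒪 := by
    rw [← card_union_of_disjoint (disjoint_filter.2 fun D hD hxD hw => hout D hD hw hxD)]
    exact card_le_card (union_subset (filter_subset _ _) (filter_subset _ _))
  have h5 := card_image_le (s := 𝒪.filter (x ∈ ·)) (f := prj Q x x')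
  have h6 := Nat.mul_le_mul_right (Fintype.card F ^ (k + 1)) h2
  rw [prod_range_succ, mul_add, mul_one]
  omega

end H26
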