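import Cfsg.Agent.H26.MinSolid
import Cfsg.Agent.H56.OrthSimple
import Cfsg.Agent.H58.QCount

/-! The minimal index of a proper subgroup of `PΩ(V)`, `dim V ≥ 7`. -/

namespace H26

open QuadraticMap H56 H60 Module Submodule Finset MulAction

theorem relIndex_stab {G Ω : Type*} [Group G] [MulAction G Ω] (L : Subgroup G) (ω : Ω) :
    (stabilizer G ω).relIndex L = (orbit L ω).ncard := by
  rw [← index_stabilizer]; rfl

variable {F V : Type*} [Field F] [AddCommGroup V] [Module F V] {Q : QuadraticForm F V}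

/-- The stabiliser of the point spanned by `z`. -/
def Pst (Q : QuadraticForm F V) (z : V) : Subgroup (O Q) where
  carrier := {g | ∃ c : F, c ≠ 0 ∧ g z = c • z}
  one_mem' := ⟨1, one_ne_zero, by simp⟩
  mul_mem' := by
    rintro a b ⟨c, hc, ha⟩ ⟨d, hd, hb⟩
    exact ⟨d * c, mul_ne_zero hd hc, by rw [O.mul_apply, hb, map_smul, ha, smul_smul]⟩
  inv_mem' := by
    rintro a ⟨c, hc, ha⟩
    exact ⟨c⁻¹, inv_ne_zero hc, by rw [O.inv_apply_eq, map_smul, ha, inv_smul_smul₀ hc]⟩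

variable [Fintype F] [FiniteDimensional F V]

theorem relIndex_Pst_mul (hQ : Q.polarBilin.Nondegenerate) (h5 : 5 ≤ finrank F V) {z : V}
    (hz : z ≠ 0) : Nat.card {c : F // c ≠ 0 ∧ c * c * Q z = Q z} * (Pst Q z).relIndex (EG Q) =
      Nat.card {v // v ≠ 0 ∧ Q v = Q z} := by
  have htr : ∀ v, v ≠ 0 → Q v = Q z → ∃ g ∈ EG Q, g z = v := fun v h1 h2 =>
    exists_EOin_apply_eq hQ (nondeg_top hQ) (by rwa [finrank_top]) mem_top mem_top hz h1 h2.symm
  have h := Subgroup.relIndex_mul_relIndex (stabilizer (O Q) z ⊓ EG Q) (Pst Q z ⊓ EG Q) (EG Q)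
    (inf_le_inf_right _ fun g hg => ⟨1, one_ne_zero, by rw [one_smul]; exact hg⟩) inf_le_right
  have e : (stabilizer (O Q) z ⊓ EG Q).relIndex (Pst Q z ⊓ EG Q) =
      (stabilizer (O Q) z).relIndex (Pst Q z ⊓ EG Q) := by
    unfold Subgroup.relIndex
    congr 1
    ext g
    exact and_iff_left g.2.2
  rw [e, Subgroup.inf_relIndex_right, Subgroup.inf_relIndex_right, relIndex_stab, relIndex_stab]
    at h
  have h1 : orbit (EG Q) z = {v | v ≠ 0 ∧ Q v = Q z} := by
    ext v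
    constructor
    · rintro ⟨g, rfl⟩
      exact ⟨fun h0 => hz (g.1.injective (h0.trans (map_zero _).symm)), O.map_Q g.1 z⟩
    · rintro ⟨a, b⟩
      obtain ⟨g, hg, rfl⟩ := htr v a b
      exact ⟨⟨g, hg⟩, rfl⟩
  have h2 : orbit ↥(Pst Q z ⊓ EG Q) z = (· • z) '' {c : F | c ≠ 0 ∧ c * c * Q z = Q z} := by
    ext v
    constructor
    · rintro ⟨⟨g, ⟨c, hc, hg⟩, -⟩, rfl⟩
      exact ⟨c, ⟨hc, by rw [← Q_smul, ← hg, O.map_Q]⟩, hg.symm⟩
    · rintro ⟨c, ⟨a, b⟩, rfl⟩
      obtain ⟨g, hg, he⟩ := htr (c • z) (smul_ne_zero a hz) (by rw [Q_smul, b])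
      exact ⟨⟨g, ⟨c, a, he⟩, hg⟩, he⟩
  rw [h1, h2, Set.ncard_image_of_injective _ (smul_left_injective F hz)] at h
  exact h

theorem relIndex_Pst_sing (hQ : Q.polarBilin.Nondegenerate) (h5 : 5 ≤ finrank F V) {z : V}
    (hz : z ≠ 0) (hQz : Q z = 0) :
    (Fintype.card F - 1) * (Pst Q z).relIndex (EG Q) + 1 = Nat.card {v // Q v = 0} := by
  classical
  have : Finite V := Module.finite_of_finite F
  let _ := Fintype.ofFinite V
  have h := relIndex_Pst_mul hQ h5 hz
  simp only [hQz, mul_zero, and_true, Nat.card_eq_fintype_card, Fintype.card_subtype,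
    filter_ne', card_erase_of_mem (mem_univ _), card_univ] at h ⊢
  rw [h, filter_and, filter_ne', inter_comm, inter_erase, inter_univ,
    card_erase_add_one (by simp)]

theorem relIndex_Pst_ne (hQ : Q.polarBilin.Nondegenerate) (h5 : 5 ≤ finrank F V) {z : V}
    (hQz : Q z ≠ 0) : Nat.card {c : F // c * c = 1} * (Pst Q z).relIndex (EG Q) =
      Nat.card {v // Q v = Q z} := by
  have h := relIndex_Pst_mul hQ h5 (z := z) (by rintro rfl; simp at hQz)
  rw [← Nat.card_congr (Equiv.subtypeEquivRight (p := fun v => v ≠ 0 ∧ Q v = Q z)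
    fun v => and_iff_right_of_imp fun h0 h1 => hQz (by rw [← h0, h1, map_zero])), ← h]
  congr 1
  refine Nat.card_congr (Equiv.subtypeEquivRight fun c => ⟨fun h => ⟨?_, by rw [h, one_mul]⟩,
    fun h => mul_right_cancel₀ hQz (by rw [h.2, one_mul])⟩)
  rintro rfl; simp at h

omit [FiniteDimensional F V] in
theorem card_sq_one : Nat.card {c : F // c * c = 1} ≤ 2 ∧
    Nat.card {c : F // c * c = 1} ≤ Fintype.card F - 1 ∧ 1 ≤ Nat.card {c : F // c * c = 1} ∧
    ((2 : F) ≠ 0 → Nat.card {c : F // c * c = 1} = 2) := by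
  classical
  have h : univ.filter (fun c : F => c * c = 1) = {1, -1} := by
    ext c; simp [mul_self_eq_one_iff]
  rw [Nat.card_eq_fintype_card, Fintype.card_subtype, h]
  refine ⟨card_le_two, ?_, card_pos.2 ⟨1, by simp⟩, fun h2 => card_pair fun h1 => h2 ?_⟩
  · rw [← card_univ, ← card_erase_of_mem (mem_univ (0 : F))]
    refine card_le_card fun c hc => ?_
    simp only [mem_insert, mem_singleton] at hc
    rcases hc with rfl | rfl <;> simp
  · linear_combination h1

theorem min_relIndex (hQ : Q.polarBilin.Nondegenerate) (h7 : 7 ≤ finrank F V) {b : ℕ}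
    (hb : b ≤ (Fintype.card F + 2) * Fintype.card F ^ (finrank F V - 3))
    (hpt : ∀ z, z ≠ 0 → b ≤ (Pst Q z).relIndex (EG Q))
    (hsol : finrank F V = 8 → H58.IsPlus Q →
      b ≤ (Fintype.card F + 1) * (Fintype.card F ^ 2 + 1) * (Fintype.card F ^ 3 + 1) ∧
      (b ≤ (Fintype.card F + 1) * (Fintype.card F ^ 2 + 1) * Fintype.card F ^ 3 ∨
        4 ≤ Fintype.card F))
    (M : Subgroup (O Q)) (hM : ¬ EG Q ≤ M) : b ≤ M.relIndex (EG Q) := by
  suffices H : ∀ (Ω : Type _) [MulAction (O Q) Ω] (ω0 : Ω), stabilizer (O Q) ω0 = M →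
      b ≤ M.relIndex (EG Q) from H (O Q ⧸ M) _ (stabilizer_quotient M)
  classical
  intro Ω _ ω0 h0
  by_contra hlt
  push Not at hlt
  have hfin : (orbit (EG Q) ω0).Finite := Set.finite_range _
  have hc : #hfin.toFinset = M.relIndex (EG Q) := by
    rw [← Set.ncard_eq_toFinset_card _ hfin, ← relIndex_stab, h0]
  have hS : Sm Q hfin.toFinset := ⟨hQ, h7, fun g hg ω hω => by
    rw [Set.Finite.mem_toFinset] at hω ⊢
    exact mem_orbit_of_mem_orbit (⟨g, hg⟩ : EG Q) hω, by omega⟩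
  have hM' : ∀ ω ∈ hfin.toFinset, ¬ EG Q ≤ stabilizer (O Q) ω := by
    intro ω hω hle
    obtain ⟨g, rfl⟩ := hfin.mem_toFinset.1 hω
    refine hM fun k hk => ?_
    rw [← h0, ← conj_mem_stab (ω := ω0) g.1]
    exact hle (mul_mem (mul_mem g.2 hk) (inv_mem g.2))
  have hne : hfin.toFinset.Nonempty := ⟨ω0, hfin.mem_toFinset.2 (mem_orbit_self _)⟩
  rcases hS.types with ⟨⟨ω, hω, x, y, hxy, hs⟩, hP⟩ | hP
  · obtain ⟨z, hz, hfix⟩ := (hP ω hω).exists_fix hQ h7 (hM' ω hω) hxy hs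
    have hle : stabilizer (O Q) ω ≤ Pst Q z := fun g hg => by
      obtain ⟨c, hc⟩ := hfix g hg
      refine ⟨c, ?_, hc⟩
      rintro rfl
      exact hz (g.injective (by simpa using hc))
    have h1 := (hpt z hz).trans
      (Subgroup.relIndex_le_of_le_left hle Subgroup.index_ne_zero_of_finite)
    rw [relIndex_stab, orbit_eq_iff.2 (hfin.mem_toFinset.1 hω), Set.ncard_eq_toFinset_card _ hfin]
      at h1
    omega
  · by_cases hF : ∃ ω ∈ hfin.toFinset, ∃ x, Q x = 0 ∧ x ≠ 0 ∧ Full (stabilizer (O Q) ω) x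
    · obtain ⟨ω, hω, x, hx, hx0, hF⟩ := hF
      obtain ⟨h8, h4⟩ := (hP ω hω).finrank_fullSpan hQ h7 (hM' ω hω) hx hx0 hF
      have := (hsol h8 ⟨_, by rw [h8, h4], ts_fullSpan hQ (hM' ω hω)⟩).1
      have := hS.card_ge_of_full hP hM' hω hx hx0 hF
      omega
    · push Not at hF
      obtain ⟨x, -, hx0, hx⟩ := exists_sing (Q := Q) ⊤ (by rw [finrank_top]; omega)
      obtain ⟨ω, hω⟩ := hne
      obtain ⟨h8, h4, hts, -⟩ := (hP ω hω).loc hQ h7 hx hx0 (hF ω hω x hx hx0)
      obtain ⟨h1, h2⟩ := hsol h8 ⟨_, by rw [h8, h4], hts⟩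
      obtain ⟨h3, h5⟩ := hS.card_ge_of_not_full hP ⟨ω, hω⟩ hF
      rcases h2 with h2 | h2
      · omega
      · have h6 := h5 h2
        have h7 : Fintype.card F ^ 3 + 1 ≤ 2 * Fintype.card F ^ 3 := by
          have := pow_pos (Fintype.card_pos (α := F)) 3
          omega
        have := Nat.mul_le_mul_left ((Fintype.card F + 1) * (Fintype.card F ^ 2 + 1)) h7
        omega

/-- Transfer to `Cfsg.POmega`. -/
theorem min_index_POmega {ι : Type} [Fintype ι] [DecidableEq ι] (Q : QuadraticForm F (ι → F))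
    {q : (ι → F) → F} (h : ⇑Q = q) (hQ : Q.polarBilin.Nondegenerate)
    (h5 : 5 ≤ finrank F (ι → F)) {b : ℕ}
    (hmin : ∀ M : Subgroup (O Q), ¬ EG Q ≤ M → b ≤ M.relIndex (EG Q))
    {z : ι → F} (hz : (Pst Q z).relIndex (EG Q) = b) :
    (∀ H : Subgroup (Cfsg.POmega F q), H ≠ ⊤ → b ≤ H.index) ∧
      ∃ H : Subgroup (Cfsg.POmega F q), H.index = b := by
  have hE : commutator (O Q) = EG Q := commutator_eq_EOin hQ h5
  let φ : commutator (O Q) →* Cfsg.POmega F q :=
    (pOmegaEquiv Q h).symm.toMonoidHom.comp (QuotientGroup.mk' _)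
  have hφ : Function.Surjective φ :=
    (pOmegaEquiv Q h).symm.surjective.comp (QuotientGroup.mk'_surjective _)
  rw [← hE] at hmin hz
  refine ⟨fun H hH => ?_, ((Pst Q z).subgroupOf (commutator (O Q))).map φ, ?_⟩
  · have := hmin ((H.comap φ).map (commutator (O Q)).subtype) fun hle => hH (by
      rw [eq_top_iff]
      intro k _
      obtain ⟨g, rfl⟩ := hφ k
      obtain ⟨g', hg', he⟩ := hle g.2
      rwa [← (Subtype.ext he : g' = g)])
    rwa [Subgroup.relIndex, Subgroup.subgroupOf,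
      Subgroup.comap_map_eq_self_of_injective (Subgroup.subtype_injective _),
      Subgroup.index_comap_of_surjective _ hφ] at this
  · rw [Subgroup.index_map_eq _ hφ, ← hz, Subgroup.relIndex]
    intro g hg
    have h1 : g ∈ Subgroup.center (commutator (O Q)) := by
      rw [← QuotientGroup.eq_one_iff]
      exact (pOmegaEquiv Q h).symm.injective (hg.trans (map_one _).symm)
    obtain ⟨e, -, he0, he⟩ := exists_sing (Q := Q) ⊤ (by rw [finrank_top]; omega)
    rcases (mem_center_iff_of_EG_le hQ (by omega) ⟨e, he0, he⟩ hE.ge g).1 h1 with h2 | h2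
    · exact ⟨1, one_ne_zero, by simp [h2]⟩
    · exact ⟨-1, by simp, by simp [h2]⟩

end H26
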