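import Cfsg.Agent.H26.MinTypes

/-! A subgroup all of whose lines are of point type fixes a point of the projective space. -/

namespace H26

open QuadraticMap H56 H60 Module Submodule

variable {F V : Type*} [Field F] [AddCommGroup V] [Module F V] {Q : QuadraticForm F V}

/-- Singular vectors `x` such that `M` contains a non-trivial Eichler map based at `x`. -/
def InS (M : Subgroup (O Q)) (x : V) : Prop :=
  Q x = 0 ∧ x ≠ 0 ∧ ∃ w, polar Q x w = 0 ∧ eich Q x w ∈ M ∧ ∀ c : F, w ≠ c • x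

theorem InS.map {M : Subgroup (O Q)} {x : V} (h : InS M x) {g : O Q} (hg : g ∈ M) : InS M (g x) := by
  obtain ⟨h1, h2, w, h3, h4, h5⟩ := h
  exact ⟨by rw [O.map_Q, h1], fun h0 => h2 (g.injective (by rw [h0, map_zero])), g w,
    by rw [O.map_polar, h3], eich_conj_mem hg h4, fun c hc => h5 c (g.injective (by
      rw [hc, map_smul]))⟩

theorem InS.smul {M : Subgroup (O Q)} {x : V} (h : InS M x) {c : F} (hc : c ≠ 0) :
    InS M (c • x) := by
  obtain ⟨h1, h2, w, h3, h4, h5⟩ := h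
  refine ⟨by simp [Q_smul, h1], smul_ne_zero hc h2, c⁻¹ • w, by simp [h3], ?_, fun d hd => ?_⟩
  · rwa [eich_smul_left' hc, smul_inv_smul₀ hc]
  · exact h5 (c * d * c) (by rw [mul_assoc, mul_smul, mul_smul, ← hd, smul_inv_smul₀ hc])

theorem LL.inS {M : Subgroup (O Q)} {x y : V} (h : LL M x y) (hxy : TSP Q x y) : InS M y := by
  refine ⟨hxy.qy, hxy.symm.x0, x, pc hxy.xy, ?_, hxy.symm.ind⟩
  rw [eich_swap hxy.qx hxy.qy hxy.xy]
  simpa using h 1

theorem LL.mem_AS {M : Subgroup (O Q)} {x y : V} (h : LL M x y) (hxy : polar Q x y = 0) :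
    y ∈ AS M x := ⟨hxy, h⟩

theorem NL.not_mem {M : Subgroup (O Q)} {x y : V} (h : NL M x y) : eich Q x y ∉ M :=
  fun hm => one_ne_zero (h 1 (by simpa using hm))

/-- The points of the set collinear with `x` are those orthogonal to `z`. -/
def Loc (M : Subgroup (O Q)) (x z : V) : Prop :=
  polar Q x z = 0 ∧ ∀ v, Q v = 0 → v ≠ 0 → polar Q x v = 0 → (InS M v ↔ polar Q z v = 0)

theorem Loc.add {M : Subgroup (O Q)} {x z : V} (h : Loc M x z) (hx : Q x = 0) (c : F) :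
    Loc M x (z + c • x) :=
  ⟨by simp [h.1, pself hx], fun v a b d => by simp [h.2 v a b d, d]⟩

theorem Loc.smul {M : Subgroup (O Q)} {x z : V} (h : Loc M x z) {c : F} (hc : c ≠ 0) :
    Loc M x (c • z) :=
  ⟨by simp [h.1], fun v a b d => by simp [h.2 v a b d, hc]⟩

variable [FiniteDimensional F V]

theorem finrank_ort2 (x y : V) : finrank F V ≤ finrank F ↥(ort Q x ⊓ ort Q y) + 2 := by
  have a := finrank_le_inf_ort (Q := Q) ⊤ x
  have b := finrank_le_inf_ort (Q := Q) (⊤ ⊓ ort Q x) y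
  rw [finrank_top] at a
  rw [top_inf_eq] at a b
  omega

theorem finrank_ort3 (x y z : V) :
    finrank F V ≤ finrank F ↥(ort Q x ⊓ ort Q y ⊓ ort Q z) + 3 := by
  have a := finrank_ort2 (Q := Q) x y
  have b := finrank_le_inf_ort (Q := Q) (ort Q x ⊓ ort Q y) z
  omega

theorem mem_span_pair_of_ort (hQ : Q.polarBilin.Nondegenerate) {x y z : V}
    (h : ort Q x ⊓ ort Q y ≤ ort Q z) : ∃ a b : F, a • x + b • y = z := by
  rw [← mem_span_pair, ← perp_perp hQ (span F {x, y}), mem_perp']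
  intro w hw
  rw [mem_perp_span_pair] at hw
  exact mem_ort.1 (h ⟨mem_ort.2 hw.1, mem_ort.2 hw.2⟩)

variable [Finite F]

theorem hasHyp_ort2 (hQ : Q.polarBilin.Nondegenerate) (h7 : 7 ≤ finrank F V) (x y : V) :
    HasHyp Q (ort Q x ⊓ ort Q y) :=
  (nondeg_top hQ).hasHyp_of_le hQ le_top (by
    have := finrank_ort2 (Q := Q) x y
    rw [finrank_top]; omega)

variable {M : Subgroup (O Q)}

theorem Loc.unique (hQ : Q.polarBilin.Nondegenerate) (h7 : 7 ≤ finrank F V) {x z z' : V}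
    (h : Loc M x z) (h' : Loc M x z') : ∃ a b : F, a • x + b • z = z' := by
  refine mem_span_pair_of_ort hQ ((hasHyp_ort2 hQ h7 x z).le_of_sing fun v hv hQv => ?_)
  by_cases h0 : v = 0
  · simp [h0]
  · exact mem_ort.2 ((h'.2 v hQv h0 (mem_ort.1 hv.1)).1
      ((h.2 v hQv h0 (mem_ort.1 hv.1)).2 (mem_ort.1 hv.2)))

theorem PtT.not_NN (hP : PtT M) (h7 : 7 ≤ finrank F V) {x y : V} (hx : InS M x)
    (h : NN M x y) : False := by
  obtain ⟨h1, h2, w0, h3, h4, h5⟩ := hx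
  obtain ⟨v, hv, hQv, hv'⟩ := exists_sing_not_mem_of_finrank (Q := Q)
    (ort Q x ⊓ ort Q y ⊓ ort Q w0) (span F {x}) (by
      have a := finrank_ort3 (Q := Q) x y w0
      have b := finrank_span_singleton_le (F := F) x
      omega)
  have hi : ∀ c : F, v ≠ c • x := fun c hc => hv' (hc ▸ smul_mem _ _ (mem_span_singleton_self x))
  rcases hP x v ⟨h1, hQv, mem_ort.1 hv.1.1, h2, hi⟩ with hL | ⟨-, hS | hN, -⟩
  · obtain ⟨c, hc⟩ := h v (mem_ort.1 hv.1.1) (mem_ort.1 hv.1.2) (by simpa using hL 1)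
    exact hi c hc
  · obtain ⟨w, hw, hw'⟩ := exists_mem_not_mem_of_finrank_lt (A := span F {x, v})
      (B := ort Q x ⊓ ort Q y ⊓ ort Q v) (by
        have a := finrank_ort3 (Q := Q) x y v
        have b := finrank_span_pair_le (F := F) x v
        omega)
    obtain ⟨t, ht⟩ := hS w (mem_ort.1 hw.1.1) (mem_ort.1 hw.2)
    obtain ⟨c, hc⟩ := h _ (mem_ort.1 (add_mem hw.1.1 (smul_mem _ _ hv.1.1)))
      (mem_ort.1 (add_mem hw.1.2 (smul_mem _ _ hv.1.2))) ht
    exact hw' (mem_span_pair.2 ⟨c, -t, by rw [← hc]; module⟩)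
  · obtain ⟨c, hc⟩ := hN w0 h3 (mem_ort'.1 hv.2) h4
    exact h5 c hc

theorem PtT.cases (hP : PtT M) (h7 : 7 ≤ finrank F V) {x y : V} (hx : InS M x) (h : TSP Q x y) :
    LL M x y ∨ (NL M x y ∧ SS M x y ∧ ¬ InS M y) := by
  rcases hP x y h with hL | ⟨a, b, c⟩
  · exact Or.inl hL
  · exact Or.inr ⟨a, b.resolve_right (hP.not_NN h7 hx),
      fun hy => hP.not_NN h7 hy (c.resolve_left (hP.not_NN h7 hx))⟩

theorem PtT.mem_AS (hP : PtT M) (h7 : 7 ≤ finrank F V) {x v : V} (hx : InS M x) (hv : Q v = 0)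
    (hxv : polar Q x v = 0) (hm : eich Q x v ∈ M) : v ∈ AS M x := by
  by_cases hi : ∃ c : F, v = c • x
  · obtain ⟨c, rfl⟩ := hi
    exact smul_mem _ _ (self_mem_AS M hx.1)
  · push Not at hi
    rcases hP.cases h7 hx ⟨hx.1, hv, hxv, hx.2.1, hi⟩ with hL | ⟨hN, -⟩
    · exact hL.mem_AS hxv
    · exact absurd hm hN.not_mem

theorem PtT.inS_iff (hP : PtT M) (h7 : 7 ≤ finrank F V) {x v : V} (hx : InS M x) (hv : Q v = 0)
    (h0 : v ≠ 0) (hxv : polar Q x v = 0) : InS M v ↔ v ∈ AS M x := by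
  by_cases hi : ∃ c : F, v = c • x
  · obtain ⟨c, rfl⟩ := hi
    exact iff_of_true (hx.smul (by rintro rfl; simp at h0)) (smul_mem _ _ (self_mem_AS M hx.1))
  · push Not at hi
    have ht : TSP Q x v := ⟨hx.1, hv, hxv, hx.2.1, hi⟩
    rcases hP.cases h7 hx ht with hL | ⟨hN, -, hn⟩
    · exact iff_of_true (hL.inS ht) (hL.mem_AS hxv)
    · exact iff_of_false hn fun hm => hN.not_mem (eich_mem_of_AS hm)

theorem PtT.ort_le (hP : PtT M) (hQ : Q.polarBilin.Nondegenerate) (h7 : 7 ≤ finrank F V) {x y : V}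
    (hx : InS M x) (h : TSP Q x y) (hS : SS M x y) :
    (∀ w, Q w = 0 → polar Q x w = 0 → polar Q y w = 0 → ∃ t : F, w + t • y ∈ AS M x) ∧
      ort Q x ⊓ ort Q y ≤ AS M x ⊔ span F {y} := by
  have key : ∀ w, Q w = 0 → polar Q x w = 0 → polar Q y w = 0 → ∃ t : F, w + t • y ∈ AS M x := by
    intro w a b c
    obtain ⟨t, ht⟩ := hS w b c
    exact ⟨t, hP.mem_AS h7 hx (by simp [Q_add, Q_smul, a, h.qy, pc c]) (by simp [b, h.xy]) ht⟩
  refine ⟨key, (hasHyp_ort2 hQ h7 x y).le_of_sing fun w hw hQw => ?_⟩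
  obtain ⟨t, ht⟩ := key w hQw (mem_ort.1 hw.1) (mem_ort.1 hw.2)
  have : w = (w + t • y) + (-t) • y := by module
  rw [this]
  exact add_mem_sup ht (smul_mem _ _ (mem_span_singleton_self y))

theorem PtT.exists_loc (hP : PtT M) (hQ : Q.polarBilin.Nondegenerate) (h7 : 7 ≤ finrank F V) {x : V}
    (hx : InS M x) : ∃ z, Loc M x z := by
  by_cases hall : ∀ v, Q v = 0 → polar Q x v = 0 → v ∈ AS M x
  · exact ⟨0, by simp, fun v a b c => by simp [hP.inS_iff h7 hx a b c, hall v a c]⟩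
  push Not at hall
  obtain ⟨y, hy, hxy, hyA⟩ := hall
  have hgen : ∀ u, Q u = 0 → polar Q x u = 0 → u ∉ AS M x → TSP Q x u ∧ SS M x u := by
    intro u a b c
    have ht : TSP Q x u := ⟨hx.1, a, b, hx.2.1, fun d hd =>
      c (hd ▸ smul_mem _ _ (self_mem_AS M hx.1))⟩
    exact ⟨ht, ((hP.cases h7 hx ht).resolve_left fun hL => c (hL.mem_AS b)).2.1⟩
  obtain ⟨ht, hS⟩ := hgen y hy hxy hyA
  obtain ⟨k1, k2⟩ := hP.ort_le hQ h7 hx ht hS
  obtain ⟨w, hw, hQw, hw'⟩ := exists_sing_not_mem_of_finrank (Q := Q)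
    (ort Q x ⊓ ort Q y) (span F {x, y}) (by
      have a := finrank_ort2 (Q := Q) x y
      have b := finrank_span_pair_le (F := F) x y
      omega)
  obtain ⟨t, hm⟩ := k1 w hQw (mem_ort.1 hw.1) (mem_ort.1 hw.2)
  have hwy : polar Q w y = 0 := mem_ort'.1 hw.2
  obtain ⟨hu, huS⟩ := hgen (w + t • y + y) (by simp [Q_add, Q_smul, hQw, hy, hwy, pself hy])
    (by simp [mem_ort.1 hw.1, hxy]) (fun hc => hyA (by simpa using sub_mem hc hm))
  have k3 := (hP.ort_le hQ h7 hx hu huS).2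
  have k4 : ort Q x ⊓ ort Q (w + t • y + y) ≤ AS M x ⊔ span F {y} := k3.trans (sup_le le_sup_left
    ((span_singleton_le_iff_mem _ _).2 (add_mem_sup hm (mem_span_singleton_self y))))
  obtain ⟨k, hk, hky⟩ : ∃ k ∈ ort Q x ⊓ ort Q (w + t • y + y), k ∉ ort Q y := by
    by_contra hc
    push Not at hc
    obtain ⟨a, b, hab⟩ := mem_span_pair_of_ort hQ hc
    by_cases hb : b = 0
    · exact ht.ind a (by rw [← hab, hb]; simp)
    · refine hw' (mem_span_pair.2 ⟨-(b⁻¹ * a), b⁻¹ - t - 1, ?_⟩)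
      have : b⁻¹ * b = 1 := inv_mul_cancel₀ hb
      linear_combination (norm := module) (-b⁻¹) • hab + this • (w + t • y + y)
  have hky' : polar Q y k ≠ 0 := fun h0 => hky (mem_ort.2 h0)
  have k5 : ort Q x ≤ AS M x ⊔ span F {y} := by
    intro v hv
    have : v = (v - (polar Q y v / polar Q y k) • k) + (polar Q y v / polar Q y k) • k := by abel
    rw [this]
    refine add_mem (k2 ⟨sub_mem hv (smul_mem _ _ hk.1), mem_ort.2 ?_⟩) (smul_mem _ _ (k4 hk))
    simp [hky']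
  obtain ⟨φ, hφ, hφ'⟩ := Submodule.exists_dual_map_eq_bot_of_notMem hyA inferInstance
  obtain ⟨z, hz⟩ := exists_polar_eq hQ φ
  have hφA : ∀ a ∈ AS M x, φ a = 0 := fun a ha => by
    have := mem_map_of_mem (f := φ) ha
    rwa [hφ', mem_bot] at this
  refine ⟨z, pc (by rw [hz, hφA x (self_mem_AS M hx.1)]), fun v a b c => ?_⟩
  rw [hP.inS_iff h7 hx a b c, hz]
  refine ⟨hφA v, fun h0 => ?_⟩
  obtain ⟨p, hp, r, hr, rfl⟩ := mem_sup.1 (k5 (mem_ort.2 c))
  obtain ⟨s, rfl⟩ := mem_span_singleton.1 hr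
  rw [map_add, hφA p hp, map_smul, zero_add, smul_eq_mul, mul_eq_zero] at h0
  simpa [h0.resolve_right hφ] using hp

theorem PtT.full_of_loc (hP : PtT M) (hQ : Q.polarBilin.Nondegenerate) (h7 : 7 ≤ finrank F V)
    {x : V} (hx : InS M x) (h : Loc M x 0) : Full M x := by
  refine full_of_ort_le (le_trans (by simp) ((hasHyp_ort2 hQ h7 x x).le_of_sing fun v hv a => ?_))
  by_cases h0 : v = 0
  · simp [h0]
  · exact (hP.inS_iff h7 hx a h0 (mem_ort.1 hv.1)).1 ((h.2 v a h0 (mem_ort.1 hv.1)).2 (by simp))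

omit [FiniteDimensional F V] [Finite F] in
theorem nondeg_ort2 (hQ : Q.polarBilin.Nondegenerate) {x y : V} (hx : Q x = 0) (hy : Q y = 0)
    (hxy : polar Q x y ≠ 0) : Nondeg Q (ort Q x ⊓ ort Q y) := by
  have := (nondeg_top hQ).inf_ort_pair (e := x) (f := (polar Q x y)⁻¹ • y) mem_top mem_top hx
    (by simp [Q_smul, hy]) (by simp [hxy])
  convert this using 1
  ext v
  simp [hxy]

theorem le_ort_of_sing (hQ : Q.polarBilin.Nondegenerate) (h7 : 7 ≤ finrank F V) {x y z z' : V}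
    (hx : Q x = 0) (hy : Q y = 0) (hxy : polar Q x y ≠ 0)
    (h : ∀ v, Q v = 0 → v ≠ 0 → polar Q x v = 0 → polar Q y v = 0 → polar Q z v = 0 →
      polar Q z' v = 0) : ort Q x ⊓ ort Q y ⊓ ort Q z ≤ ort Q z' := by
  refine ((nondeg_ort2 hQ hx hy hxy).hasHyp_of_le hQ inf_le_left ?_).le_of_sing fun v hv a => ?_
  · have a := finrank_ort2 (Q := Q) x y
    have b := finrank_le_inf_ort (Q := Q) (ort Q x ⊓ ort Q y) z
    omega
  · by_cases h0 : v = 0
    · simp [h0]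
    · exact mem_ort.2 (h v a h0 (mem_ort.1 hv.1.1) (mem_ort.1 hv.1.2) (mem_ort.1 hv.2))

theorem PtT.loc_pair (hP : PtT M) (hQ : Q.polarBilin.Nondegenerate) (h7 : 7 ≤ finrank F V)
    (hM : ¬ EG Q ≤ M) {x y z : V} (hx : InS M x) (hy : InS M y) (hxy : polar Q x y ≠ 0)
    (h : Loc M x z) (hyz : polar Q y z = 0) : Loc M y z ∧ z ≠ 0 := by
  obtain ⟨z0, h0⟩ := hP.exists_loc hQ h7 hy
  have h1 := h0.add hy.1 (-(polar Q x z0 / polar Q x y))
  set z1 := z0 + (-(polar Q x z0 / polar Q x y)) • y with hz1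
  have hxz : polar Q x z1 = 0 := by simp [hz1, hxy]
  have hW := nondeg_ort2 hQ hx.1 hy.1 hxy
  have m : z ∈ ort Q x ⊓ ort Q y := ⟨mem_ort.2 h.1, mem_ort.2 hyz⟩
  have m1 : z1 ∈ ort Q x ⊓ ort Q y := ⟨mem_ort.2 hxz, mem_ort.2 h1.1⟩
  obtain ⟨c, hc⟩ := hW.exists_smul m m1 fun v hv a => mem_ort.1 (le_ort_of_sing hQ h7 hx.1 hy.1 hxy
    (fun v a b c d e => (h1.2 v a b d).1 ((h.2 v a b c).2 e)) ⟨hv, mem_ort.2 a⟩)
  obtain ⟨c', hc'⟩ := hW.exists_smul m1 m fun v hv a => mem_ort.1 (le_ort_of_sing hQ h7 hx.1 hy.1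
    hxy (fun v a b c d e => (h.2 v a b c).1 ((h1.2 v a b d).2 e)) ⟨hv, mem_ort.2 a⟩)
  have hz : z ≠ 0 := by
    rintro rfl
    rw [hc, smul_zero] at h1
    exact hM (EOin_le_of_full hQ (hP.full_of_loc hQ h7 hx h) (hP.full_of_loc hQ h7 hy h1) hx.1 hy.1
      hxy)
  refine ⟨?_, hz⟩
  rw [hc']
  exact h1.smul (by rintro rfl; exact hz (by simpa using hc'))

/-- **Point type**: `M` fixes a point of the projective space. -/
theorem PtT.exists_fix (hP : PtT M) (hQ : Q.polarBilin.Nondegenerate) (h7 : 7 ≤ finrank F V)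
    (hM : ¬ EG Q ≤ M) {x0 y0 : V} (h0 : TSP Q x0 y0) (hS : SS M x0 y0) :
    ∃ z : V, z ≠ 0 ∧ ∀ g ∈ M, ∃ c : F, g z = c • z := by
  have hx0 : InS M x0 := by
    obtain ⟨w, hw, hw'⟩ := exists_mem_not_mem_of_finrank_lt (A := span F {x0, y0})
      (B := ort Q x0 ⊓ ort Q y0) (by
        have a := finrank_ort2 (Q := Q) x0 y0
        have b := finrank_span_pair_le (F := F) x0 y0
        omega)
    obtain ⟨t, ht⟩ := hS w (mem_ort.1 hw.1) (mem_ort.1 hw.2)
    exact ⟨h0.qx, h0.x0, w + t • y0, by simp [mem_ort.1 hw.1, h0.xy], ht,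
      fun c hc => hw' (mem_span_pair.2 ⟨c, -t, by rw [← hc]; module⟩)⟩
  obtain ⟨z0, hz0⟩ := hP.exists_loc hQ h7 hx0
  obtain ⟨x, hx', y, hy', hQx, hQy, hxy⟩ := hasHyp_ort2 hQ h7 x0 z0
  have hx : InS M x := (hz0.2 x hQx (by rintro rfl; simp at hxy) (mem_ort.1 hx'.1)).2
    (mem_ort.1 hx'.2)
  have hy : InS M y := (hz0.2 y hQy (by rintro rfl; simp at hxy) (mem_ort.1 hy'.1)).2
    (mem_ort.1 hy'.2)
  have hyx : polar Q y x = 1 := by rw [polar_comm, hxy]
  obtain ⟨z1, hz1⟩ := hP.exists_loc hQ h7 hx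
  obtain ⟨z, hzx, hyz⟩ : ∃ z, Loc M x z ∧ polar Q y z = 0 :=
    ⟨_, hz1.add hQx (-polar Q y z1), by simp [hyx]⟩
  obtain ⟨hzy, hz⟩ := hP.loc_pair hQ h7 hM hx hy (by simp [hxy]) hzx hyz
  have key : ∀ p, InS M p → p ∉ span F {x, y, z} → polar Q z p = 0 := by
    intro p hp hp'
    by_cases a : polar Q x p = 0
    · exact (hzx.2 p hp.1 hp.2.1 a).1 hp
    by_cases b : polar Q y p = 0
    · exact (hzy.2 p hp.1 hp.2.1 b).1 hp
    have e1 := (hP.loc_pair hQ h7 hM hx hp a (hzx.add hQx (-(polar Q p z / polar Q p x)))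
      (by simp [show polar Q p x ≠ 0 from fun h => a (pc h)])).1
    have e2 := (hP.loc_pair hQ h7 hM hy hp b (hzy.add hQy (-(polar Q p z / polar Q p y)))
      (by simp [show polar Q p y ≠ 0 from fun h => b (pc h)])).1
    obtain ⟨s, t, hst⟩ := e1.unique hQ h7 e2
    by_cases hs : s = 0
    · have := congrArg (polar Q x) hst
      simp [hs, hzx.1, pself hQx, hxy, show polar Q p y ≠ 0 from fun h => b (pc h)] at this
      exact pc this
    · refine absurd (mem_span_triple.2 ⟨s⁻¹ * t * (polar Q p z / polar Q p x),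
        -(s⁻¹ * (polar Q p z / polar Q p y)), s⁻¹ * (1 - t), ?_⟩) hp'
      have : s⁻¹ * s = 1 := inv_mul_cancel₀ hs
      linear_combination (norm := module) (-s⁻¹) • hst + this • p
  have hall : ∀ p, InS M p → polar Q z p = 0 := by
    intro p hp
    by_contra hne
    have hp' : p ∈ span F {x, y, z} := by_contra fun h => hne (key p hp h)
    obtain ⟨z2, hz2⟩ := hP.exists_loc hQ h7 hp
    obtain ⟨v, hv, hQv, hv'⟩ := (hasHyp_ort2 hQ h7 p z2).exists_sing_not_mem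
      (T := span F {x, y, z}) (fun hle => by
        have a := finrank_ort2 (Q := Q) p z2
        have b := finrank_span_triple_le (F := F) x y z
        have := finrank_mono hle
        omega)
    have hvp : v + p ∉ span F {x, y, z} := fun h => hv' (by simpa using sub_mem h hp')
    have a := key v ((hz2.2 v hQv (by rintro rfl; simp at hv') (mem_ort.1 hv.1)).2
      (mem_ort.1 hv.2)) hv'
    have b := key (v + p) ((hz2.2 _ (by simp [Q_add, hQv, hp.1, mem_ort'.1 hv.1])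
      (fun h : v + p = 0 => hvp (h ▸ zero_mem _)) (by simp [mem_ort.1 hv.1, pself hp.1])).2
      (by simp [mem_ort.1 hv.2, pc hz2.1])) hvp
    exact hne (by simpa [a] using b)
  refine ⟨z, hz, fun g hg => exists_smul_of_orth hQ fun v hv => ?_⟩
  have hg' : ∀ p, InS M p → polar Q (g z) p = 0 := fun p hp => by
    rw [O.polar_apply_left]; exact hall _ (hp.map (inv_mem hg))
  have hle := le_ort_of_sing hQ h7 hQx hQy (by simp [hxy]) (z := z) (z' := g z)
    fun v a b c _ e => hg' v ((hzx.2 v a b c).2 e)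
  have := mem_ort.1 (hle (x := v - polar Q y v • x - polar Q x v • y) ⟨⟨mem_ort.2 (by
    simp [pself hQx, hxy]), mem_ort.2 (by simp [pself hQy, hyx])⟩, mem_ort.2 (by
    simp [hv, pc hzx.1, pc hyz])⟩)
  simpa [hg' x hx, hg' y hy] using this

end H26
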