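import Cfsg.Agent.H26.MinS5

/-! Small actions of symplectic groups, part 6: characteristic two, counting. -/

namespace H26.MS

open H54 H26.MU Module Finset MulAction Submodule
open scoped Pointwise

theorem num5 {q x k a : ℕ} (hq : 4 ≤ q) (hx : q ^ 2 ≤ x) (hk : 0 < k)
    (h1 : (q - 1) * (k * a) < x * q * q) : ¬ 2 * (x * q) + k * q ≤ k * a + 2 * q := fun h3 => by
  obtain ⟨r, rfl⟩ := Nat.exists_eq_add_of_le hq
  rw [show 4 + r - 1 = 3 + r by omega] at h1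
  have h4 := Nat.mul_le_mul_left (3 + r) h3
  have h5 := Nat.mul_le_mul_right ((3 + r) * (4 + r)) hk
  have h6 := Nat.mul_le_mul_right ((2 + r) * (4 + r)) (show 2 ≤ x by nlinarith)
  nlinarith

theorem num6 {q x k a : ℕ} (hq : 4 ≤ q) (hx : q ^ 2 ≤ x) (h2 : 2 * a ≤ q ^ 2)
    (h1 : (q - 1) * (k * a) < x * q * q) : ¬ x * q + k * q ≤ k * a + q := fun h3 => by
  obtain ⟨r, rfl⟩ := Nat.exists_eq_add_of_le hq
  rw [show 4 + r - 1 = 3 + r by omega] at h1
  have h4 := Nat.mul_le_mul_left k h2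
  have h5 : 2 * x ≤ k * (2 + r) + 2 := by nlinarith
  have h6 := Nat.mul_le_mul_left (3 + r) h3
  have h7 : (3 + r) * k < x + (3 + r) := by nlinarith
  nlinarith

variable {F V : Type*} [Field F] [AddCommGroup V] [Module F V] {B : LinearMap.BilinForm F V}
  (hA : B.IsAlt) {M : Subgroup (V ≃ₗ[F] V)} {z y u : V} {Ω : Type*} [MulAction (V ≃ₗ[F] V) Ω]

/-- The annihilator of `Yz`. -/
def Az (ψ : AddChar F ℂ) (M : Subgroup (V ≃ₗ[F] V)) (z : V) : AddSubgroup V :=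
  ann ψ (bA B) (Yz hA M z)

theorem mem_Az {ψ : AddChar F ℂ} : u ∈ Az hA ψ M z ↔ ∀ y ∈ Yz hA M z, ψ (B u y) = 1 := Iff.rfl

theorem Az_smul_C (ψ : AddChar F ℂ) {g : V ≃ₗ[F] V} (hg : g ∈ Cz B z) (ω : Ω) :
    Az hA ψ (stabilizer _ (g • ω)) z = g • Az hA ψ (stabilizer _ ω) z := by
  ext v
  obtain ⟨v, rfl⟩ := g.surjective v
  rw [show g v = g • v from rfl, AddSubgroup.smul_mem_pointwise_smul_iff, mem_Az, mem_Az,
    Yz_smul_C hA hg]
  refine ⟨fun h y hy => ?_, fun h y hy => ?_⟩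
  · rw [← hg.1]; exact h _ (AddSubgroup.smul_mem_pointwise_smul y g _ hy)
  · obtain ⟨x, hx, rfl⟩ := (AddSubgroup.mem_smul_pointwise_iff_exists _ _ _).1 hy
    exact (congrArg ψ (hg.1 v x)).trans (h x hx)

theorem Az_smul_E (ψ : AddChar F ℂ) {g : V ≃ₗ[F] V} (hg : g ∈ Ez hA z) (ω : Ω) :
    Az hA ψ (stabilizer _ (g • ω)) z = Az hA ψ (stabilizer _ ω) z := by
  rw [Az, Yz_smul_E hA hg, Az]

/-- The graph of `M ∩ E`. -/
def Dz (ω : Ω) (z : V) : F → Set V :=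
  fun a => {u | B z u = 0 ∧ ee hA z u a ∈ stabilizer (V ≃ₗ[F] V) ω}

theorem Dz_smul {g : V ≃ₗ[F] V} (hg : g ∈ Cz B z) (ω : Ω) :
    Dz hA (g • ω) z = g • Dz hA ω z := by
  ext a v
  obtain ⟨v, rfl⟩ := g.surjective v
  rw [Pi.smul_apply, show g v = g • v from rfl, Set.smul_mem_smul_set_iff]
  have h1 := hg.1 z v
  have h3 := ee_mem_smul hA hg.1 ω z v a
  rw [show g z = z from hg.2] at h1 h3
  exact and_congr (by rw [← h1]; rfl) h3

theorem Dz_smul_E (h2 : (2 : F) = 0) {g : V ≃ₗ[F] V} (hg : g ∈ Ez hA z) (ω : Ω) :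
    Dz hA (g • ω) z = Dz hA ω z := by
  ext a v
  refine and_congr_right fun hv => ?_
  rw [← ee_mem_smul hA (Ez_le_Cz hA hg).1 ω z v a]
  obtain ⟨u, b, hu, rfl⟩ := hg
  rw [ee_self hA hu, ee_perp hA hu b hv, ee_shift2 hA h2 hv]

variable [FiniteDimensional F V] [Fintype F] (hB : B.Nondegenerate) (hz : z ≠ 0) {d : ℕ}
  (hd : finrank F V = d + 2)
include hA hB hz hd

theorem famD {X : Type*} [DecidableEq X] {S : Finset Ω} (hS : ∀ g ∈ Ez hA z, ∀ ω ∈ S, g • ω ∈ S)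
    (Φ : Ω → X) (hE : ∀ g ∈ Ez hA z, ∀ ω, Φ (g • ω) = Φ ω) {r : ℕ}
    (h3 : ∀ ω ∈ S, Nat.card (Rz hA (stabilizer _ ω) z) ≤ r) :
    #(S.image Φ) * Fintype.card F ≤ #S * r := by
  have : Finite V := Module.finite_of_finite F
  choose η h1 h2 using fun x : S.image Φ => mem_image.1 x.2
  have h4 := fam hA hB hz hd hS η h1 (fun i j e he h => Subtype.ext (by
    rw [← h2, ← h2, ← h, hE e he])) (m := Fintype.card F ^ (d + 1) * r) fun i =>
      Nat.mul_le_mul (card_perp hB hz hd ▸ AddSubgroup.card_le_of_le fun x hx => hx.1) (h3 _ (h1 i))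
  rw [Nat.card_eq_fintype_card, Fintype.card_coe, pow_succ' _ (d + 1), ← mul_assoc, mul_comm _ r,
    ← mul_assoc] at h4
  exact Nat.le_of_mul_le_mul_right h4 (by positivity)

variable {ψ : AddChar F ℂ} (hψ : ∀ a : F, a ≠ 0 → ∃ c, ψ (c * a) ≠ 1)
include hψ

omit hz in
theorem card_Az : Nat.card (Az hA ψ M z) * Nat.card (Yz hA M z) = Fintype.card F ^ (d + 2) := by
  have : Finite V := Module.finite_of_finite F
  rw [← hd, ← ML.card_V']
  refine card_ann ψ _ _ fun y _ hy => ?_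
  obtain ⟨v, hv, -⟩ := exists_partner hA hB (W := ⊥) (x := y) hy
  obtain ⟨c, hc⟩ := hψ 1 one_ne_zero
  exact ⟨-c • v, by simpa [bA, ← hA.neg_eq y v, hv] using hc⟩

omit [FiniteDimensional F V] [Fintype F] hB hz hd in
theorem perp_of_Az (h : ∀ c : F, c • u ∈ Az hA ψ M z) (hy : y ∈ Yz hA M z) : B u y = 0 := by
  by_contra hn
  obtain ⟨c, hc⟩ := hψ _ hn
  exact hc (by simpa [bA] using h c y hy)

theorem nonF {S : Finset Ω} (hS : ∀ g ∈ Cz B z, ∀ ω ∈ S, g • ω ∈ S) {ω : Ω} (hω : ω ∈ S)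
    (hF : ¬ Ful hA (stabilizer _ ω) z) {X : AddSubgroup V} (hX : Az hA ψ (stabilizer _ ω) z = X) :
    #(orb B z X) * Nat.card X ≤ #S * Nat.card (Rz hA (stabilizer _ ω) z) ∧
    (∀ c : F, c • z ∈ X) ∧ (∀ x ∈ X, B z x = 0) ∧ (¬ ∀ x ∈ X, x ∈ F ∙ z) ∧
    Fintype.card F ^ (d + 1) ≤ #(orb B z X) * Nat.card X := by
  have : Finite V := Module.finite_of_finite F
  have h1 := orbfam hA hB hz hd hS (fun ω => Az hA ψ (stabilizer _ ω) z)
    (fun g hg => Az_smul_C hA ψ hg) (fun g hg => Az_smul_E hA ψ hg) (fun _ : Unit => ω)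
    (fun _ => hω) (fun _ => hX) (fun _ _ _ _ _ => rfl) fun _ => le_rfl
  have h2 := card_Az hA hB hd hψ (M := stabilizer _ ω) (z := z)
  have h3 : ∀ c : F, c • z ∈ X := fun c => hX ▸ fun y hy => by simp [bA, hy.1]
  have h4 : ∀ x ∈ X, B z x = 0 := fun x hx => by
    by_contra hn
    obtain ⟨c, hc⟩ := hψ _ hn
    exact hc (by
      simpa [bA, ← hA.neg_eq z x] using (hX ▸ hx : x ∈ Az hA ψ _ z) _ (smul_mem_Yz hA (-c)))
  have h5 : ¬ ∀ x ∈ X, x ∈ F ∙ z := fun h => hF fun u hu => by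
    have h6 : Nat.card X ≤ Fintype.card F := by
      refine (AddSubgroup.card_le_of_le (K := (F ∙ z).toAddSubgroup) h).trans ?_
      change Nat.card (F ∙ z) ≤ _
      rw [ML.card_V' (F := F), finrank_span_singleton hz, pow_one]
    have h7 := AddSubgroup.eq_of_le_of_card_ge (H := Yz hA (stabilizer _ ω) z)
      (K := (LinearMap.ker (B z)).toAddSubgroup) (fun x hx => hx.1) (by
        rw [card_perp hB hz hd]
        refine Nat.le_of_mul_le_mul_left (c := Fintype.card F) ?_ Fintype.card_pos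
        rw [← pow_succ', ← h2, hX]
        exact Nat.mul_le_mul_right _ h6)
    exact (h7 ▸ hu : u ∈ Yz hA _ z).2
  refine ⟨Nat.le_of_mul_le_mul_right (c := Nat.card (Yz hA (stabilizer _ ω) z)) ?_ Nat.card_pos,
    h3, h4, h5, ?_⟩
  · rw [Nat.card_unique, mul_one, ← h2, hX] at h1
    linarith
  · have h6 := (cover_orb hA hB hz hd h3 h4 h5).1
    have h7 := Nat.mul_le_mul_right (Fintype.card F) (orb_pos (B := B) (z := z) X)
    omega

omit hz hd hB hψ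

namespace Sm

variable {S : Finset Ω} (hS : Sm B d S) {ω : Ω} (hω : ω ∈ S) (h2 : (2 : F) = 0)
include hS hω h2

include hz hψ in
theorem even_types (hq : 4 ≤ Fintype.card F) (hbad : ¬ Good hA (stabilizer _ ω) z)
    (hF : ¬ Ful hA (stabilizer _ ω) z) : Rz hA (stabilizer _ ω) z = ⊥ ∧
    (((∀ u ∈ Yz hA (stabilizer _ ω) z, u ∈ F ∙ z) ∧ ∀ g ∈ Isom B, ∀ t : F, t ≠ 0 → g z = t • z →
      ∃ e ∈ Ez hA z, e * g ∈ stabilizer (V ≃ₗ[F] V) ω) ∨
    ∃ y, y ∉ F ∙ z ∧ B z y = 0 ∧ (∀ u, u ∈ Yz hA (stabilizer _ ω) z ↔ B z u = 0 ∧ B y u = 0) ∧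
      ∀ g ∈ Cz B z, g y ∈ span F {z, y} → ∃ e ∈ Ez hA z, e * g ∈ stabilizer (V ≃ₗ[F] V) ω) := by
  have : Finite V := Module.finite_of_finite F
  have := H59.finite_linearEquiv (F := F) (V := V)
  have h3 := hS.small
  rw [good_iff] at hbad
  have hR : Rz hA (stabilizer _ ω) z = ⊥ := by
    by_contra h0
    obtain ⟨h4, -, -, -, h5⟩ := nonF hA hS.nd hz hS.dim hψ (hS.SR_cl hA _)
      ((mem_SR hA).2 ⟨hω, rfl⟩) hF rfl
    have h6 := tor hA hS.nd hz (fun g hg _ _ _ => hS.cl g hg) (Rz hA (stabilizer _ ω) z)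
    have h7 := (orbit_ineq hbad h0).trans (Nat.mul_le_mul_left _ (card_orbit_le' h2 _))
    refine h3.not_ge ?_
    calc _ = Fintype.card F * Fintype.card F ^ (d + 1) := pow_succ' _ _
      _ ≤ _ := Nat.mul_le_mul_left _ (h5.trans h4)
      _ = _ := by rw [mul_comm #_, ← mul_assoc]
      _ ≤ _ := Nat.mul_le_mul_right _ h7
      _ ≤ _ := by rw [mul_assoc]; exact Nat.mul_le_mul_left _ h6
  refine ⟨hR, ?_⟩
  obtain ⟨h4, h5, h6, h7, h8⟩ := nonF hA hS.nd hz hS.dim hψ (fun g hg => hS.cl g hg.1) hω hF rfl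
  rw [hR, AddSubgroup.card_bot, mul_one] at h4
  have h9 : #S < 2 * Fintype.card F ^ (d + 1) := by
    refine lt_of_mul_lt_mul_left (a := Fintype.card F - 1) (h3.trans_le ?_) (Nat.zero_le _)
    rw [pow_succ', ← mul_assoc]
    exact Nat.mul_le_mul_right _ (by omega)
  have h10 := (Nat.mul_le_mul_left _ h4).trans_lt h3
  have h11 : Fintype.card F ^ 2 ≤ Fintype.card F ^ d := Nat.pow_le_pow_right (by omega) hS.two
  have h12 := card_Az hA hS.nd hS.dim hψ (M := stabilizer _ ω) (z := z)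
  obtain ⟨h13, h14⟩ := cover_orb hA hS.nd hz hS.dim h5 h6 h7
  rw [pow_succ, pow_succ] at h10
  rw [pow_succ] at h13 h14
  rcases h14 with h14 | h14 | ⟨y, hy, hyz, h15, h14 | ⟨h14, h16⟩⟩
  · exact (num5 hq h11 (orb_pos _) h10 h14).elim
  · have hY : ∀ u ∈ Yz hA (stabilizer _ ω) z, u ∈ F ∙ z := fun u hu =>
      mem_of_perp hA hS.nd fun v hv => hA.isRefl _ _ (perp_of_Az hA hψ
        (fun c => h14 _ (by simp [hv z (mem_span_singleton_self z)])) hu)
    refine Or.inl ⟨hY, fun g hg t ht hgz => ?_⟩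
    have h17 : Ez hA z ⊓ stabilizer _ ω = ⊥ := (Subgroup.eq_bot_iff_forall _).2 <| by
      rintro _ ⟨⟨u, a, hu, rfl⟩, hm⟩
      obtain ⟨c, rfl⟩ := mem_span_singleton.1 (hY u ⟨hu, a, hm⟩)
      rw [← zero_add (c • z), ee_shift2 hA h2 (map_zero _)] at hm ⊢
      rw [show a = 0 from AddSubgroup.mem_bot.1 (hR ▸ hm), ee_zero]
    obtain ⟨e, he, h18⟩ := two_orbits (Ez hA z) S (fun e he => hS.cl e (Ez_le_Cz hA he).1)
      (h9.trans_le (Nat.mul_le_mul_left _ (card_Ez hA hS.nd hz hS.dim))) (hS.cl g hg ω hω) hω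
      ((Subgroup.eq_bot_iff_forall _).2 fun e he => by
        have h18 := (Subgroup.eq_bot_iff_forall _).1 h17 (g⁻¹ * e * g⁻¹⁻¹)
          ⟨conj_mem_Ez hA (Subgroup.inv_mem _ hg) (inv_apply_of_smul ht hgz) (inv_ne_zero ht) he.1,
            (MU.conj_mem_stab g _ _).1 (by simpa [mul_assoc] using he.2)⟩
        simpa [mul_assoc, inv_mul_eq_iff_eq_mul] using h18) h17
    exact ⟨e, he, by rw [mem_stabilizer_iff, mul_smul, h18]⟩
  · exact (num6 hq h11 h14 h10 h13).elim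
  have h17 : ∀ u, u ∈ Az hA ψ (stabilizer _ ω) z ↔ u ∈ span F {z, y} := fun u => ⟨h15 u, h16 u⟩
  have h18 : Nat.card (Yz hA (stabilizer _ ω) z) = Fintype.card F ^ d := by
    rw [h14, pow_add, mul_comm] at h12
    exact Nat.eq_of_mul_eq_mul_right (by positivity) h12
  refine Or.inr ⟨y, hyz, h6 y hy, fun u => ?_, fun g hg hgy => fact hA hS.nd hz hS.dim
    (fun g hg => hS.cl g hg.1) (fun ω => Az hA ψ (stabilizer _ ω) z) (fun g hg => Az_smul_C hA ψ hg)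
    (fun g hg => Az_smul_E hA ψ hg) hω hg (smul_eq_of_span hg hgy h17) ?_⟩
  · have h19 : ∀ u, u ∈ B.orthogonal (span F {z, y}) ↔ B z u = 0 ∧ B y u = 0 := fun u =>
      ⟨fun h => ⟨h z (subset_span (by simp)), h y (subset_span (by simp))⟩, fun h v hv => by
        obtain ⟨a, b, rfl⟩ := mem_span_pair.1 hv
        simp [h.1, h.2]⟩
    rw [AddSubgroup.eq_of_le_of_card_ge (H := Yz hA (stabilizer _ ω) z)
      (K := (B.orthogonal (span F {z, y})).toAddSubgroup) (fun x hx => (h19 x).2 ⟨hx.1,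
        perp_of_Az hA hψ (fun c => h16 _ (smul_mem _ _ (subset_span (by simp)))) hx⟩) (by
        change Nat.card (B.orthogonal _) ≤ _
        rw [h18, ML.card_V' (F := F), LinearMap.BilinForm.finrank_orthogonal hS.nd,
          ML.finrank_span_pair hz hyz, hS.dim, Nat.add_sub_cancel])]
    exact h19 u
  · rw [h18, hR, AddSubgroup.card_bot, mul_one]
    rw [h14] at h8
    calc _ < _ := Nat.mul_lt_mul_of_lt_of_le h9 le_rfl (by positivity)
      _ ≤ _ := Nat.mul_le_mul_right _ (Nat.mul_le_mul_left _ h8)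
      _ = _ := by ring

end Sm

end H26.MS
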