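import Cfsg.Agent.H26.MinS6
import Cfsg.Agent.H54.SpSimple

/-! Small actions of symplectic groups, part 7: fields with at least three elements. -/

namespace H26.MS

open H54 H26.MU Module Finset MulAction Submodule
open scoped Pointwise

theorem num7 {q x a b : ℕ} (hq : 4 ≤ q) (h1 : (q - 1) * x ≤ 2 * a) (h2 : x * q ≤ b) :
    ¬ (q - 1) * (a + b) < x * q * q := fun h3 => by
  obtain ⟨r, rfl⟩ := Nat.exists_eq_add_of_le hq
  rw [show 4 + r - 1 = 3 + r by omega] at h1 h3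
  nlinarith [Nat.mul_le_mul_left (3 + r) h1, Nat.mul_le_mul_left (3 + r) h2, Nat.zero_le (r * x),
    Nat.zero_le (r * r * x)]

theorem card_le_two {G : Type*} [Group G] (K : Subgroup G)
    (h : ∀ a ∈ K, ∀ b ∈ K, a ≠ 1 → b ≠ 1 → a = b) : Nat.card K ≤ 2 := by
  classical
  rw [← Fintype.card_bool, ← Nat.card_eq_fintype_card]
  refine Nat.card_le_card_of_injective (fun a => decide (a.1 = 1)) fun a b hab => Subtype.ext ?_
  simp only [decide_eq_decide] at hab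
  by_cases ha : a.1 = 1
  · rw [ha, hab.1 ha]
  · exact h _ a.2 _ b.2 ha (mt hab.2 ha)

variable {F V : Type*} [Field F] [AddCommGroup V] [Module F V] {B : LinearMap.BilinForm F V}
  (hA : B.IsAlt) {M : Subgroup (V ≃ₗ[F] V)} {z : V} {Ω : Type*} [MulAction (V ≃ₗ[F] V) Ω]
  [FiniteDimensional F V] [Fintype F] (hB : B.Nondegenerate) (h2 : (2 : F) = 0)
include hA hB h2

theorem stab_le_two {z' w : V} (h1 : B z z' = 1) (hw0 : w ≠ 0) (hw : B z w = 0) (hw' : B z' w = 0)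
    {ω : Ω} (hF : Ful hA (stabilizer _ ω) z) (hR : Rz hA (stabilizer _ ω) z ≠ ⊤)
    (hn : ¬ ∀ c : F, ee hA z (c • w) 0 ∈ stabilizer (V ≃ₗ[F] V) ω) :
    Nat.card ((Ez hA w ⊓ (stabilizer _ z ⊓ stabilizer _ z')) ⊓ stabilizer _ (Dz hA ω z) :
      Subgroup (V ≃ₗ[F] V)) ≤ 2 := by
  have hinv : ∀ g ∈ stabilizer (V ≃ₗ[F] V) (Dz hA ω z), ∀ x y, B z x = 0 → g x = x + y →
      ee hA z y (B x y) ∈ stabilizer (V ≃ₗ[F] V) ω := fun g hg x y hx hy => by
    obtain ⟨a, ha⟩ := hF x hx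
    have h3 : g • x ∈ (g • Dz hA ω z) a := Set.smul_mem_smul_set ⟨hx, ha⟩
    rw [hg, LinearEquiv.smul_def, hy] at h3
    have h4 := mem_neg hA (by simpa [hx] using h3.1) (mem_sub hA hx h3.1 ha h3.2)
    simpa [hA.self_eq_zero] using h4
  have hwz : w ∉ F ∙ z := fun hm => by
    obtain ⟨c, rfl⟩ := mem_span_singleton.1 hm
    simp [← hA.neg_eq z z', h1, left_ne_zero_of_smul hw0] at hw'
  have key : ∀ g ∈ ((Ez hA w ⊓ (stabilizer _ z ⊓ stabilizer _ z')) ⊓ stabilizer _ (Dz hA ω z) :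
      Subgroup (V ≃ₗ[F] V)), g ≠ 1 → ∃ a, a ≠ 0 ∧ g = ee hA w 0 a ∧
      ∀ c : F, ee hA z (c • w) (-(c ^ 2 / a)) ∈ stabilizer (V ≃ₗ[F] V) ω := by
    rintro _ ⟨⟨⟨u, a, hu, rfl⟩, h3, h4⟩, h5⟩ hne
    have h6 : ∀ x, B w x = 0 → ee hA w u a • x = x → B u x = 0 := fun x hx h => by
      rw [LinearEquiv.smul_def, ee_perp hA hu a hx] at h
      simpa [hw0] using h
    obtain ⟨p, r, rfl⟩ : ∃ p r : F, p • w + r • z = u := mem_span_pair.1 <| by
      by_contra hm
      obtain ⟨x, h7, h8⟩ := exists_partner hA hB hm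
      have h9 := h8 w (subset_span (by simp))
      refine hn fun c => ?_
      have := hinv _ h5 (c • x) (c • w) (by simp [h8 z (subset_span (by simp))])
        (by rw [ee_perp hA hu a (by simp [h9])]; simp [h7])
      simpa [hA.isRefl _ _ h9] using this
    have h7 := h6 z' (hA.isRefl _ _ hw') h4
    simp only [map_add, map_smul, LinearMap.add_apply, LinearMap.smul_apply, smul_eq_mul, h1,
      hA.isRefl _ _ hw', mul_zero, mul_one, zero_add] at h7
    rw [h7, zero_smul, add_comm, ee_shift2 hA h2 (map_zero _)] at h5 hne ⊢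
    have ha : a ≠ 0 := by rintro rfl; exact hne (ee_zero hA w)
    refine ⟨a, ha, rfl, fun c => ?_⟩
    obtain ⟨x, h8, h9⟩ := exists_partner hA hB hwz
    convert hinv _ h5 ((c / a) • x) (c • w) (by simp [h9 z (mem_span_singleton_self z)])
      (by rw [tv_apply]; simp [h8, mul_div_cancel₀ _ ha]) using 2
    simp [← hA.neg_eq w x, h8]; ring
  refine card_le_two _ fun g hg g' hg' hne hne' => ?_
  obtain ⟨a, ha, rfl, h3⟩ := key g hg hne
  obtain ⟨a', ha', rfl, h4⟩ := key g' hg' hne'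
  by_contra hne
  refine hR (eq_top_of_mul (c := a⁻¹ - a'⁻¹) (fun h => hne (by rw [inv_injective (sub_eq_zero.1 h)]))
    fun c => ?_)
  obtain ⟨t, rfl⟩ := exists_sq h2 c
  convert sub_mem_Rz hA (by simp [hw]) (h4 t) (h3 t) using 1
  ring

omit h2 in
theorem card_H {z z' w : V} (hwz : w ∉ span F {z, z'}) (hw : B z w = 0)
    (hw' : B z' w = 0) {d : ℕ} (hd : finrank F V = d + 2) : Fintype.card F ^ (d + 2) ≤
    Nat.card (Ez hA w ⊓ (stabilizer _ z ⊓ stabilizer _ z') : Subgroup (V ≃ₗ[F] V)) *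
      Fintype.card F ^ 3 := by
  have := H59.finite_linearEquiv (F := F) (V := V)
  have : Finite V := Module.finite_of_finite F
  have h1 := card_le_ker ((B w).prod ((B z).prod (B z')))
  rw [ML.card_V' (F := F), hd, Nat.card_prod, Nat.card_prod,
    Nat.card_eq_fintype_card (α := F)] at h1
  refine h1.trans (Nat.mul_le_mul ?_ (le_of_eq (by ring)))
  obtain ⟨w', h3, -⟩ := exists_partner hA hB hwz
  have h4 : ∀ u : LinearMap.ker ((B w).prod ((B z).prod (B z'))),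
      B w u = 0 ∧ B z u = 0 ∧ B z' u = 0 := fun u => by simpa using u.2
  refine Nat.card_le_card_of_injective (fun u => ⟨_, ⟨u.1, -B u.1 w', (h4 u).1, rfl⟩, ?_, ?_⟩)
    fun u u' h => ?_
  · change ee hA w _ _ z = z
    simp [ee_perp hA (h4 u).1 _ (hA.isRefl _ _ hw), hA.isRefl _ _ (h4 u).2.1]
  · change ee hA w _ _ z' = z'
    simp [ee_perp hA (h4 u).1 _ (hA.isRefl _ _ hw'), hA.isRefl _ _ (h4 u).2.2]
  · have h5 := congrArg (fun g : (Ez hA w ⊓ (stabilizer _ z ⊓ stabilizer _ z') :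
      Subgroup (V ≃ₗ[F] V)) => g.1 w') h
    simp only [ee_apply hA (h4 u).1, ee_apply hA (h4 u').1, h3] at h5
    exact Subtype.ext (by linear_combination (norm := module) h5)

open Classical in
theorem F_count (hz : z ≠ 0) {d : ℕ} (hd : finrank F V = d + 2) (hd2 : 2 ≤ d) {S : Finset Ω}
    (hS : ∀ g ∈ Isom B, ∀ ω ∈ S, g • ω ∈ S) {ω : Ω} (hω : ω ∈ S)
    (hbad : ¬ Good hA (stabilizer _ ω) z) (hF : Ful hA (stabilizer _ ω) z) :
    (Fintype.card F - 1) * Fintype.card F ^ d ≤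
      2 * #(S.filter fun ω => Ful hA (stabilizer _ ω) z) := by
  have := H59.finite_linearEquiv (F := F) (V := V)
  rw [good_iff] at hbad
  set S1 := S.filter fun ω => Ful hA (stabilizer _ ω) z
  have h1 : ∀ g ∈ Isom B, ∀ t : F, t ≠ 0 → g z = t • z → ∀ ω ∈ S1, g • ω ∈ S1 :=
    fun g hg t ht hgz ω hω => mem_filter.2 ⟨hS g hg ω (mem_filter.1 hω).1, by
      have h := ((ful_smul hA hg ω).2 (mem_filter.1 hω).2).smul hA (inv_ne_zero ht)
      rwa [hgz, inv_smul_smul₀ ht] at h⟩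
  have h3 := tor hA hB hz h1 (Rz hA (stabilizer _ ω) z)
  have h4 := (card_le_orbit _ hbad).trans (card_orbit_le' h2 _)
  have h5 : ∀ g ∈ Cz B z, ∀ η ∈ SR hA S1 z (Rz hA (stabilizer _ ω) z),
      g • η ∈ SR hA S1 z (Rz hA (stabilizer _ ω) z) := fun g hg η hη => by
    rw [mem_SR] at hη ⊢
    exact ⟨h1 g hg.1 1 one_ne_zero ((one_smul F z).symm ▸ hg.2) η hη.1, by rw [Rz_smul_C hA hg, hη.2]⟩
  have h6 := famD hA hB hz hd (fun g hg => h5 g (Ez_le_Cz hA hg)) (fun η => Dz hA η z)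
    (fun g hg => Dz_smul_E hA h2 hg) fun η hη => (congrArg (fun R : AddSubgroup F => Nat.card R)
      ((mem_SR hA).1 hη).2).le
  obtain ⟨z', h7, -⟩ := exists_partner hA hB (W := ⊥) (x := z) hz
  have hsp : ∀ w, w ≠ 0 → B z w = 0 → B z' w = 0 → w ∉ span F {z, z'} := fun w h0 h h' hm => by
    obtain ⟨a, b, rfl⟩ := mem_span_pair.1 hm
    simp only [map_add, map_smul, hA.self_eq_zero, h7, ← hA.neg_eq z z', smul_eq_mul] at h h'
    exact h0 (by rw [show a = 0 by simpa using h', show b = 0 by simpa using h]; simp)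
  obtain ⟨w, hw, hw', hn⟩ : ∃ w, B z w = 0 ∧ B z' w = 0 ∧
      ee hA z w 0 ∉ stabilizer (V ≃ₗ[F] V) ω := by
    by_contra hn
    push Not at hn
    obtain ⟨u, -, hu0, hu⟩ := H62.exists_mem_notMem_ker [B z, B z'] (W := ⊤) (Z := ⊥)
      (by rw [finrank_top, finrank_bot, hd]; simp; omega)
    have h8 := hu (B z) (by simp)
    have h9 := hu (B z') (by simp)
    obtain ⟨v, h10, h11⟩ := exists_partner hA hB (hsp u hu0 h8 h9)
    have h12 := h11 z (subset_span (by simp))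
    have h13 := h11 z' (subset_span (by simp))
    refine hbad ((AddSubgroup.eq_top_iff' _).2 fun c => ?_)
    simpa [h10] using sub_mem_Rz hA (by simp [h8, h12]) (mem_add hA h8 (by simp [h12]) (hn u h8 h9)
      (hn (c • v) (by simp [h12]) (by simp [h13]))) (hn _ (by simp [h8, h12]) (by simp [h9, h13]))
  have hw0 : w ≠ 0 := by rintro rfl; exact hn (ee_zero hA z ▸ Subgroup.one_mem _)
  have hwz : w ∉ F ∙ z := fun hm => hsp w hw0 hw hw' (span_mono (by simp) hm)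
  choose g hg1 hg2 using fun t : Fˣ => exists_Cz hA hB hwz
    (mt ((F ∙ z).smul_mem_iff t.ne_zero).1 hwz) (by simp [hw])
  have h8 : ∀ (t : Fˣ) (c a : F), ee hA z ((c * t) • w) a ∈ stabilizer (V ≃ₗ[F] V) (g t • ω) ↔
      ee hA z (c • w) a ∈ stabilizer (V ≃ₗ[F] V) ω := fun t c a => by
    rw [← ee_mem_smul hA (hg1 t).1 ω, show g t z = z from (hg1 t).2, map_smul, hg2, smul_smul]
  have hωS : ω ∈ SR hA S1 z (Rz hA (stabilizer _ ω) z) := (mem_SR hA).2 ⟨mem_filter.2 ⟨hω, hF⟩, rfl⟩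
  have h9 := card_family (Ez hA w ⊓ (stabilizer _ z ⊓ stabilizer _ z'))
    ((SR hA S1 z (Rz hA (stabilizer _ ω) z)).image fun η => Dz hA η z) (fun e he X hX => by
      obtain ⟨η, hη, rfl⟩ := mem_image.1 hX
      have h9 : e ∈ Cz B z := ⟨(Ez_le_Cz hA he.1).1, he.2.1⟩
      exact mem_image.2 ⟨_, h5 e h9 η hη, Dz_smul hA h9 η⟩) (fun t : Fˣ => Dz hA (g t • ω) z)
    (fun t => mem_image_of_mem _ (h5 _ (hg1 t) ω hωS)) (fun t t' e he h => by
      by_contra hne
      have h9 : (t' : F) - t ≠ 0 := sub_ne_zero.2 fun h => hne (Units.ext h.symm)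
      obtain ⟨a, ha⟩ := hF ((t' / (t' - t) : F) • w) (by simp [hw])
      have h10 : e • (t' / (t' - t) * t : F) • w ∈ (e • Dz hA (g t • ω) z) a :=
        Set.smul_mem_smul_set ⟨by simp [hw], (h8 t _ a).2 ha⟩
      rw [h, LinearEquiv.smul_def, map_smul, show e w = w from (Ez_le_Cz hA he.1).2,
        show (t' / (t' - t) * t : F) = t / (t' - t) * t' by ring] at h10
      have h11 := mem_sub hA (by simp [hw]) (by simp [hw]) ha ((h8 t' _ a).1 h10.2)
      rw [← sub_smul, ← sub_div, div_self h9, one_smul] at h11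
      exact hn (by simpa [hA.self_eq_zero] using h11)) 2 fun t => by
    have h9 := (mem_SR hA).1 (h5 _ (hg1 t) ω hωS)
    exact stab_le_two hA hB h2 h7 hw0 hw hw' (mem_filter.1 h9.1).2 (h9.2 ▸ hbad) fun h =>
      hn (by simpa using (h8 t 1 0).1 (h _))
  have h10 := card_H hA hB (hsp w hw0 hw hw') hw hw' hd
  rw [Nat.card_eq_fintype_card, Fintype.card_units] at h9
  refine Nat.le_of_mul_le_mul_right (c := Fintype.card F ^ 2) ?_ (by positivity)
  calc _ = (Fintype.card F - 1) * Fintype.card F ^ (d + 2) := by ring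
    _ ≤ _ := Nat.mul_le_mul_left _ h10
    _ = _ := (mul_assoc _ _ _).symm
    _ ≤ _ := Nat.mul_le_mul_right _ h9
    _ = 2 * (_ * Fintype.card F) * Fintype.card F ^ 2 := by ring
    _ ≤ _ := Nat.mul_le_mul_right _ (Nat.mul_le_mul_left _ (h6.trans
      (((Nat.mul_le_mul_left _ h4).trans_eq (mul_comm _ _)).trans h3)))

omit hB h2

namespace Sm

variable {d : ℕ} {S : Finset Ω} (hS : Sm B d S) {ω : Ω} (hω : ω ∈ S)
  (hM : ¬ Isom B ≤ stabilizer (V ≃ₗ[F] V) ω)
include hS hω hM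

theorem final (hq : 3 ≤ Fintype.card F) (hex : ¬ (d = 2 ∧ Fintype.card F = 3)) :
    (∃ v, v ≠ 0 ∧ ∀ g ∈ Isom B, g ∈ stabilizer (V ≃ₗ[F] V) ω → ∃ a : F, g v = a • v) ∨
    (finrank F V = 4 ∧ ∃ y w, y ≠ 0 ∧ w ∉ F ∙ y ∧ B y w = 0 ∧ ∀ g ∈ Isom B,
      g ∈ stabilizer (V ≃ₗ[F] V) ω → g y ∈ span F {y, w} ∧ g w ∈ span F {y, w}) := by
  classical
  have hd := hS.dim
  have hd2 := hS.two
  have h0 : ∀ {z}, ¬ Good hA (stabilizer (V ≃ₗ[F] V) ω) z → z ≠ 0 := fun h => by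
    rintro rfl; exact h (good_zero hA)
  have h3 : Fintype.card F = 3 → (3 : F) = 0 := fun h => by
    simpa [h] using FiniteField.cast_card_eq_zero F
  have hsh : ∀ {z y : V} (s : F), y ∉ F ∙ z → y + s • z ≠ 0 := fun {z y} s h hm =>
    h (mem_span_singleton.2 ⟨-s, by linear_combination (norm := module) -hm⟩)
  have hsp : ∀ {z y u : V} (s : F), u ∈ span F {z, y} → u ∈ span F {z, y + s • z} :=
    fun {z y u} s h => by
      obtain ⟨a, b, rfl⟩ := mem_span_pair.1 h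
      exact mem_span_pair.2 ⟨a - b * s, b, by module⟩
  refine endgame hA hS.nd (by omega) hM fun z hz => ?_
  by_cases h2 : (2 : F) = 0
  swap
  · rcases hS.odd_types hA hω (h0 hz) h2 hz with ⟨h4, h5⟩ | ⟨h4, y, h5, h6, h7, h8⟩
    · refine Or.inl ⟨h4, fun y => good_of_zero hA hS.nd h2 (h0 hz) ?_ h4 h5⟩
      by_cases h : Fintype.card F = 3
      · exact Or.inr ⟨h3 h, by omega⟩
      · exact Or.inl (exists_sq_ne_one (by omega))
    · obtain ⟨l, hl0, hl⟩ := exists_sq_ne_one (F := F) (by omega)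
      obtain ⟨s, h9, h10⟩ := good_of_line hA hS.nd h2 (h0 hz) hl0 hl hz h5 h6 h7 h8
      exact Or.inr ⟨by omega, _, h9, by simp [h6, hA.self_eq_zero], hsh s h5,
        fun u hu => hsp s ((h7 u).1 hu), h10⟩
  have hq4 : 4 ≤ Fintype.card F := by
    by_contra h
    exact one_ne_zero (α := F) (by linear_combination h3 (by omega) - h2)
  obtain ⟨l, hl0, hl⟩ := exists_sq_ne_one hq4
  have hl1 : l ≠ 1 := by rintro rfl; simp at hl
  obtain ⟨ψ, hψ⟩ := exists_addChar F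
  have hF : ∀ x, ¬ Good hA (stabilizer (V ≃ₗ[F] V) ω) x → ¬ Ful hA (stabilizer (V ≃ₗ[F] V) ω) x := by
    by_contra hn
    push Not at hn
    obtain ⟨x, hx, hxF⟩ := hn
    refine hz (good_of_ful hA hS.nd h2 hl0 hl1 (by omega) (fun y hy => ?_) z)
    by_contra hyF
    obtain ⟨g, hg, rfl⟩ := exists_map hA hS.nd (h0 hy) (h0 hx)
    have h4 := F_count hA hS.nd h2 (h0 hx) hd hd2 hS.cl hω hx hxF
    rw [← good_smul hA hg] at hy
    rw [← ful_smul hA hg] at hyF
    obtain ⟨h5, -, -, -, h6⟩ := nonF hA hS.nd (h0 hx) hd hψ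
      (S := S.filter fun η => ¬ Ful hA (stabilizer _ η) (g y)) (fun k hk η hη => by
        rw [mem_filter] at hη ⊢
        exact ⟨hS.cl k hk.1 η hη.1, by
          rw [← ful_smul hA hk.1, show k (g y) = g y from hk.2] at hη; exact hη.2⟩)
      (mem_filter.2 ⟨hS.cl g hg ω hω, hyF⟩) hyF rfl
    rw [(hS.even_types hA (h0 hx) hψ (hS.cl g hg ω hω) h2 hq4 hy hyF).1, AddSubgroup.card_bot,
      mul_one] at h5
    have h7 := hS.small
    rw [← card_filter_add_card_filter_not (fun η => Ful hA (stabilizer _ η) (g y))] at h7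
    rw [pow_succ, pow_succ] at h7
    rw [pow_succ] at h6
    exact num7 hq4 h4 (h6.trans h5) h7
  have hN : ∀ x, ¬ Good hA (stabilizer (V ≃ₗ[F] V) ω) x → Nil hA (stabilizer (V ≃ₗ[F] V) ω) x :=
    fun x hx u a hu ha => by
      obtain ⟨h4, ⟨h5, -⟩ | ⟨y, -, h6, h7, h8⟩⟩ := hS.even_types hA (h0 hx) hψ hω h2 hq4 hx (hF x hx)
      · obtain ⟨c, rfl⟩ := mem_span_singleton.1 (h5 u ⟨hu, a, ha⟩)
        rw [← zero_add (c • x), ee_shift2 hA h2 (map_zero _)] at ha
        exact AddSubgroup.mem_bot.1 (h4 ▸ ha)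
      · simpa [h4] using sub_mem_Rz hA hu ha
          ((line_mem hA hS.nd h2 hl0 hl1 h4 h6 h7 h8).1 u ⟨hu, a, ha⟩)
  obtain ⟨h4, ⟨h5, h6⟩ | ⟨y, h5, h6, h7, h8⟩⟩ := hS.even_types hA (h0 hz) hψ hω h2 hq4 hz (hF z hz)
  · refine Or.inl ⟨h5, fun y hy => ?_⟩
    by_cases hyz : y ∈ F ∙ z
    · obtain ⟨c, rfl⟩ := mem_span_singleton.1 hyz
      exact ⟨-c, by simp [good_zero]⟩
    obtain ⟨b, a, h⟩ := reg_mem hA hS.nd h2 hl0 hl1 (h0 hz) h5 h6 hyz hy
    exact good_of_mem hA h2 hN hy h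
  · obtain ⟨h9, h10, b, a, h⟩ := line_mem hA hS.nd h2 hl0 hl1 h4 h6 h7 h8
    obtain ⟨s, hs⟩ := good_of_mem hA h2 hN h6 h
    refine Or.inr ⟨?_, _, hs, by simp [h6, hA.self_eq_zero], hsh s h5, fun u hu => hsp s (h10 u hu),
      fun b => h9 _ ((h7 _).2 (by simp [h6, hA.self_eq_zero, hA.isRefl _ _ h6]))⟩
    by_contra h11
    obtain ⟨u, -, hu0, hu⟩ := H62.exists_mem_notMem_ker [B z, B y] (W := ⊤) (Z := span F {z, y})
      (by rw [finrank_top, ML.finrank_span_pair (h0 hz) h5]; simp; omega)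
    exact hu0 (h10 u ((h7 u).2 ⟨hu _ (by simp), hu _ (by simp)⟩))

end Sm

theorem min_relIndex (hB : B.Nondegenerate) {d T : ℕ} (hd : finrank F V = d + 2) (h2 : 2 ≤ d)
    (hT : (Fintype.card F - 1) * T + 1 = Fintype.card F ^ (d + 2)) (hq : 3 ≤ Fintype.card F)
    (hex : ¬ (d = 2 ∧ Fintype.card F = 3)) (M : Subgroup (V ≃ₗ[F] V)) (hM : ¬ Isom B ≤ M) :
    T ≤ M.relIndex (Isom B) := by
  have := H59.finite_linearEquiv (F := F) (V := V)
  have : Finite V := Module.finite_of_finite F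
  refine le_relIndex_of_forall _ _ fun Ω _ S ω hω hωS hcl _ hc => ?_
  by_contra hlt
  have hS : Sm B d S := ⟨hB, hd, h2, hcl, by
    have := Nat.mul_le_mul_left (Fintype.card F - 1) (not_le.1 hlt).le
    omega⟩
  refine hlt (Nat.le_of_mul_le_mul_left (c := Fintype.card F - 1) ?_ (by omega))
  subst hω
  rcases hS.final hA hωS hM hq hex with ⟨v, hv, h⟩ | ⟨h4, y, w, h5, h6, h7, h⟩
  · have h3 := relIndex_Pst (Isom B) hv fun w hw => exists_map hA hB hv hw
    rw [ML.card_V' (F := F), hd, ← hT, Nat.add_right_cancel_iff] at h3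
    rw [← h3, hc, ← Subgroup.inf_relIndex_right (stabilizer _ ω)]
    refine Nat.mul_le_mul_left _ (Subgroup.relIndex_le_of_le_left (fun g hg => ?_)
      Subgroup.FiniteIndex.index_ne_zero)
    obtain ⟨a, ha⟩ := h g hg.2 hg.1
    exact ⟨a, by rintro rfl; exact hv (g.injective (by simpa using ha)), ha⟩
  · have h3 := line_count hA hB h4 h5 h6 h7 h
    rw [← h4, hd, ← hT] at h3
    rwa [hc]

omit hA [AddCommGroup V] [Module F V] [FiniteDimensional F V] [Fintype F] in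
/-- Transfer to `Cfsg.PSp`. -/
theorem min_index_PSp {m b : ℕ}
    (hmin : ∀ M, ¬ Isom (spB (Fin m) F) ≤ M → b ≤ M.relIndex (Isom (spB (Fin m) F)))
    {P : Subgroup ((Fin m ⊕ Fin m → F) ≃ₗ[F] (Fin m ⊕ Fin m → F))}
    (hP : ∀ g, (∀ v, g v ∈ F ∙ v) → g ∈ P) (hz : P.relIndex (Isom (spB (Fin m) F)) = b) :
    (∀ H : Subgroup (Cfsg.PSp m F), H ≠ ⊤ → b ≤ H.index) ∧
      ∃ H : Subgroup (Cfsg.PSp m F), H.index = b := by
  have h : ((Isom (spB (Fin m) F)).subtype.comp (spEquivIsom (Fin m) F).toMonoidHom).range =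
      Isom (spB (Fin m) F) := by
    rw [MonoidHom.range_comp, MonoidHom.range_eq_top_of_surjective _ (MulEquiv.surjective _),
      ← MonoidHom.range_eq_map, Subgroup.range_subtype]
  exact min_index_quot _ (Subtype.val_injective.comp (spEquivIsom (Fin m) F).injective)
    (h.symm ▸ hmin) (fun g hg => hP _ (mem_center_sp_iff_forall_mem_span.1 hg)) (h.symm ▸ hz)

omit hA [AddCommGroup V] [Module F V] [FiniteDimensional F V] in
theorem min_PSp {m : ℕ} (hm : 2 ≤ m) (hq : 3 ≤ Fintype.card F)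
    (hex : ¬ (m = 2 ∧ Fintype.card F = 3)) :
    (∀ H : Subgroup (Cfsg.PSp m F), H ≠ ⊤ →
      (Fintype.card F ^ (2 * m) - 1) / (Fintype.card F - 1) ≤ H.index) ∧
    ∃ H : Subgroup (Cfsg.PSp m F),
      H.index = (Fintype.card F ^ (2 * m) - 1) / (Fintype.card F - 1) := by
  have hd : finrank F (Fin m ⊕ Fin m → F) = 2 * m - 2 + 2 := by simp; omega
  have hz : (fun _ => 1 : Fin m ⊕ Fin m → F) ≠ 0 := fun h =>
    one_ne_zero (congrFun h (Sum.inl ⟨0, by omega⟩))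
  have h1 := relIndex_Pst (Isom (spB (Fin m) F)) hz fun w hw =>
    exists_map spB_isAlt spB_nondegenerate hz hw
  rw [ML.card_V' (F := F), hd] at h1
  rw [show (Fintype.card F ^ (2 * m) - 1) / (Fintype.card F - 1) = _ from
    Nat.div_eq_of_eq_mul_right (by omega) (Nat.sub_eq_of_eq_add (by
      rw [h1]; congr 1; omega))]
  refine min_index_PSp (min_relIndex spB_isAlt spB_nondegenerate hd (by omega) h1 hq (by omega))
    (fun g hg => ?_) rfl
  obtain ⟨a, ha⟩ := mem_span_singleton.1 (hg fun _ => 1)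
  exact ⟨a, by rintro rfl; exact hz (g.injective (by simpa using ha.symm)), ha.symm⟩

end H26.MS
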