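import Cfsg.Agent.H26.MinS7

/-! Small actions of symplectic groups, part 8: the field with two elements. -/

namespace H26.MS

open H54 H26.MU Module Finset MulAction Submodule
open scoped Pointwise

variable {F : Type*} [Field F] [Fintype F] (hq : Fintype.card F = 2)

open Classical in
/-- The sign of an element of the field with two elements. -/
noncomputable def sg (a : F) : ℤ := if a = 0 then 1 else -1

include hq

theorem zero_or_one (a : F) : a = 0 ∨ a = 1 := by
  have h := FiniteField.pow_card a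
  rw [hq] at h
  exact (mul_eq_zero.1 (by linear_combination h : a * (a - 1) = 0)).imp_right sub_eq_zero.1

theorem two_eq : (2 : F) = 0 := by simpa [hq] using FiniteField.cast_card_eq_zero F

theorem sg_add (a b : F) : sg (a + b) = sg a * sg b := by
  rcases zero_or_one hq a with rfl | rfl <;> rcases zero_or_one hq b with rfl | rfl <;>
    simp [sg, one_add_one_eq_two, two_eq hq]

section sum

variable {A : Type*} [AddCommGroup A] [Fintype A]

open Classical in
theorem sign_sum {θ : A → F} {b : A → A → F} (hθ : ∀ x y, θ (x + y) = θ x + θ y + b x y)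
    (hb : ∀ x x' y, b (x + x') y = b x y + b x' y) : (∑ x, sg (θ x)) ^ 2 =
      Fintype.card A * ∑ y ∈ univ.filter fun y => ∀ x, b x y = 0, sg (θ y) := by
  have h1 : ∀ a : F, sg a * sg a = 1 := fun a => by unfold sg; split_ifs <;> rfl
  rw [sq, sum_mul, sum_filter, mul_sum]
  calc _ = ∑ x, ∑ y, sg (θ y) * sg (b x y) := sum_congr rfl fun x _ => by
        rw [← Equiv.sum_comp (Equiv.addLeft x), mul_sum]
        refine sum_congr rfl fun y _ => ?_
        rw [Equiv.coe_addLeft, hθ, sg_add hq, sg_add hq, ← mul_assoc, ← mul_assoc, h1, one_mul]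
    _ = _ := by
      rw [sum_comm]
      refine sum_congr rfl fun y _ => ?_
      rw [← mul_sum]
      split_ifs with h
      · simp [h, sg, mul_comm]
      · push Not at h
        obtain ⟨x, hx⟩ := h
        have h2 := Equiv.sum_comp (Equiv.addLeft x) fun x => sg (b x y)
        simp only [Equiv.coe_addLeft, hb, sg_add hq, ← mul_sum] at h2
        rw [sg, if_neg hx] at h2
        rw [show ∑ x, sg (b x y) = 0 by omega]
        simp

omit hq [AddCommGroup A] [Fintype F] in
open Classical in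
theorem card_zero (θ : A → F) :
    2 * (#(univ.filter fun x => θ x = 0) : ℤ) = Fintype.card A + ∑ x, sg (θ x) := by
  simp only [sg, sum_ite, sum_const, ← card_univ,
    ← card_filter_add_card_filter_not (s := univ) fun x => θ x = 0]
  push_cast
  ring

end sum

variable {V : Type*} [AddCommGroup V] [Module F V] {B : LinearMap.BilinForm F V}
  (hA : B.IsAlt) {z : V} [FiniteDimensional F V] (hB : B.Nondegenerate)
include hA

omit [FiniteDimensional F V] in
theorem theta_tv {P : V → Prop} {θ : V → F} (hθ : ∀ x y, P x → P y → θ (x + y) = θ x + θ y + B x y)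
    {w x : V} (hw : P w) (hx : P x) (h0 : θ w = 0) : θ (ee hA w 0 1 x) = θ x + B w x := by
  rw [tv_apply]
  rcases zero_or_one hq (B w x) with h | h
  · simp [h]
  · rw [h, mul_one, one_smul, hθ x w hx hw, h0, ← hA.neg_eq, h]
    linear_combination -two_eq hq

include hB

open Classical in
theorem F_count2 {Ω : Type*} [MulAction (V ≃ₗ[F] V) Ω] (hz : z ≠ 0) {d D : ℕ}
    (hd : finrank F V = d + 2) (hD : D ^ 2 = 2 ^ d) {S : Finset Ω}
    (hS : ∀ g ∈ Isom B, ∀ ω ∈ S, g • ω ∈ S) {ω : Ω} (hω : ω ∈ S)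
    (hR : Rz hA (stabilizer _ ω) z = ⊥) (hF : Ful hA (stabilizer _ ω) z) :
    D ^ 2 ≤ #(S.filter fun ω => Ful hA (stabilizer _ ω) z) + D := by
  have : Finite V := Module.finite_of_finite F
  let _ := Fintype.ofFinite (LinearMap.ker (B z))
  have h2 := two_eq hq
  set S1 := S.filter fun ω => Ful hA (stabilizer _ ω) z
  have h5 : ∀ g ∈ Cz B z, ∀ η ∈ SR hA S1 z ⊥, g • η ∈ SR hA S1 z ⊥ := fun g hg η hη => by
    rw [mem_SR, mem_filter] at hη ⊢
    refine ⟨⟨hS g hg.1 η hη.1.1, ?_⟩, by rw [Rz_smul_C hA hg, hη.2]⟩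
    rw [← ful_smul hA hg.1, show g z = z from hg.2] at hη
    exact hη.1.2
  have h6 := famD hA hB hz hd (fun g hg => h5 g (Ez_le_Cz hA hg)) (fun η => Dz hA η z)
    (fun g hg => Dz_smul_E hA h2 hg) (r := 1) fun η hη => by
      rw [((mem_SR hA).1 hη).2, AddSubgroup.card_bot]
  choose! θ hθ using hF
  have h7 : ∀ x a, B z x = 0 → ee hA z x a ∈ stabilizer (V ≃ₗ[F] V) ω → a = θ x := fun x a hx h =>
    sub_eq_zero.1 (AddSubgroup.mem_bot.1 (hR ▸ sub_mem_Rz hA hx h (hθ x hx)))
  have h8 : ∀ x y, B z x = 0 → B z y = 0 → θ (x + y) = θ x + θ y + B x y := fun x y hx hy =>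
    (h7 _ _ (by simp [hx, hy]) (mem_add hA hx hy (hθ x hx) (hθ y hy))).symm
  have hc : ∀ w, B z w = 0 → ee hA w 0 1 ∈ Cz B z := fun w hw => ⟨ee_mem hA _ _ _, by
    change ee hA w 0 1 z = z
    simp [tv_apply, hA.isRefl _ _ hw]⟩
  have h9 : ∀ w x a, B z w = 0 → B z x = 0 → θ w = 0 →
      (x ∈ Dz hA (ee hA w 0 1 • ω) z a ↔ a = θ x + B w x) := fun w x a hw hx h0 => by
    have h9 : B z (ee hA w 0 1 x) = 0 := by simp [tv_apply, hw, hx]
    have h10 : ee hA w 0 1 (ee hA w 0 1 x) = x := by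
      rw [← LinearEquiv.mul_apply, ee_mul hA (map_zero _) (map_zero _), one_add_one_eq_two, h2]
      simp [ee_zero]
    rw [← theta_tv hq hA h8 hw hx h0, Dz_smul hA (hc w hw), Pi.smul_apply]
    nth_rewrite 1 [← h10]
    rw [← LinearEquiv.smul_def, Set.smul_mem_smul_set_iff]
    exact ⟨fun h => h7 _ _ h9 h.2, fun h => ⟨h9, h ▸ hθ _ h9⟩⟩
  have hzz : ∀ x ∈ F ∙ z, x = 0 ∨ x = z := fun x hx => by
    obtain ⟨c, rfl⟩ := mem_span_singleton.1 hx
    rcases zero_or_one hq c with rfl | rfl <;> simp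
  have h10 := card_le_mul_card_image_of_maps_to
    (s := univ.filter fun w : LinearMap.ker (B z) => θ w = 0)
    (t := (SR hA S1 z ⊥).image fun η => Dz hA η z) (f := fun w => Dz hA (ee hA w.1 0 1 • ω) z)
    (fun w _ => mem_image_of_mem _ (h5 _ (hc w w.2) ω ((mem_SR hA).2
      ⟨mem_filter.2 ⟨hω, fun u hu => ⟨_, hθ u hu⟩⟩, hR⟩))) 2 fun X _ => by
      rcases (filter (fun w : LinearMap.ker (B z) => Dz hA (ee hA w.1 0 1 • ω) z = X)
        (univ.filter fun w : LinearMap.ker (B z) => θ w = 0)).eq_empty_or_nonempty with h | ⟨w, hw⟩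
      · simp [h]
      refine (card_le_card (t := {w, w + ⟨z, hA.self_eq_zero z⟩}) fun w' hw' => ?_).trans
        Finset.card_le_two
      simp only [mem_filter, mem_univ, true_and] at hw hw'
      have h11 := hzz (w'.1 - w.1) (mem_of_perp hA hB fun x hx => by
        have hx' := hx z (mem_span_singleton_self z)
        have h12 := (h9 w x _ w.2 hx' hw.1).2 rfl
        rw [hw.2, ← hw'.2, h9 w' x _ w'.2 hx' hw'.1] at h12
        simpa [sub_eq_zero] using h12.symm)
      rw [mem_insert, mem_singleton, Subtype.ext_iff, Subtype.ext_iff]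
      exact h11.imp sub_eq_zero.1 fun h => sub_eq_iff_eq_add'.1 h
  have h11 := sign_sum hq (θ := fun w : LinearMap.ker (B z) => θ w) (b := fun x y => B x y)
    (fun x y => h8 _ _ x.2 y.2) fun x x' y => by simp
  have h12 := card_zero fun w : LinearMap.ker (B z) => θ w
  have h13 : Fintype.card (LinearMap.ker (B z)) = 2 * D ^ 2 := by
    rw [← Nat.card_eq_fintype_card, hD, ← pow_succ', ← hq]; exact card_perp hB hz hd
  have h14 : ∀ c : F, θ (c • z) = 0 := fun c => (h7 _ _ (by simp [hA.self_eq_zero]) (by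
    rw [← zero_add (c • z), ee_shift2 hA h2 (map_zero _), ee_zero]; exact Subgroup.one_mem _)).symm
  rw [show (univ.filter fun y : LinearMap.ker (B z) => ∀ x : LinearMap.ker (B z), B x y = 0) =
      {0, ⟨z, hA.self_eq_zero z⟩} from by
    ext y
    simp only [mem_filter, mem_univ, true_and, mem_insert, mem_singleton, Subtype.ext_iff,
      Submodule.coe_zero]
    exact ⟨fun h => hzz _ (mem_of_perp hA hB fun x hx => hA.isRefl _ _
      (h ⟨x, hx z (mem_span_singleton_self z)⟩)), fun h x => by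
        rcases h with h | h <;> simp [h, hA.isRefl _ _ x.2]⟩,
    sum_pair (fun h => hz (congrArg Subtype.val h).symm), h13] at h11
  have h15 := h14 0
  have h16 := h14 1
  rw [zero_smul] at h15
  rw [one_smul] at h16
  rw [Submodule.coe_zero, h15, h16, sg, if_pos rfl] at h11
  have h17 := card_filter_le S1 fun ω => Rz hA (stabilizer _ ω) z = ⊥
  change #(SR hA S1 z ⊥) ≤ _ at h17
  rw [h13] at h12
  rw [hq] at h6
  have h18 := (abs_le_of_sq_le_sq' (b := 2 * (D : ℤ)) (h11.trans_le (by push_cast; linarith))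
    (by positivity)).1
  push_cast at h12
  zify at h6 h10 h17 ⊢
  linarith

theorem min_relIndex2 {d D : ℕ} (hd : finrank F V = d + 2) (h3 : 3 ≤ d) (hD : D ^ 2 = 2 ^ d)
    {b : ℕ} (hb : b + D = 2 * D ^ 2) (M : Subgroup (V ≃ₗ[F] V)) (hM : ¬ Isom B ≤ M) :
    b ≤ M.relIndex (Isom B) := by
  classical
  have := H59.finite_linearEquiv (F := F) (V := V)
  refine le_relIndex_of_forall _ _ fun Ω _ S ω hω hωS hcl _ _ => ?_
  by_contra hlt
  subst hω
  have h2 := two_eq hq
  obtain ⟨ψ, hψ⟩ := exists_addChar F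
  obtain ⟨x, hx⟩ := exists_bad hA hB hM
  have hx0 : x ≠ 0 := by rintro rfl; exact hx (good_zero hA)
  have hR : Rz hA (stabilizer (V ≃ₗ[F] V) ω) x = ⊥ := (AddSubgroup.eq_bot_iff_forall _).2 fun a ha =>
    (zero_or_one hq a).resolve_right fun h => hx fun c => by
      rcases zero_or_one hq c with rfl | rfl
      · exact ee_zero hA x ▸ Subgroup.one_mem _
      · exact h ▸ ha
  have hF : Ful hA (stabilizer (V ≃ₗ[F] V) ω) x := by
    by_contra hF
    obtain ⟨h4, -, -, -, h5⟩ := nonF hA hB hx0 hd hψ (fun g hg => hcl g hg.1) hωS hF rfl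
    rw [hR, AddSubgroup.card_bot] at h4
    rw [hq, pow_succ] at h5
    omega
  have h4 := F_count2 hq hA hB hx0 hd hD hcl hωS hR hF
  have hall : ∀ y, y ≠ 0 → Ful hA (stabilizer (V ≃ₗ[F] V) ω) y := fun y hy => by
    by_contra hyF
    obtain ⟨g, hg, rfl⟩ := exists_map hA hB hy hx0
    rw [← ful_smul hA hg] at hyF
    obtain ⟨h5, -, -, -, h6⟩ := nonF hA hB hx0 hd hψ
      (S := S.filter fun η => ¬ Ful hA (stabilizer _ η) (g y)) (fun k hk η hη => by
        rw [mem_filter] at hη ⊢
        exact ⟨hcl k hk.1 η hη.1, by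
          rw [← ful_smul hA hk.1, show k (g y) = g y from hk.2] at hη; exact hη.2⟩)
      (mem_filter.2 ⟨hcl g hg ω hωS, hyF⟩) hyF rfl
    have h7 := (h6.trans h5).trans (Nat.mul_le_mul_left _ (AddSubgroup.card_le_card_addGroup _))
    rw [Nat.card_eq_fintype_card, hq, pow_succ] at h7
    have := card_filter_add_card_filter_not (s := S) fun η => Ful hA (stabilizer _ η) (g y)
    omega
  have key : ∀ a, B x a = 0 → ee hA x a 0 ∈ stabilizer (V ≃ₗ[F] V) ω := fun a ha => by
    by_cases hax : a ∈ F ∙ x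
    · obtain ⟨c, rfl⟩ := mem_span_singleton.1 hax
      rw [← zero_add (c • x), ee_shift2 hA h2 (map_zero _), ee_zero]
      exact Subgroup.one_mem _
    obtain ⟨y, -, hy0, hy⟩ := H62.exists_mem_notMem_ker [B x, B a] (W := ⊤) (Z := span F {x, a})
      (by rw [finrank_top, ML.finrank_span_pair hx0 hax]; simp; omega)
    have h5 := hy (B x) (by simp)
    have h6 := hy (B a) (by simp)
    obtain ⟨w, h7, h8⟩ := exists_partner hA hB hy0
    have h9 := h8 x (subset_span (by simp))
    obtain ⟨β, hβ⟩ := hF w h9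
    obtain ⟨γ, hγ⟩ := hall a (by rintro rfl; exact hax (zero_mem _)) y h6
    have h10 := mem_conj hA (ee_mem hA x w β) hβ hγ
    rw [ee_perp hA h9 β ha, ee_perp hA h9 β h5, hA.isRefl _ _ (h8 a (subset_span (by simp))),
      zero_smul, add_zero, ← hA.neg_eq, h7] at h10
    have h11 := mem_sub hA h6 (by simp [h6, hA.isRefl _ _ ha]) hγ h10
    rw [ee_swap hA ha]
    simpa [hA.self_eq_zero, hA.isRefl _ _ h5] using h11
  obtain ⟨u, v, h5, h6, h7⟩ := exists_pair hA hB (by omega) hx0
  simpa [hR, h7] using sub_mem_Rz hA (by simp [h5, h6]) (mem_add hA h5 h6 (key u h5) (key v h6))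
    (key _ (by simp [h5, h6]))

theorem exists_index {θ : V → F} (hθ : ∀ x y, θ (x + y) = θ x + θ y + B x y) {D : ℕ}
    (hD : (2 * D) ^ 2 = Nat.card V) (hD1 : 1 ≤ D) {b : ℕ} (hb : b + D = 2 * D ^ 2) :
    ∃ P : Subgroup (V ≃ₗ[F] V), P.relIndex (Isom B) = b := by
  classical
  have : Finite V := Module.finite_of_finite F
  let _ := Fintype.ofFinite V
  have h2 := two_eq hq
  have hsh : ∀ {θ : V → F}, (∀ x y, θ (x + y) = θ x + θ y + B x y) → ∀ w,
      ∑ x, sg (θ x + B w x) = sg (θ w) * ∑ x, sg (θ x) := fun {θ} hθ w => by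
    rw [← Equiv.sum_comp (Equiv.addLeft w) fun x => sg (θ x), mul_sum]
    refine sum_congr rfl fun x _ => ?_
    rw [Equiv.coe_addLeft, hθ, ← sg_add hq]
    congr 1
    linear_combination -θ w * h2
  have h0 : ∀ {θ : V → F}, (∀ x y, θ (x + y) = θ x + θ y + B x y) → θ 0 = 0 := fun {θ} hθ => by
    simpa using hθ 0 0
  wlog hs : ∑ x, sg (θ x) = -(2 * D : ℤ) generalizing θ
  · have h3 := sign_sum hq hθ (fun x x' y => by simp)
    rw [show (univ.filter fun y => ∀ x, B x y = 0) = {0} from by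
      ext y; simpa using ⟨hB.2 y, fun h x => by simp [h]⟩, sum_singleton, h0 hθ,
      ← Nat.card_eq_fintype_card, ← hD, sg, if_pos rfl, mul_one] at h3
    push_cast at h3
    have h4 := (sq_eq_sq_iff_eq_or_eq_neg.1 h3).resolve_right hs
    obtain ⟨w, hw⟩ : ∃ w, θ w ≠ 0 := by
      by_contra hn
      push Not at hn
      simp only [hn, sg, if_true, sum_const, card_univ, ← Nat.card_eq_fintype_card, ← hD] at h4
      simp at h4
      nlinarith
    exact this (θ := fun x => θ x + B w x) (fun x y => by simp only [hθ, map_add]; ring)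
      (by rw [hsh hθ, h4, sg, if_neg hw, neg_one_mul])
  let _ : MulAction (V ≃ₗ[F] V) (V → F) := arrowAction
  refine ⟨stabilizer _ θ, ?_⟩
  rw [relIndex_stab, show orbit (Isom B) θ = (fun w x => θ x + B w x) ''
      (univ.filter fun w => θ w = 0 : Finset V) from ?_, Set.ncard_image_of_injective,
    Set.ncard_coe_finset]
  · have h3 := card_zero θ
    rw [hs, ← Nat.card_eq_fintype_card, ← hD] at h3
    zify at hb ⊢
    push_cast at h3
    linarith
  · intro w w' h
    exact sub_eq_zero.1 (hB.1 _ fun x => by simpa [sub_eq_zero] using congrFun h x)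
  ext θ'
  simp only [coe_filter, mem_univ, true_and, Set.mem_image, Set.mem_ofPred_eq]
  constructor
  · rintro ⟨g, rfl⟩
    let φ : Module.Dual F V :=
      { toFun := fun x => θ (g.1⁻¹ x) - θ x
        map_add' := fun x y => by
          simp only [map_add, hθ, (Isom B).inv_mem g.2 x y]; ring
        map_smul' := fun c x => by
          rcases zero_or_one hq c with rfl | rfl <;> simp [h0 hθ] }
    have h3 : (fun x => θ x + B ((B.toDual hB).symm φ) x) = g • θ := funext fun x => by
      rw [LinearMap.BilinForm.apply_toDual_symm_apply]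
      exact add_sub_cancel _ _
    refine ⟨_, ?_, h3⟩
    have h4 := hsh hθ ((B.toDual hB).symm φ)
    rw [show ∑ x, sg (θ x + B ((B.toDual hB).symm φ) x) = ∑ x, sg (θ (g.1⁻¹.toEquiv x)) from
      sum_congr rfl fun x _ => congrArg sg (congrFun h3 x),
      Equiv.sum_comp g.1⁻¹.toEquiv fun x => sg (θ x), hs, sg] at h4
    by_contra hn
    rw [if_neg hn] at h4
    omega
  · rintro ⟨w, hw, rfl⟩
    exact ⟨⟨_, (Isom B).inv_mem (ee_mem hA w 0 1)⟩, funext fun x =>
      theta_tv hq hA (P := fun _ => True) (fun x y _ _ => hθ x y) trivial trivial hw⟩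

omit hA hB [AddCommGroup V] [Module F V] [FiniteDimensional F V] in
theorem min_Sp2 {m : ℕ} (hm : 3 ≤ m) :
    (∀ H : Subgroup (Cfsg.PSp m F), H ≠ ⊤ → 2 ^ (m - 1) * (2 ^ m - 1) ≤ H.index) ∧
      ∃ H : Subgroup (Cfsg.PSp m F), H.index = 2 ^ (m - 1) * (2 ^ m - 1) := by
  obtain ⟨k, rfl⟩ := Nat.exists_eq_add_of_le' (show 1 ≤ m by omega)
  have hd : finrank F (Fin (k + 1) ⊕ Fin (k + 1) → F) = 2 * k + 2 := by simp; omega
  have hb : 2 ^ (k + 1 - 1) * (2 ^ (k + 1) - 1) + 2 ^ k = 2 * (2 ^ k) ^ 2 := by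
    obtain ⟨c, hc⟩ : ∃ c, 2 ^ k = c + 1 := ⟨_, (Nat.succ_pred_eq_of_pos (by positivity)).symm⟩
    rw [Nat.add_sub_cancel, pow_succ, hc, show (c + 1) * 2 - 1 = 2 * c + 1 by omega]
    ring
  obtain ⟨P, hP⟩ := exists_index hq (spB_isAlt (l := Fin (k + 1))) spB_nondegenerate
    (θ := fun v => ∑ i, v (Sum.inl i) * v (Sum.inr i)) (fun x y => by
      rw [spB_eq_sum, ← sum_add_distrib, ← sum_add_distrib]
      refine sum_congr rfl fun i _ => ?_
      simp only [Pi.add_apply]
      linear_combination x (Sum.inl i) * y (Sum.inr i) * two_eq hq) (D := 2 ^ k)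
    (by rw [ML.card_V' (F := F), hd, hq]; ring) Nat.one_le_two_pow hb
  refine min_index_PSp (min_relIndex2 hq spB_isAlt spB_nondegenerate hd (by omega) (by ring) hb)
    (fun g hg => ?_) hP
  rw [show g = 1 from LinearEquiv.ext fun v => by
    obtain ⟨c, hc⟩ := mem_span_singleton.1 (hg v)
    rcases zero_or_one hq c with rfl | rfl
    · rw [zero_smul, eq_comm, map_eq_zero_iff _ g.injective] at hc
      simp [hc]
    · simpa using hc.symm]
  exact P.one_mem

end H26.MS
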