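import Cfsg.Agent.H26.MinFam

/-! The solid type (triality images of the point type) for `Ω₈⁺(q)`. -/

namespace H26

open QuadraticMap H56 H60 Module Submodule Finset MulAction

variable {F V : Type*} [Field F] [AddCommGroup V] [Module F V] {Q : QuadraticForm F V}

theorem AS_smul_stab {Ω : Type*} [MulAction (O Q) Ω] (g : O Q) (ω : Ω) (x : V) :
    AS (stabilizer (O Q) (g • ω)) (g x) = img g (AS (stabilizer (O Q) ω) x) := by
  ext w
  simp only [mem_img, mem_AS, eich_mem_stab, map_smul, O.polar_apply_left]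

theorem full_smul_stab {Ω : Type*} [MulAction (O Q) Ω] (g : O Q) (ω : Ω) (x : V) :
    Full (stabilizer (O Q) (g • ω)) (g x) ↔ Full (stabilizer (O Q) ω) x := by
  simp only [Full, eich_mem_stab]
  exact ⟨fun h w => by simpa only [O.inv_apply_apply] using h (g w), fun h w => h _⟩

variable [Fintype F] [FiniteDimensional F V] {M : Subgroup (O Q)}

omit [Fintype F] [FiniteDimensional F V] in
theorem SolT.mem_AS (hP : SolT M) {x v : V} (hx : Q x = 0) (hx0 : x ≠ 0) (hv : Q v = 0)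
    (hxv : polar Q x v = 0) (hm : eich Q x v ∈ M) : v ∈ AS M x := by
  by_cases hi : ∃ c : F, v = c • x
  · obtain ⟨c, rfl⟩ := hi
    exact smul_mem _ _ (self_mem_AS M hx)
  · push Not at hi
    rcases hP x v ⟨hx, hv, hxv, hx0, hi⟩ with hL | ⟨hN, -⟩
    · exact hL.mem_AS hxv
    · exact absurd hm hN.not_mem

omit [Fintype F] in
theorem SolT.of_not_mem (hP : SolT M) {x y : V} (hx : Q x = 0) (hx0 : x ≠ 0) (hy : Q y = 0)
    (hxy : polar Q x y = 0) (hm : y ∉ AS M x) :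
    finrank F V ≤ 8 ∧ finrank F ↥(AS M x ⊓ ort Q y) = 3 ∧
      ∀ w, polar Q x w = 0 → polar Q y w = 0 → eich Q x w ∈ M → Q w = 0 := by
  have ht : TSP Q x y := ⟨hx, hy, hxy, hx0, fun d hd => hm (hd ▸ smul_mem _ _ (self_mem_AS M hx))⟩
  obtain ⟨-, ⟨D, h1, h2, h3, h4, h5⟩, h8⟩ := (hP x y ht).resolve_left fun hL => hm (hL.mem_AS hxy)
  have hs : ∀ w, polar Q x w = 0 → polar Q y w = 0 → eich Q x w ∈ M → w ∈ D := fun w a b c =>
    (h5 w a b).1 ⟨0, by simpa using c⟩
  refine ⟨h8, ?_, fun w a b c => h2 w (hs w a b c)⟩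
  have he : (AS M x ⊓ ort Q y) ⊔ span F {y} = D := by
    refine le_antisymm (sup_le (fun w hw => hs w hw.1.1 (mem_ort.1 hw.2) (eich_mem_of_AS hw.1))
      ((span_singleton_le_iff_mem _ _).2 h4)) fun w hw => ?_
    have a := polar_eq_zero_of_ts h2 x h3 w hw
    have b := polar_eq_zero_of_ts h2 y h4 w hw
    obtain ⟨t, ht⟩ := (h5 w a b).2 hw
    have : w = (w + t • y) + (-t) • y := by module
    rw [this]
    exact add_mem_sup ⟨hP.mem_AS hx hx0 (h2 _ (add_mem hw (smul_mem _ _ h4))) (by simp [a, hxy]) ht,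
      mem_ort.2 (by simp [b, pself hy])⟩ (smul_mem _ _ (mem_span_singleton_self y))
  rw [← he, finrank_sup_singleton (W := AS M x ⊓ ort Q y) fun h => hm h.1] at h1
  omega

theorem SolT.loc (hP : SolT M) (hQ : Q.polarBilin.Nondegenerate) (h7 : 7 ≤ finrank F V) {x : V}
    (hx : Q x = 0) (hx0 : x ≠ 0) (hF : ¬ Full M x) :
    finrank F V = 8 ∧ finrank F (AS M x) = 4 ∧ (∀ w ∈ AS M x, Q w = 0) ∧
      ∀ w, polar Q x w = 0 → eich Q x w ∈ M → w ∈ AS M x := by
  obtain ⟨y, hy, hQy, hy'⟩ := (hasHyp_ort2 hQ h7 x x).exists_sing_not_mem (T := AS M x)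
    fun hle => hF (full_of_ort_le (le_trans (by simp) hle))
  obtain ⟨h8, h3, -⟩ := hP.of_not_mem hx hx0 hQy (mem_ort.1 hy.1) hy'
  have h4 := finrank_le_inf_ort (Q := Q) (AS M x) y
  have hs : ∀ w, polar Q x w = 0 → eich Q x w ∈ M → Q w = 0 := by
    intro w a b
    obtain ⟨u, hu, hQu, hu'⟩ := (hasHyp_ort2 hQ h7 x w).exists_sing_not_mem (T := AS M x)
      fun hle => by
        have a := finrank_ort2 (Q := Q) x w
        have := finrank_mono hle
        omega
    exact (hP.of_not_mem hx hx0 hQu (mem_ort.1 hu.1) hu').2.2 w a (mem_ort'.1 hu.2) b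
  have hts : ∀ w ∈ AS M x, Q w = 0 := fun w hw => hs w hw.1 (eich_mem_of_AS hw)
  have h5 : finrank F (AS M x) = 4 := by
    by_contra hne
    have h6 := finrank_mono (inf_le_left : AS M x ⊓ ort Q y ≤ AS M x)
    obtain ⟨m, hm, hm'⟩ := exists_mem_not_mem_of_finrank_lt (A := span F {x}) (B := AS M x) (by
      have := finrank_span_singleton_le (F := F) x
      omega)
    obtain ⟨u, hu, hQu, hu'⟩ := (hasHyp_ort2 hQ h7 x x).exists_sing_not_mem (T := ort Q m)
      fun hle => by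
        obtain ⟨a, b, hab⟩ := mem_span_pair_of_ort hQ hle
        exact hm' (mem_span_singleton.2 ⟨a + b, by rw [add_smul, hab]⟩)
    have hum : polar Q u m ≠ 0 := fun h => hu' (mem_ort'.2 h)
    have h7 := (hP.of_not_mem hx hx0 hQu (mem_ort.1 hu.1)
      fun h => hum (polar_eq_zero_of_ts hts u h m hm)).2.1
    have := finrank_inf_ort hm hum
    omega
  have h9 := (nondeg_top hQ).two_mul_finrank_le hQ le_top (polar_eq_zero_of_ts hts)
  rw [finrank_top] at h9
  exact ⟨by omega, h5, hts, fun w a b => hP.mem_AS hx hx0 (hs w a b) a b⟩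

/-- The span of the full singular vectors. -/
def fullSpan (M : Subgroup (O Q)) : Submodule F V := span F {v | Q v = 0 ∧ Full M v}

omit [Fintype F] [FiniteDimensional F V] in
theorem ts_fullSpan (hQ : Q.polarBilin.Nondegenerate) (hM : ¬ EG Q ≤ M) :
    ∀ w ∈ fullSpan M, Q w = 0 := by
  have key : ∀ w ∈ fullSpan M, ∀ v, Q v = 0 ∧ Full M v → polar Q v w = 0 := by
    intro w hw v hv
    refine mem_ort.1 (span_le.2 (fun u hu => ?_) hw : w ∈ ort Q v)
    by_contra h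
    exact hM (EOin_le_of_full hQ hv.2 hu.2 hv.1 hu.1 fun h0 => h (mem_ort.2 h0))
  intro w hw
  induction hw using span_induction with
  | mem v hv => exact hv.1
  | zero => simp
  | add a b ha hb h1 h2 =>
    have : polar Q b a = 0 :=
      mem_ort.1 (span_le.2 (fun u hu => mem_ort'.2 (key b hb u hu)) ha : a ∈ ort Q b)
    simp [Q_add, h1, h2, pc this]
  | smul c a _ h => simp [Q_smul, h]

theorem SolT.finrank_fullSpan (hP : SolT M) (hQ : Q.polarBilin.Nondegenerate)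
    (h7 : 7 ≤ finrank F V) (hM : ¬ EG Q ≤ M) {x : V} (hx : Q x = 0) (hx0 : x ≠ 0)
    (hF : Full M x) : finrank F V = 8 ∧ finrank F (fullSpan M) = 4 := by
  obtain ⟨y, hy⟩ := exists_isHyp hQ hx0 hx
  obtain ⟨h8, h4, hts, -⟩ := hP.loc hQ h7 hy.qf hy.symm.ne_zero fun h =>
    hM (EOin_le_of_full hQ hF h hx hy.qf (by simp [hy.ef]))
  have h1 := finrank_inf_ort (Q := Q) (a := x) (self_mem_AS M hy.qf) (by simp [hy.ef])
  have h2 := finrank_sup_singleton (W := AS M y ⊓ ort Q x) (x := x) fun h => by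
    simpa [hy.fe] using h.1.1
  have hxm : x ∈ fullSpan M := subset_span ⟨hx, hF⟩
  have h3 : (AS M y ⊓ ort Q x) ⊔ span F {x} ≤ fullSpan M := by
    refine sup_le (fun w hw => ?_) ((span_singleton_le_iff_mem _ _).2 hxm)
    have a := hF.conj (eich_mem_of_AS hw.1)
    have e : eich Q y w x = x - w := by
      rw [eich_apply hy.qf hw.1.1, hts w hw.1, mem_ort'.1 hw.2, hy.fe]; simp
    have b : x - w ∈ fullSpan M := subset_span ⟨by rw [← e, O.map_Q, hx], e ▸ a⟩
    simpa using sub_mem hxm b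
  have h5 := finrank_mono h3
  have h9 := (nondeg_top hQ).two_mul_finrank_le hQ le_top (polar_eq_zero_of_ts (ts_fullSpan hQ hM))
  rw [finrank_top] at h9
  omega

variable {Ω : Type*} [MulAction (O Q) Ω] {S : Finset Ω}

omit [Fintype F] [FiniteDimensional F V] in
theorem fullSpan_smul (g : O Q) (ω : Ω) :
    fullSpan (stabilizer (O Q) (g • ω)) = img g (fullSpan (stabilizer (O Q) ω)) := by
  rw [img, fullSpan, fullSpan, Submodule.map_span]
  congr 1
  ext v
  constructor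
  · rintro ⟨a, b⟩
    refine ⟨g⁻¹ v, ⟨by rw [O.map_Q, a], (full_smul_stab g ω _).1 ?_⟩, O.apply_inv_apply g v⟩
    rwa [O.apply_inv_apply]
  · rintro ⟨w, ⟨a, b⟩, rfl⟩
    exact ⟨(O.map_Q g w).trans a, (full_smul_stab g ω _).2 b⟩

theorem Sm.card_ge_of_full (hS : Sm Q S) (hP : ∀ ω ∈ S, SolT (stabilizer (O Q) ω))
    (hM : ∀ ω ∈ S, ¬ EG Q ≤ stabilizer (O Q) ω) {ω : Ω} (hω : ω ∈ S) {x : V} (hx : Q x = 0)
    (hx0 : x ≠ 0) (hF : Full (stabilizer (O Q) ω) x) :
    (Fintype.card F + 1) * (Fintype.card F ^ 2 + 1) * (Fintype.card F ^ 3 + 1) ≤ #S := by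
  classical
  obtain ⟨h8, h4⟩ := (hP ω hω).finrank_fullSpan hS.hQ hS.seven (hM ω hω) hx hx0 hF
  have := TSFam.card_ge (Q := Q) 3 (U := ⊤)
    (𝒪 := (S.filter fun ω => finrank F (fullSpan (stabilizer (O Q) ω)) = 4).image
      fun ω => fullSpan (stabilizer (O Q) ω)) (nondeg_top hS.hQ) (by rw [finrank_top]; omega)
    ⟨fun _ _ => le_top, ?_, ?_, ?_⟩ ⟨_, mem_image_of_mem _ (mem_filter.2 ⟨hω, h4⟩)⟩
  · simp only [prod_range_succ, range_zero, prod_empty, one_mul, zero_add, pow_one] at this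
    exact this.trans (card_image_le.trans (card_filter_le _ _))
  all_goals
    intro D hD
    obtain ⟨ω', hω', rfl⟩ := mem_image.1 hD
    obtain ⟨a, b⟩ := mem_filter.1 hω'
  · exact ts_fullSpan hS.hQ (hM ω' a)
  · exact b
  · intro u _ v _
    rw [← fullSpan_smul]
    exact mem_image_of_mem _ (mem_filter.2 ⟨hS.cl _ (eich_mem_EG u v) _ a, by
      rw [fullSpan_smul, finrank_img, b]⟩)

theorem Sm.card_ge_of_not_full (hS : Sm Q S) (hP : ∀ ω ∈ S, SolT (stabilizer (O Q) ω))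
    (hne : S.Nonempty)
    (hF : ∀ ω ∈ S, ∀ x, Q x = 0 → x ≠ 0 → ¬ Full (stabilizer (O Q) ω) x) :
    (Fintype.card F + 1) * (Fintype.card F ^ 2 + 1) * Fintype.card F ^ 3 ≤ #S ∧
      (4 ≤ Fintype.card F →
        (Fintype.card F + 1) * (Fintype.card F ^ 2 + 1) * (2 * Fintype.card F ^ 3) ≤ #S) := by
  classical
  have hQ := hS.hQ
  have h7 := hS.seven
  have hl := fun ω hω x hx hx0 => (hP ω hω).loc hQ h7 hx hx0 (hF ω hω x hx hx0)
  obtain ⟨x, -, hx0, hx⟩ := exists_sing (Q := Q) ⊤ (by rw [finrank_top]; omega)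
  obtain ⟨x', hp⟩ := exists_isHyp hQ hx0 hx
  obtain ⟨ω0, hω0⟩ := hne
  have h8 := (hl ω0 hω0 x hx hx0).1
  let K : Ω → Submodule F V := fun ω => AS (stabilizer (O Q) ω) x ⊓ ort Q x'
  have hK : ∀ (g : O Q) (ω : Ω) (a : F), a ≠ 0 → g x = a • x → g x' = a⁻¹ • x' →
      K (g • ω) = img g (K ω) := by
    intro g ω a ha h1 h2
    simp only [K, img_inf, img_ort, ← AS_smul_stab, h1, h2, AS_smul _ ha]
    congr 1
    ext w; simp [ha]
  have hK3 : ∀ ω ∈ S, finrank F (K ω) = 3 := fun ω hω => by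
    have a := finrank_inf_ort (Q := Q) (a := x') (self_mem_AS (stabilizer (O Q) ω) hx)
      (by simp [hp.fe])
    have b := (hl ω hω x hx hx0).2.1
    change finrank F (K ω) + 1 = _ at a
    omega
  have hW := nondeg_ort2 hQ hx hp.qf (by simp [hp.ef])
  have hfam := TSFam.card_ge (Q := Q) 2 (𝒪 := S.image K) hW
    (by have := finrank_ort2 (Q := Q) x x'; omega) ⟨?_, ?_, ?_, ?_⟩ ⟨_, mem_image_of_mem _ hω0⟩
  rotate_left
  · intro D hD
    obtain ⟨ω, -, rfl⟩ := mem_image.1 hD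
    exact inf_le_inf_right _ (AS_le_ort _ _)
  · intro D hD w hw
    obtain ⟨ω, hω, rfl⟩ := mem_image.1 hD
    exact (hl ω hω x hx hx0).2.2.1 w hw.1
  · intro D hD
    obtain ⟨ω, hω, rfl⟩ := mem_image.1 hD
    exact hK3 ω hω
  · intro D hD u hu v hv
    obtain ⟨ω, hω, rfl⟩ := mem_image.1 hD
    rw [← hK _ ω 1 one_ne_zero
      (by rw [one_smul, eich_apply_of_orth_orth (mem_ort'.1 hu.1) (mem_ort'.1 hv.1)])
      (by rw [inv_one, one_smul, eich_apply_of_orth_orth (mem_ort'.1 hu.2) (mem_ort'.1 hv.2)])]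
    exact mem_image_of_mem _ (hS.cl _ (eich_mem_EG u v) _ hω)
  simp only [prod_range_succ, range_zero, prod_empty, one_mul, zero_add, pow_one] at hfam
  have hKe : ∀ ω v, polar Q x v = 0 → K (eich Q x v • ω) = K ω := by
    intro ω v hv
    have key : ∀ w, polar Q x w = 0 → (eich Q x w ∈ stabilizer (O Q) (eich Q x v • ω) ↔
        eich Q x w ∈ stabilizer (O Q) ω) := by
      intro w hw
      rw [← conj_mem_stab (ω := ω) (eich Q x v), eich_comm hx hv hw, mul_inv_cancel_right]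
    ext w
    simp only [K, Submodule.mem_inf, mem_AS]
    exact and_congr_left fun _ => and_congr_right fun hw => forall_congr' fun c =>
      key _ (by simp [hw])
  have horb : ∀ ω ∈ S, ∀ t : Finset Ω, (∀ v, polar Q x v = 0 → eich Q x v • ω ∈ t) →
      Fintype.card F ^ 3 ≤ #t := by
    intro ω hω t ht
    have := eich_count (Q := Q) (U := ⊤) (D := K ω ⊔ span F {x'}) (u := x) (w := x')
      (mem_sup_right (mem_span_singleton_self x')) hp.ef (fun v => eich Q x v • ω) t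
      (fun v _ hv => ht v hv) fun v _ v' _ hv hv' he => by
        have a : v - v' ∈ AS (stabilizer (O Q) ω) x := by
          refine (hl ω hω x hx hx0).2.2.2 _ (by simp [hv, hv']) ?_
          rw [mem_stabilizer_iff, ← neg_add_eq_sub, eich_add hx (by simp [hv']) hv, mul_smul, he,
            eich_neg, inv_smul_smul]
        have : v - v' = (v - v' - polar Q x' (v - v') • x) + polar Q x' (v - v') • x := by abel
        rw [this]
        exact add_mem_sup (mem_sup_left ⟨sub_mem a (smul_mem _ _ (self_mem_AS _ hx)),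
          mem_ort.2 (by simp [hp.fe])⟩) (smul_mem _ _ (mem_span_singleton_self x))
    have a := finrank_sup_le (K ω) (span F {x'})
    have b := finrank_span_singleton_le (F := F) x'
    rw [hK3 ω hω] at a
    have c : Fintype.card F ^ finrank F ↥(K ω ⊔ span F {x'}) ≤ Fintype.card F ^ 4 :=
      Nat.pow_le_pow_right Fintype.card_pos (by omega)
    rw [finrank_top, h8, show 8 - 1 = 3 + 4 by rfl, pow_add] at this
    exact Nat.le_of_mul_le_mul_right (this.trans (Nat.mul_le_mul_left _ c))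
      (pow_pos Fintype.card_pos _)
  have hfin : ∀ N, (∀ ω ∈ S, N ≤ #(S.filter (K · = K ω))) →
      (Fintype.card F + 1) * (Fintype.card F ^ 2 + 1) * N ≤ #S := by
    intro N hN
    have := card_mul_le_fib S (S.image K) K N 1 fun D hD => by
      obtain ⟨ω, hω, rfl⟩ := mem_image.1 hD
      simpa using hN ω hω
    rw [mul_one] at this
    exact (Nat.mul_le_mul_right _ hfam).trans this
  have hfib : ∀ ω ∈ S, ∀ ω' ∈ S.filter (K · = K ω), ∀ v, polar Q x v = 0 →
      eich Q x v • ω' ∈ S.filter (K · = K ω) := fun ω _ ω' hω' v hv =>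
    mem_filter.2 ⟨hS.cl _ (eich_mem_EG _ _) _ (mem_filter.1 hω').1,
      (hKe ω' v hv).trans (mem_filter.1 hω').2⟩
  refine ⟨hfin _ fun ω hω => horb ω hω _ (hfib ω hω ω (mem_filter.2 ⟨hω, rfl⟩)),
    fun h4 => hfin _ fun ω hω => ?_⟩
  let p : Ω → Prop := fun ω' => ∃ v, polar Q x v = 0 ∧ eich Q x v • ω = ω'
  rw [← card_filter_add_card_filter_not p, two_mul]
  refine add_le_add (horb ω hω _ fun v hv =>
    mem_filter.2 ⟨hfib ω hω ω (mem_filter.2 ⟨hω, rfl⟩) v hv, v, hv, rfl⟩) ?_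
  by_cases hex : ∃ ω' ∈ S.filter (K · = K ω), ¬ p ω'
  · obtain ⟨ω', h1, h2⟩ := hex
    refine horb ω' (mem_filter.1 h1).1 _ fun v hv => mem_filter.2 ⟨hfib ω hω ω' h1 v hv, ?_⟩
    rintro ⟨v', hv', he⟩
    refine h2 ⟨-v + v', by simp [hv, hv'], ?_⟩
    rw [eich_add hx (by simp [hv]) hv', mul_smul, he, eich_neg, inv_smul_smul]
  exfalso
  push Not at hex
  have hex' : ∀ ω' ∈ S, K ω' = K ω → ∀ ω'' ∈ S, K ω'' = K ω →
      ∃ v, polar Q x v = 0 ∧ polar Q x' v = 0 ∧ eich Q x v • ω' = ω'' := by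
    intro ω' a b ω'' c d
    obtain ⟨v', hv', rfl⟩ := hex ω' (mem_filter.2 ⟨a, b⟩)
    obtain ⟨v'', hv'', rfl⟩ := hex ω'' (mem_filter.2 ⟨c, d⟩)
    refine ⟨v'' - v' + (-polar Q x' (v'' - v')) • x, by simp [hv', hv'', hp.ee],
      by simp [hp.fe], ?_⟩
    rw [eich_add_smul_self _ hx (by simp [hv', hv'']), ← mul_smul,
      ← eich_add hx (by simp [hv', hv'']) hv', sub_add_cancel]
  obtain ⟨a, -, ha⟩ : ∃ a ∈ (univ : Finset F), a ∉ ({0, 1, -1} : Finset F) :=
    exists_mem_notMem_of_card_lt_card (lt_of_le_of_lt card_le_three (by rw [card_univ]; omega))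
  simp only [mem_insert, mem_singleton, not_or] at ha
  have ha0 : a * a ≠ 0 := mul_ne_zero ha.1 ha.1
  have ha1 : 1 - a * a ≠ 0 := fun h => by
    rcases mul_self_eq_one_iff.1 (by linear_combination -h : a * a = 1) with h | h
    exacts [ha.2.1 h, ha.2.2 h]
  have hτ := hp.tor_sq_mem_EG hQ (by omega) ha.1
  set τ := tor Q x x' (a * a) with hτd
  have hτK : ∀ ω', K (τ • ω') = K ω' := by
    intro ω'
    rw [hK τ ω' _ ha0 (tor_apply_e hp ha0) (tor_apply_f hp ha0), img_eq_iff]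
    exact fixer_le_sstab _ fun w hw => tor_apply_of_orth hw.1.1 (mem_ort.1 hw.2)
  have hτe : ∀ v (ω' : Ω), polar Q x v = 0 → polar Q x' v = 0 →
      τ • eich Q x v • ω' = eich Q x ((a * a) • v) • τ • ω' := by
    intro v ω' h1 h2
    rw [← tor_conj_eich hp ha0 h1 h2, ← mul_smul, ← mul_smul, inv_mul_cancel_right]
  obtain ⟨w, hw, hw', hwe⟩ := hex' ω hω rfl _ (hS.cl _ hτ ω hω) (hτK ω)
  set ω1 := eich Q x ((1 - a * a)⁻¹ • w) • ω with hω1
  have h1S : ω1 ∈ S := hS.cl _ (eich_mem_EG _ _) ω hω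
  have h1K : K ω1 = K ω := hKe _ _ (by simp [hw])
  have h1τ : τ • ω1 = ω1 := by
    rw [hω1, hτe _ _ (by simp [hw]) (by simp [hw']), ← hwe, ← mul_smul,
      ← eich_add hx (by simp [hw]) hw]
    congr 2
    have : (1 - a * a) * (1 - a * a)⁻¹ = 1 := mul_inv_cancel₀ ha1
    linear_combination (norm := module) (-this) • w
  obtain ⟨y, hy, hy0⟩ := (Submodule.ne_bot_iff (K ω1)).1 (by
    intro hb
    have := hK3 ω1 h1S
    rw [hb, finrank_bot] at this
    omega)
  have hQy := (hl ω1 h1S x hx hx0).2.2.1 y hy.1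
  obtain ⟨z, hz, hQz⟩ := (nondeg_top hQ).exists_Q_ne_of_lt hQ
    (W := ort Q x ⊓ ort Q x' ⊓ ort Q y) le_top (by
      have := finrank_ort3 (Q := Q) x x' y
      rw [finrank_top]; omega)
  have hyz : polar Q y z = 0 := mem_ort.1 hz.2
  have hgK : K (eich Q y z • ω1) = K ω := by
    rw [hK _ ω1 1 one_ne_zero
      (by rw [one_smul, eich_apply_of_orth_orth (pc hy.1.1) (mem_ort'.1 hz.1.1)])
      (by rw [inv_one, one_smul, eich_apply_of_orth_orth (mem_ort'.1 hy.2) (mem_ort'.1 hz.1.2)]),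
      ← h1K, img_eq_iff]
    refine mem_sstab_of_le fun k hk => ?_
    rw [eich_apply_of_orth hQy hyz (polar_eq_zero_of_ts (hl ω1 h1S x hx hx0).2.2.1 y hy.1 k hk.1)]
    exact add_mem hk (smul_mem _ _ hy)
  have hgτ : τ • eich Q y z • ω1 = eich Q y z • ω1 := by
    have : τ * eich Q y z * τ⁻¹ = eich Q y z := by
      rw [conj_eich, tor_apply_of_orth hy.1.1 (mem_ort.1 hy.2),
        tor_apply_of_orth (mem_ort.1 hz.1.1) (mem_ort.1 hz.1.2)]
    rw [← mul_smul, mul_inv_eq_iff_eq_mul.1 this, mul_smul, h1τ]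
  obtain ⟨u, hu, hu', hue⟩ := hex' ω1 h1S h1K _ (hS.cl _ (eich_mem_EG y z) ω1 h1S) hgK
  rw [← hue, hτe _ _ hu hu', h1τ] at hgτ
  have hu1 : (1 - a * a) • u ∈ AS (stabilizer (O Q) ω1) x := by
    refine (hl ω1 h1S x hx hx0).2.2.2 _ (by simp [hu]) ?_
    rw [mem_stabilizer_iff, sub_smul, one_smul, ← neg_add_eq_sub,
      eich_add hx (by simp [hu]) hu, mul_smul, ← hgτ, eich_neg, inv_smul_smul]
  have hu2 : u ∈ AS (stabilizer (O Q) ω1) x := by
    simpa [smul_smul, ha1] using smul_mem _ (1 - a * a)⁻¹ hu1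
  rw [mem_stabilizer_iff.1 (eich_mem_of_AS hu2)] at hue
  exact hQz ((hl ω1 h1S y hQy hy0).2.2.1 z ((hl ω1 h1S y hQy hy0).2.2.2 z hyz hue.symm))

end H26
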