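import Cfsg.Agent.H26.MinLine

/-! The types of totally singular lines relative to a point stabiliser of a small permutation
representation of `Ω(V)`. -/

namespace H26

open QuadraticMap H56 H60 Module Finset Matrix Submodule MulAction
open scoped Pointwise

variable {F V : Type*} [Field F] [AddCommGroup V] [Module F V] {Q : QuadraticForm F V}

/-- An ordered basis of a totally singular line. -/
structure TSP (Q : QuadraticForm F V) (x y : V) : Prop where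
  qx : Q x = 0
  qy : Q y = 0
  xy : polar Q x y = 0
  x0 : x ≠ 0
  ind : ∀ c : F, y ≠ c • x

theorem TSP.symm {x y : V} (h : TSP Q x y) : TSP Q y x := by
  refine ⟨h.qy, h.qx, pc h.xy, fun h0 => h.ind 0 (by simp [h0]), fun c hc => ?_⟩
  have hc0 : c ≠ 0 := by rintro rfl; exact h.x0 (by simpa using hc)
  exact h.ind c⁻¹ (by rw [hc, smul_smul, inv_mul_cancel₀ hc0, one_smul])

theorem TSP.map {x y : V} (h : TSP Q x y) (g : O Q) : TSP Q (g x) (g y) :=
  ⟨by rw [O.map_Q, h.qx], by rw [O.map_Q, h.qy], by rw [O.map_polar, h.xy],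
    fun h0 => h.x0 (g.injective (by rw [h0, map_zero])),
    fun c hc => h.ind c (g.injective (by rw [hc, map_smul]))⟩

/-- The root group of the line lies in `M`. -/
def LL (M : Subgroup (O Q)) (x y : V) : Prop := ∀ t : F, eich Q x (t • y) ∈ M

/-- The root group of the line meets `M` trivially. -/
def NL (M : Subgroup (O Q)) (x y : V) : Prop := ∀ t : F, eich Q x (t • y) ∈ M → t = 0

/-- `x` is the special point of the line. -/
def SS (M : Subgroup (O Q)) (x y : V) : Prop :=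
  ∀ w, polar Q x w = 0 → polar Q y w = 0 → ∃ t : F, eich Q x (w + t • y) ∈ M

/-- `x` is a non-special point of the line. -/
def NN (M : Subgroup (O Q)) (x y : V) : Prop :=
  ∀ w, polar Q x w = 0 → polar Q y w = 0 → eich Q x w ∈ M → ∃ c : F, w = c • x

/-- The line is of solid type. -/
def TT (M : Subgroup (O Q)) (x y : V) : Prop :=
  ∃ D : Submodule F V, finrank F D = 4 ∧ (∀ w ∈ D, Q w = 0) ∧ x ∈ D ∧ y ∈ D ∧
    ∀ w, polar Q x w = 0 → polar Q y w = 0 → ((∃ t : F, eich Q x (w + t • y) ∈ M) ↔ w ∈ D)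

section transport

variable {Ω : Type*} [MulAction (O Q) Ω] {ω : Ω} {x y : V} (g : O Q)

theorem LL.smul (h : LL (stabilizer (O Q) ω) x y) : LL (stabilizer (O Q) (g • ω)) (g x) (g y) :=
  fun t => by simpa only [eich_mem_stab, map_smul, map_add, O.inv_apply_apply] using h t

theorem NL.smul (h : NL (stabilizer (O Q) ω) x y) : NL (stabilizer (O Q) (g • ω)) (g x) (g y) :=
  fun t ht => h t (by simpa only [eich_mem_stab, map_smul, map_add, O.inv_apply_apply] using ht)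

theorem SS.smul (h : SS (stabilizer (O Q) ω) x y) : SS (stabilizer (O Q) (g • ω)) (g x) (g y) := by
  intro w h1 h2
  rw [O.polar_apply_left] at h1 h2
  simpa only [eich_mem_stab, map_smul, map_add, O.inv_apply_apply] using h _ h1 h2

theorem NN.smul (h : NN (stabilizer (O Q) ω) x y) : NN (stabilizer (O Q) (g • ω)) (g x) (g y) := by
  intro w h1 h2 h3
  rw [O.polar_apply_left] at h1 h2
  obtain ⟨c, hc⟩ := h _ h1 h2 ((eich_mem_stab g).1 h3)
  exact ⟨c, by rw [← map_smul, ← hc, O.apply_inv_apply]⟩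

theorem TT.smul (h : TT (stabilizer (O Q) ω) x y) : TT (stabilizer (O Q) (g • ω)) (g x) (g y) := by
  obtain ⟨D, h1, h2, h3, h4, h5⟩ := h
  refine ⟨img g D, by rw [finrank_img, h1], fun w hw => ?_, apply_mem_img.2 h3, apply_mem_img.2 h4,
    fun w a b => ?_⟩
  · rw [← O.map_Q g⁻¹]; exact h2 _ (mem_img.1 hw)
  · rw [O.polar_apply_left] at a b
    rw [mem_img, ← h5 _ a b]
    simp only [eich_mem_stab, map_smul, map_add, O.inv_apply_apply]

end transport

theorem TSP.exists_frm (hQ : Q.polarBilin.Nondegenerate) {x y : V} (h : TSP Q x y) :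
    ∃ x' y', Frm Q x y x' y' := by
  obtain ⟨x', h1, h2, h3⟩ := exists_sing_partner_orth hQ h.qx (pc h.xy) h.symm.ind
  have hW := (nondeg_top hQ).inf_ort_pair mem_top mem_top h.qx h1 h2
  obtain ⟨y', hy', h4, h5⟩ := hW.exists_partner
    ⟨⟨mem_top, mem_ort.2 h.xy⟩, mem_ort.2 (pc h3)⟩ h.symm.x0 h.qy
  exact ⟨x', y', ⟨h.qx, h1, h2⟩, ⟨h.qy, h4, h5⟩, h.xy, mem_ort.1 hy'.1.2, pc h3, mem_ort.1 hy'.2⟩

theorem Frm.decomp {x y x' y' : V} (h : Frm Q x y x' y') {w : V} (h1 : polar Q x w = 0)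
    (h2 : polar Q y w = 0) :
    ∃ u ∈ fU Q x y x' y', w = u + polar Q x' w • x + polar Q y' w • y := by
  refine ⟨w - polar Q x' w • x - polar Q y' w • y, mem_fU.2 ⟨?_, ?_, ?_, ?_⟩, by abel⟩
  · simp [h1, h.hx.ee, h.xy]
  · simp [h.hx.fe, h.x'y]
  · simp [h2, pc h.xy, h.hy.ee]
  · simp [h.hy.fe, pc h.xy']

variable [Fintype F] [FiniteDimensional F V]

theorem TSP.exists_EG (hQ : Q.polarBilin.Nondegenerate) (h7 : 7 ≤ finrank F V) {x y x2 y2 : V}
    (h : TSP Q x y) (h2 : TSP Q x2 y2) : ∃ g ∈ EG Q, g x = x2 ∧ g y = y2 := by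
  obtain ⟨g, hg, hgx⟩ := exists_EOin_apply_eq hQ (nondeg_top hQ) (by rw [finrank_top]; omega)
    mem_top mem_top h.x0 h2.x0 (h.qx.trans h2.qx.symm)
  have h1 := h.map g
  rw [hgx] at h1
  obtain ⟨x', y', hf⟩ := h2.exists_frm hQ
  have hW := (nondeg_top hQ).inf_ort_pair mem_top mem_top hf.hx.qe hf.hx.qf hf.hx.ef
  have a := finrank_le_inf_ort (Q := Q) ⊤ x2
  have b := finrank_le_inf_ort (Q := Q) (⊤ ⊓ ort Q x2) x'
  rw [finrank_top] at a
  obtain ⟨k, hk, hky⟩ := exists_EOin_apply_eq hQ hW (by omega)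
    (a := g y - polar Q x' (g y) • x2) (b := y2)
    ⟨⟨mem_top, mem_ort.2 (by simp [h1.xy, hf.hx.ee])⟩, mem_ort.2 (by simp [hf.hx.fe])⟩
    ⟨⟨mem_top, mem_ort.2 h2.xy⟩, mem_ort.2 hf.x'y⟩ (fun h0 => h1.ind _ (sub_eq_zero.1 h0))
    h2.symm.x0 (by simp [Q_sub, Q_smul, h1.qy, h2.qx, h2.qy, pc h1.xy])
  have hkx : k x2 = x2 := EOin_le_fixer _ hk x2 (mem_perp.2 fun w hw => mem_ort'.1 hw.1.2)
  rw [map_sub, map_smul, hkx] at hky
  refine ⟨eich Q x2 ((-polar Q x' (g y)) • y') * k * g,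
    mul_mem (mul_mem (eich_mem_EG _ _) (EOin_mono (Set.subset_univ _) hk)) hg, ?_, ?_⟩
  · rw [O.mul_apply, O.mul_apply, hgx, hkx, eich_apply_self h2.qx (by simp [hf.xy'])]
  · rw [O.mul_apply, O.mul_apply, eq_add_of_sub_eq hky,
      eich_apply_of_orth h2.qx (by simp [hf.xy']) (by simp [h2.xy, hf.hx.ee])]
    simp [hf.hy.fe, pc hf.xy']

theorem YSet.card_ge_of_sol {U : Submodule F V} {Γ : Subgroup (O Q)} {R : AddSubgroup F}
    {𝒴 : Finset (AddSubgroup (V × V))} (h : YSet Q U Γ R 𝒴) (hs : ∀ Y ∈ 𝒴, IsSol Q U Y)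
    {Y : AddSubgroup (V × V)} (hY : Y ∈ 𝒴) : Fintype.card F + 1 ≤ #𝒴 := by
  classical
  obtain ⟨h4, D, hDU, hD2, hD, hYD⟩ := hs Y hY
  obtain ⟨w, hw, hw0⟩ := (Submodule.ne_bot_iff D).1 (by rintro rfl; simp at hD2)
  obtain ⟨u, hu, hQu, hwu⟩ := h.hU.exists_partner (hDU hw) hw0 (hD w hw)
  have hU' := h.hU.inf_ort_pair (hDU hw) hu (hD w hw) hQu hwu
  have hne' : U ⊓ ort Q w ⊓ ort Q u ≠ ⊥ := by
    intro hb
    have a := finrank_le_inf_ort (Q := Q) U w
    have b := finrank_le_inf_ort (Q := Q) (U ⊓ ort Q w) u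
    rw [hb, finrank_bot] at b
    omega
  obtain ⟨z, hz, hQz⟩ := hU'.exists_Q_ne hne'
  have hY1 := h.gam Y hY _ (h.eich u hu z hz.1.1)
  obtain ⟨-, D1, -, hD12, hD1, hYD1⟩ := hs _ hY1
  have hw1 : H56.eich Q u z w ∈ D1 := by
    have := trm_mem_mp (X := 1) (g := H56.eich Q u z) ((hYD (w, 0)).2 ⟨hw, D.zero_mem⟩)
    rw [trm_one_left] at this
    exact ((hYD1 _).1 this).1
  have hp : polar Q w (H56.eich Q u z w) = -Q z := by
    have hwz : polar Q w z = 0 := mem_ort.1 hz.1.2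
    rw [eich_apply hQu (mem_ort.1 hz.2), polar_comm Q u w, hwu]
    simp [pself (hD w hw), hwz, pc hwz, hwu]
  have hb := h.orbit_bound hY1 (D := D1) (fun g hg v hv => by
      have := trm_mem_mp (X := 1) (g := g) ((hYD1 (v, 0)).2 ⟨hv, D1.zero_mem⟩)
      rw [hg, trm_one_left] at this
      exact ((hYD1 _).1 this).1) (hDU hw) (hD w hw) (D1.smul_mem (-Q z)⁻¹ hw1)
    (by rw [polar_smul_right, hp, smul_eq_mul, inv_mul_cancel₀ (neg_ne_zero.2 hQz)]) (fun hm => by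
      have := polar_eq_zero_of_ts hD1 _ ((hYD1 _).1 hm).1 _ hw1
      rw [hp] at this
      exact hQz (neg_eq_zero.1 this))
  have hlt := card_lt_card (filter_ssubset.2 ⟨Y, hY, not_not.2
    ((hYD (w, 0)).2 ⟨hw, D.zero_mem⟩)⟩ : (𝒴.filter fun Y' => (w, (0 : V)) ∉ Y') ⊂ 𝒴)
  rw [h4, hD12, show 4 - 1 = 2 + 1 by rfl, pow_succ'] at hb
  have := Nat.le_of_mul_le_mul_right hb (pow_pos Fintype.card_pos _)
  omega

variable {Ω : Type*} [MulAction (O Q) Ω] {S : Finset Ω}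

theorem Frm.mem_lev_bot {x y x' y' : V} (h : Frm Q x y x' y') (hS : Sm Q S) {ω : Ω} (hω : ω ∈ S)
    (hL : ¬ LL (stabilizer (O Q) ω) x y) :
    ω ∈ h.lev S ⊥ (Fintype.card F ^ finrank F (fU Q x y x' y')) := by
  have : Finite V := Module.finite_of_finite F
  have hR : h.Ro (stabilizer (O Q) ω) ≠ ⊤ := fun he => hL fun t =>
    h.mem_Ro.1 (he ▸ AddSubgroup.mem_top t)
  have hy := h.yset hS hR (Nat.card (h.Yof (stabilizer (O Q) ω)))
  have hY := h.mem_fam.2 ⟨ω, h.mem_lev.2 ⟨hω, rfl, rfl⟩, rfl⟩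
  have hc : Fintype.card F + 1 ≤ #(h.fam S (h.Ro (stabilizer (O Q) ω))
      (Nat.card (h.Yof (stabilizer (O Q) ω)))) := by
    rcases hy.classify with h1 | h1
    · exact h1.1.ge
    · exact hy.card_ge_of_sol h1 hY
  have hn := hy.card_eq hY (by omega)
  refine h.mem_lev.2 ⟨hω, eq_bot_of_orbit _ hR ?_, hn⟩
  have hm := h.master hS (h.Ro (stabilizer (O Q) ω)) (n := Nat.card (h.Yof (stabilizer (O Q) ω)))
    Nat.card_pos
  nth_rewrite 2 [hn] at hm
  refine lt_of_mul_lt_mul_right (a := Fintype.card F ^ finrank F (fU Q x y x' y')) ?_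
    (Nat.zero_le _)
  calc _ = (Fintype.card F + 1) * Fintype.card F ^ finrank F (fU Q x y x' y') *
        Nat.card (orbit Fˣ (h.Ro (stabilizer (O Q) ω))) := by ring
    _ ≤ _ := by gcongr
    _ < _ := hm
    _ = _ := by ring

omit [Fintype F] [FiniteDimensional F V] in
theorem Frm.ss_of_mem {x y x' y' : V} (h : Frm Q x y x' y') {M : Subgroup (O Q)}
    (hM : ∀ u ∈ fU Q x y x' y', (u, (0 : V)) ∈ h.Yof M) : SS M x y := by
  intro w h1 h2
  obtain ⟨u, hu, hw⟩ := h.decomp h1 h2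
  obtain ⟨-, -, t, ht⟩ := hM u hu
  refine ⟨t - polar Q y' w, ?_⟩
  rw [← eich_left h.hx.qe h.xy (mem_fU.1 hu).1 (polar Q x' w)] at ht
  convert ht using 2
  nth_rewrite 1 [hw]
  module

theorem Frm.line {x y x' y' : V} (h : Frm Q x y x' y') (hS : Sm Q S) :
    ((∃ ω ∈ S, SS (stabilizer (O Q) ω) x y) ∧ ∀ ω ∈ S, LL (stabilizer (O Q) ω) x y ∨
      (NL (stabilizer (O Q) ω) x y ∧ (SS (stabilizer (O Q) ω) x y ∨ NN (stabilizer (O Q) ω) x y) ∧
        (NN (stabilizer (O Q) ω) x y ∨ NN (stabilizer (O Q) ω) y x))) ∨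
    ∀ ω ∈ S, LL (stabilizer (O Q) ω) x y ∨
      (NL (stabilizer (O Q) ω) x y ∧ TT (stabilizer (O Q) ω) x y ∧ finrank F V ≤ 8) := by
  have hNL : ∀ ω : Ω, h.Ro (stabilizer (O Q) ω) = ⊥ → NL (stabilizer (O Q) ω) x y := fun ω h0 t ht =>
    AddSubgroup.mem_bot.1 (h0 ▸ h.mem_Ro.2 ht)
  rcases (h.yset hS (R := ⊥) bot_ne_top (Fintype.card F ^ finrank F (fU Q x y x' y'))).classify
    with ⟨-, h1, h2⟩ | h1
  · refine Or.inl ⟨?_, fun ω hω => ?_⟩
    · obtain ⟨ω, hω, he⟩ := h.mem_fam.1 h1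
      refine ⟨ω, (h.mem_lev.1 hω).1, h.ss_of_mem fun u hu => ?_⟩
      rw [he]; exact ⟨hu, AddSubgroup.mem_bot.2 rfl⟩
    refine or_iff_not_imp_left.2 fun hL => ?_
    have hl := h.mem_lev_bot hS hω hL
    have hN := hNL ω (h.mem_lev.1 hl).2.1
    obtain ⟨α, β, hαβ, hY⟩ := h2 _ (h.mem_fam.2 ⟨ω, hl, rfl⟩)
    have hx : β ≠ 0 → NN (stabilizer (O Q) ω) x y := by
      intro hβ w a b c
      obtain ⟨u, hu, hw⟩ := h.decomp a b
      have c' := c
      rw [hw, eich_left h.hx.qe h.xy (mem_fU.1 hu).1] at c'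
      obtain ⟨v, -, hv⟩ := (hY (u, 0)).1 ⟨hu, zero_mem _, _, c'⟩
      simp only [Prod.mk.injEq] at hv
      have hu0 : u = 0 := by rw [hv.1, (smul_eq_zero.1 hv.2.symm).resolve_left hβ, smul_zero]
      rw [hu0, ← Prod.zero_eq_mk, ee_zero] at c'
      rw [hu0, hN _ c', zero_smul, zero_add, add_zero] at hw
      exact ⟨_, hw⟩
    have hy : α ≠ 0 → NN (stabilizer (O Q) ω) y x := by
      intro hα w b a c
      obtain ⟨u, hu, hw⟩ := h.decomp a b
      have c' := c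
      rw [hw, eich_right h.hx.qe h.hy.qe h.xy (mem_fU.1 hu).2.2.1] at c'
      obtain ⟨v, -, hv⟩ := (hY (0, u)).1 ⟨zero_mem _, hu, _, c'⟩
      simp only [Prod.mk.injEq] at hv
      have hu0 : u = 0 := by rw [hv.2, (smul_eq_zero.1 hv.1.symm).resolve_left hα, smul_zero]
      rw [hu0, ← Prod.zero_eq_mk, ee_zero] at c'
      rw [hu0, neg_eq_zero.1 (hN _ c'), zero_smul, zero_add, zero_add] at hw
      exact ⟨_, hw⟩
    by_cases hβ : β = 0
    · have hα := hαβ.resolve_right (not_not.2 hβ)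
      refine ⟨hN, Or.inl (h.ss_of_mem fun u hu => (hY _).2 ⟨α⁻¹ • u, smul_mem _ _ hu, ?_⟩),
        Or.inr (hy hα)⟩
      simp [hβ, smul_smul, hα]
    · exact ⟨hN, Or.inr (hx hβ), Or.inl (hx hβ)⟩
  · refine Or.inr fun ω hω => or_iff_not_imp_left.2 fun hL => ?_
    have hl := h.mem_lev_bot hS hω hL
    obtain ⟨h4, D, hDU, hD2, hD, hY⟩ := h1 _ (h.mem_fam.2 ⟨ω, hl, rfl⟩)
    have h8 := Frm.finrank_le (Q := Q) (x := x) (y := y) (x' := x') (y' := y')
    refine ⟨hNL ω (h.mem_lev.1 hl).2.1, ⟨D ⊔ span F {x, y}, ?_, ?_,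
      mem_sup_right (subset_span (by simp)), mem_sup_right (subset_span (by simp)), ?_⟩, by omega⟩
    · have hi : LinearIndependent F ![x, y] := by
        rw [LinearIndependent.pair_iff]
        intro s t hst
        have a := congrArg (polar Q x') hst
        have b := congrArg (polar Q y') hst
        simp [h.hx.fe, h.x'y, h.hy.fe, pc h.xy'] at a b
        exact ⟨a, b⟩
      have hb : D ⊓ span F {x, y} = ⊥ := by
        rw [eq_bot_iff]
        rintro w ⟨hw, hw'⟩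
        obtain ⟨a, b, rfl⟩ := mem_span_pair.1 hw'
        have := mem_fU.1 (hDU hw)
        simp [h.hx.fe, h.x'y, h.hy.fe, pc h.xy'] at this
        simp [this]
      have := finrank_sup_add_finrank_inf_eq D (span F {x, y})
      rw [hb, finrank_bot, hD2, finrank_span_pair hi] at this
      exact this
    · intro w hw
      obtain ⟨u, hu, v, hv, rfl⟩ := mem_sup.1 hw
      obtain ⟨a, b, rfl⟩ := mem_span_pair.1 hv
      have := mem_fU.1 (hDU hu)
      simp [Q_add, Q_smul, hD u hu, h.hx.qe, h.hy.qe, h.xy, pc this.1, pc this.2.2.1]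
    · intro w a b
      obtain ⟨u, hu, hw⟩ := h.decomp a b
      have e : ∀ t : F, H56.eich Q x (w + t • y) = ee Q x y (u, 0) (polar Q y' w + t) := by
        intro t
        rw [← eich_left h.hx.qe h.xy (mem_fU.1 hu).1 (polar Q x' w)]
        congr 1
        nth_rewrite 1 [hw]
        module
      constructor
      · rintro ⟨t, ht⟩
        rw [e] at ht
        rw [hw, add_assoc]
        exact add_mem_sup ((hY (u, 0)).1 ⟨hu, zero_mem _, _, ht⟩).1 (mem_span_pair.2 ⟨_, _, rfl⟩)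
      · intro hm
        obtain ⟨d, hd, v, hv, hdv⟩ := mem_sup.1 hm
        obtain ⟨a', b', rfl⟩ := mem_span_pair.1 hv
        obtain ⟨-, -, t, ht⟩ := (hY (d, 0)).2 ⟨hd, zero_mem _⟩
        refine ⟨t - b', ?_⟩
        rw [← eich_left h.hx.qe h.xy (mem_fU.1 (hDU hd)).1 a'] at ht
        convert ht using 2
        rw [← hdv]; module

/-- All lines are of point type. -/
def PtT (M : Subgroup (O Q)) : Prop :=
  ∀ x y, TSP Q x y → LL M x y ∨ (NL M x y ∧ (SS M x y ∨ NN M x y) ∧ (NN M x y ∨ NN M y x))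

/-- All lines are of solid type. -/
def SolT (M : Subgroup (O Q)) : Prop :=
  ∀ x y, TSP Q x y → LL M x y ∨ (NL M x y ∧ TT M x y ∧ finrank F V ≤ 8)

theorem Sm.types (hS : Sm Q S) :
    ((∃ ω ∈ S, ∃ x y, TSP Q x y ∧ SS (stabilizer (O Q) ω) x y) ∧
      ∀ ω ∈ S, PtT (stabilizer (O Q) ω)) ∨ ∀ ω ∈ S, SolT (stabilizer (O Q) ω) := by
  have h7 := hS.seven
  obtain ⟨x, -, hx0, hx⟩ := exists_sing (Q := Q) ⊤ (by rw [finrank_top]; omega)
  obtain ⟨y, hy, hQy, hy'⟩ := exists_sing_not_mem_of_finrank (Q := Q) (⊤ ⊓ ort Q x) (span F {x}) (by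
    have a := finrank_le_inf_ort (Q := Q) ⊤ x
    have b := finrank_span_singleton_le (F := F) x
    rw [finrank_top] at a
    omega)
  have hxy : TSP Q x y := ⟨hx, hQy, mem_ort.1 hy.2, hx0, fun c hc =>
    hy' (hc ▸ smul_mem _ _ (mem_span_singleton_self x))⟩
  obtain ⟨x', y', hf⟩ := hxy.exists_frm hS.hQ
  rcases hf.line hS with ⟨⟨ω0, h0, h1⟩, h2⟩ | h2
  · refine Or.inl ⟨⟨ω0, h0, x, y, hxy, h1⟩, fun ω hω a b hab => ?_⟩
    obtain ⟨g, hg, rfl, rfl⟩ := hxy.exists_EG hS.hQ h7 hab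
    rw [← smul_inv_smul g ω]
    rcases h2 _ (hS.cl _ (inv_mem hg) ω hω) with h | ⟨a, b, c⟩
    · exact Or.inl (h.smul g)
    · exact Or.inr ⟨a.smul g, b.imp (SS.smul g) (NN.smul g), c.imp (NN.smul g) (NN.smul g)⟩
  · refine Or.inr fun ω hω a b hab => ?_
    obtain ⟨g, hg, rfl, rfl⟩ := hxy.exists_EG hS.hQ h7 hab
    rw [← smul_inv_smul g ω]
    rcases h2 _ (hS.cl _ (inv_mem hg) ω hω) with h | ⟨a, b, c⟩
    · exact Or.inl (h.smul g)
    · exact Or.inr ⟨a.smul g, b.smul g, c⟩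

end H26
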