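import Cfsg.Agent.H70.R3Spec

/-! R3 (row S4881): `JobTwo`. -/

set_option autoImplicit false

namespace H26.R3Two

open Cfsg H28 H90 H34.TL Module Subgroup MulAction H70.R3

universe u

theorem num {p z x k F : ℕ} (hp : p.Prime) (h11 : 11 ≤ p) (hz : z ∣ p - 1)
    (hx : x = 12 ∧ F = 42 ∨ x = 24 ∧ F = 90 ∨ x = 60 ∧ F = 270)
    (h : p ^ 2 ≤ 2 * (x * z) + 1) (hk : z * F ≤ k * x) (hl : 2 * k < p) :
    p = 11 ∧ x = 60 ∧ z = 1 := by
  obtain ⟨r, rfl⟩ : ∃ r, p = r + 1 := ⟨p - 1, by omega⟩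
  rw [Nat.add_sub_cancel] at hz
  obtain ⟨c, hc⟩ := hz
  have hz0 : 0 < z := Nat.pos_of_ne_zero (by rintro rfl; omega)
  have h1 : (r + 2) * c ≤ 2 * x := by
    refine Nat.le_of_mul_le_mul_right ?_ hz0
    have : (r + 2) * c * z + 1 = (r + 1) ^ 2 := by rw [mul_assoc, mul_comm c, ← hc]; ring
    rw [mul_assoc 2]
    omega
  have h2 : 2 * F ≤ c * x := by
    refine Nat.le_of_mul_le_mul_left ?_ hz0
    calc z * (2 * F) = 2 * (z * F) := by ring
      _ ≤ 2 * (k * x) := by omega
      _ = (2 * k) * x := by ring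
      _ ≤ r * x := Nat.mul_le_mul_right _ (by omega)
      _ = z * (c * x) := by rw [hc]; ring
  have h3 : 12 * c ≤ (r + 2) * c := Nat.mul_le_mul_right _ (by omega)
  rcases hx with ⟨rfl, rfl⟩ | ⟨rfl, rfl⟩ | ⟨rfl, rfl⟩
  · omega
  · omega
  have h4 : (r + 2) * 9 ≤ (r + 2) * c := Nat.mul_le_mul_left _ (by omega)
  have h5 : r ≠ 11 := by rintro rfl; exact absurd hp (by norm_num)
  obtain rfl : r = 10 := by omega
  have h6 : c = 9 ∨ c = 10 := by omega
  rcases h6 with rfl | rfl <;> omega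

theorem jobTwo : JobTwo.{u} := by
  classical
  intro G V _ _ _ _ _ _ p v₁ v₂ h hF ⟨ψ, h1, h2, h3⟩
  have h11 := h.ge11
  have key : ∀ (B : Subgroup G) [B.Normal] [IsMulCommutative B], Nat.card B ∣ p - 1 := fun B _ _ => by
    obtain ⟨k, d, h6, h7, h8, h9⟩ := hF.dvd B
    obtain rfl : k = 1 := by nlinarith
    rwa [pow_one] at h9
  have fin : ∀ {X : Type} [Group X] [Fintype X] [DecidableEq X] {F : ℕ} (e : G ⧸ center G ≃* X),
      ∑ x : X, (Finset.univ.filter fun y => x = 1 ∨ ∃ i < 6, y = x ^ i).card = F →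
      (Nat.card X = 12 ∧ F = 42 ∨ Nat.card X = 24 ∧ F = 90 ∨ Nat.card X = 60 ∧ F = 270) → False :=
    fun {X} _ _ _ F e hF hX => by
      have h6 : (center G).index = Nat.card X := Nat.card_congr e.toEquiv
      have h7 : Nat.card X * Nat.card (center G) = Nat.card G := by rw [← h6, index_mul_card]
      obtain ⟨rfl, h8, h9⟩ := num h.prime h11 (key (center G)) hX (h7 ▸ h.le_card)
        (hF ▸ cls_center e) h.lt
      have h10 : Nat.card G = 60 := by rw [← h7, h8, h9]
      have a1 := Nat.le_of_dvd Nat.card_pos (stabilizer G v₁).index_dvd_card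
      have a2 := Nat.le_of_dvd Nat.card_pos (stabilizer G v₂).index_dvd_card
      have a3 := h.add
      have b : ∀ v : V, (stabilizer G v).index = 60 → ∀ g k : G, g • k • v = k • v → g = 1 :=
        fun v hv g k e => by
          have c1 := (stabilizer G v).index_mul_card
          rw [hv, h10] at c1
          have c2 : stabilizer G v = ⊥ := card_eq_one.1 (by omega)
          have c3 : k⁻¹ * g * k ∈ stabilizer G v := by
            rw [mem_stabilizer_iff, mul_smul, mul_smul, e, inv_smul_smul]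
          rw [c2, mem_bot] at c3
          calc g = k * (k⁻¹ * g * k) * k⁻¹ := by group
            _ = 1 := by rw [c3]; group
      have := Fact.mk Nat.prime_two
      obtain ⟨g, hg⟩ := exists_prime_orderOf_dvd_card' (G := G) 2 (by rw [h10]; norm_num)
      have g1 : g ≠ 1 := by rintro rfl; simp at hg
      have g2 : g * g = 1 := by rw [← sq, ← hg, pow_orderOf_eq_one]
      have g3 : ∀ w : V, g • w = -w := fun w => by
        by_contra h12
        have h13 : g • w + w ≠ 0 := fun e => h12 (eq_neg_of_add_eq_zero_left e)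
        have h14 : g • (g • w + w) = g • w + w := by
          rw [smul_add, ← mul_smul, g2, one_smul, add_comm]
        rcases h.cover _ h13 with ⟨k, e⟩ | ⟨k, e⟩
        · exact g1 (b v₁ (by omega) g k (by rw [e, h14]))
        · exact g1 (b v₂ (by omega) g k (by rw [e, h14]))
      have g4 : g ∈ center G := mem_center_iff.2 fun x => eq_of_smul_eq_smul (α := V) fun w => by
        rw [mul_smul, mul_smul, g3, g3, smul_neg]
      rw [card_eq_one.1 h9] at g4
      exact g1 (mem_bot.1 g4)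
  rcases deg_two h1 h2 h3 with ⟨A, _, _, hA⟩ | ⟨⟨e⟩⟩ | ⟨⟨e⟩⟩ | ⟨⟨e⟩⟩
  · have h7 := h.le_card
    rw [← A.index_mul_card] at h7
    have h8 := Nat.mul_le_mul hA (Nat.le_of_dvd (by omega) (key A))
    obtain ⟨r, rfl⟩ : ∃ r, p = r + 1 := ⟨p - 1, by omega⟩
    have : (r + 1) ^ 2 = r * r + 2 * r + 1 := by ring
    have : 10 * r ≤ r * r := Nat.mul_le_mul_right _ (by omega)
    omega
  · exact fin e (by decide +kernel) (.inl ⟨card_a4, rfl⟩)
  · exact fin e (by decide +kernel) (.inr (.inl ⟨card_s4, rfl⟩))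
  · exact fin e (by decide +kernel) (.inr (.inr ⟨card_a5, rfl⟩))

end H26.R3Two
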