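import Cfsg.Agent.H53.SimXASpec
import Cfsg.Agent.H59.Order

/-! Tower SIM, chapter XA, job `CARD`. -/

set_option autoImplicit false
set_option maxHeartbeats 400000

namespace H26.XA

open Subgroup Cfsg Matrix H0.Sim H53.XA

theorem card_gam_false (n : ℕ) (F : Type) [Field F] [Fintype F] (q : ℕ) :
    Nat.card (Gam n F false q) = ∏ i : Fin n, (Fintype.card F ^ n - Fintype.card F ^ (i : ℕ)) := by
  have e : Gam n F false q = ⊤ := rfl
  rw [e, Subgroup.card_top, Matrix.card_GL_field]

theorem card_gam_true (n : ℕ) (F : Type) [Field F] [Fintype F] (q : ℕ) (hF : Fintype.card F = q ^ 2) :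
    Nat.card (Gam n F true q) = H59.ordGU q n := by
  have e : Gam n F true q = GU n F q := rfl
  rw [e, H59.card_GU hF]

theorem jobCard : H53.XA.CARD := by
  intro F _ _ u q fq
  have h1 : 1 < Fintype.card F := Fintype.one_lt_card
  cases u
  · have hF : Fintype.card F = q := fq
    simp only [card_gam_false, hF] at h1 ⊢
    refine ⟨h1, fun h3 => ?_, fun h2 => ?_⟩
    · interval_cases q <;> decide
    · subst h2; decide
  · have hF : Fintype.card F = q ^ 2 := fq
    simp only [card_gam_true _ F q hF]
    have h2 : 2 ≤ q := by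
      rw [hF] at h1
      by_contra h
      have : q ≤ 1 := by omega
      interval_cases q <;> simp at h1
    refine ⟨h2, fun h3 => ?_, fun h2 => ?_⟩
    · interval_cases q <;> decide
    · subst h2; decide

end H26.XA
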